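/-
Commutators in special unitary groups: shared notions.
The form is the hyperbolic one on `W + V + W'`, with `V` orthonormal.
-/
import Mathlib
import Cfsg.Agent.Lib.PSLCover.Basic

set_option autoImplicit false
set_option linter.unusedSectionVars false

namespace CfsgLib.OreSU

open Matrix

variable {F : Type*} [Field F]

/-- `σ` is the involution `x ↦ x ^ q` of the field with `q ^ 2` elements. -/
structure IsConj (q : ℕ) (σ : F →+* F) : Prop where
  card : Nat.card F = q ^ 2
  apply : ∀ x, σ x = x ^ q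

theorem IsConj.two_le {q : ℕ} {σ : F →+* F} (h : IsConj q σ) [Fintype F] : 2 ≤ q := by
  have h1 : 1 < Fintype.card F := Fintype.one_lt_card
  rw [← Nat.card_eq_fintype_card, h.card] at h1
  by_contra hq
  interval_cases q <;> simp at h1

theorem IsConj.invol {q : ℕ} {σ : F →+* F} (h : IsConj q σ) [Fintype F] (x : F) : σ (σ x) = x := by
  rw [h.apply, h.apply, ← pow_mul, ← sq, ← h.card, Nat.card_eq_fintype_card, FiniteField.pow_card]

/-- Conjugate transpose. -/
def adj (σ : F →+* F) {ι κ : Type*} (X : Matrix ι κ F) : Matrix κ ι F := (X.map σ)ᵀ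

section Adj

variable {ι κ ρ : Type*} (σ : F →+* F)

@[simp] theorem adj_apply (X : Matrix ι κ F) (i : κ) (j : ι) : adj σ X i j = σ (X j i) := rfl

theorem adj_zero : adj σ (0 : Matrix ι κ F) = 0 := by ext i j; simp

theorem adj_add (X Y : Matrix ι κ F) : adj σ (X + Y) = adj σ X + adj σ Y := by ext i j; simp

theorem adj_neg (X : Matrix ι κ F) : adj σ (-X) = -adj σ X := by ext i j; simp

theorem adj_smul (c : F) (X : Matrix ι κ F) : adj σ (c • X) = σ c • adj σ X := by ext i j; simp

theorem adj_one [DecidableEq ι] : adj σ (1 : Matrix ι ι F) = 1 := by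
  ext i j
  by_cases h : i = j
  · subst h; simp [Matrix.one_apply_eq]
  · simp [h, Ne.symm h]

theorem adj_mul [Fintype κ] (X : Matrix ι κ F) (Y : Matrix κ ρ F) :
    adj σ (X * Y) = adj σ Y * adj σ X := by
  rw [adj, adj, adj, Matrix.map_mul, Matrix.transpose_mul]

theorem adj_adj (hσ : ∀ x, σ (σ x) = x) (X : Matrix ι κ F) : adj σ (adj σ X) = X := by
  ext i j; simp [hσ]

theorem det_adj [Fintype ι] [DecidableEq ι] (X : Matrix ι ι F) : (adj σ X).det = σ X.det := by
  rw [adj, Matrix.det_transpose, RingHom.map_det]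
  rfl

end Adj

variable {ι : Type*} [Fintype ι] [DecidableEq ι]

/-- The isometries of the sesquilinear form with Gram matrix `J`. -/
def isom (σ : F →+* F) (J : Matrix ι ι F) : Subgroup (GL ι F) where
  carrier := {g | adj σ (g : Matrix ι ι F) * J * g = J}
  one_mem' := by simp [adj_one]
  mul_mem' {a b} ha hb := by
    simp only [Set.mem_ofPred_eq, Units.val_mul] at ha hb ⊢
    calc adj σ ((a : Matrix ι ι F) * (b : Matrix ι ι F)) * J * ((a : Matrix ι ι F) * (b : Matrix ι ι F))
        = adj σ (b : Matrix ι ι F) * (adj σ (a : Matrix ι ι F) * J * a) * b := by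
          rw [adj_mul]; simp only [mul_assoc]
      _ = J := by rw [ha, hb]
  inv_mem' {a} ha := by
    simp only [Set.mem_ofPred_eq] at ha ⊢
    calc adj σ ((a⁻¹ : GL ι F) : Matrix ι ι F) * J * ((a⁻¹ : GL ι F) : Matrix ι ι F)
        = adj σ ((a⁻¹ : GL ι F) : Matrix ι ι F) * (adj σ (a : Matrix ι ι F) * J * a) *
            ((a⁻¹ : GL ι F) : Matrix ι ι F) := by rw [ha]
      _ = adj σ ((a : Matrix ι ι F) * ((a⁻¹ : GL ι F) : Matrix ι ι F)) * J *
            ((a : Matrix ι ι F) * ((a⁻¹ : GL ι F) : Matrix ι ι F)) := by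
          rw [adj_mul]; simp only [mul_assoc]
      _ = J := by rw [Units.mul_inv, adj_one, one_mul, mul_one]

/-- The isometries of determinant one. -/
def sisom (σ : F →+* F) (J : Matrix ι ι F) : Subgroup (GL ι F) :=
  isom σ J ⊓ (GeneralLinearGroup.det : GL ι F →* Fˣ).ker

theorem mem_sisom {σ : F →+* F} {J : Matrix ι ι F} {g : GL ι F} :
    g ∈ sisom σ J ↔ adj σ (g : Matrix ι ι F) * J * g = J ∧ (g : Matrix ι ι F).det = 1 := by
  rw [sisom, Subgroup.mem_inf, MonoidHom.mem_ker, Units.ext_iff]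
  rfl

/-- `g` is a commutator of two elements of `N`. -/
def IsComm {G : Type*} [Group G] (N : Subgroup G) (g : G) : Prop :=
  ∃ a ∈ N, ∃ b ∈ N, g = a * b * a⁻¹ * b⁻¹

/-- The index set of `W + V + W'`. -/
abbrev Idx (k m : ℕ) := Fin k ⊕ (Fin m ⊕ Fin k)

/-- The index of a vector of `W`. -/
abbrev wI {k m : ℕ} (i : Fin k) : Idx k m := Sum.inl i
/-- The index of a vector of `V`. -/
abbrev vI {k m : ℕ} (i : Fin m) : Idx k m := Sum.inr (Sum.inl i)
/-- The index of a vector of `W'`. -/
abbrev fI {k m : ℕ} (i : Fin k) : Idx k m := Sum.inr (Sum.inr i)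

/-- The hyperbolic Gram matrix. -/
def hyp (k m : ℕ) : Matrix (Idx k m) (Idx k m) F :=
  fromBlocks 0 (fromCols (0 : Matrix (Fin k) (Fin m) F) 1)
    (fromRows (0 : Matrix (Fin m) (Fin k) F) 1) (fromBlocks 1 0 0 0)

/-- The normal form of a non-scalar element: `W` goes onto `W'` triangularly and `V` is scalar
modulo `W'`. -/
structure NormalForm {k m : ℕ} (g : Matrix (Idx k m) (Idx k m) F) (lam : F) : Prop where
  ww : g.submatrix wI wI = 0
  wv : g.submatrix wI vI = 0
  vw : g.submatrix vI wI = 0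
  vv : g.submatrix vI vI = lam • (1 : Matrix (Fin m) (Fin m) F)
  upper : ∀ i j : Fin k, j < i → g (fI i) (wI j) = 0
  diag : ∀ i : Fin k, g (fI i) (wI i) ≠ 0

/-- The Gauss middle factor of a matrix with invertible first block. -/
noncomputable def middle {k m : ℕ} (g : Matrix (Idx k m) (Idx k m) F) : Matrix (Fin m) (Fin m) F :=
  g.submatrix vI vI - g.submatrix vI wI * (g.submatrix wI wI)⁻¹ * g.submatrix wI vI

variable {k : ℕ}

/-- No non-zero matrix is fixed by `X ↦ H X H*`. -/
def FreeW (σ : F →+* F) (H : Matrix (Fin k) (Fin k) F) : Prop :=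
  ∀ X : Matrix (Fin k) (Fin k) F, H * X * adj σ H = X → X = 0

/-- `H` has no eigenvalue of norm one in `F`. -/
def Avoids (σ : F →+* F) (H : Matrix (Fin k) (Fin k) F) : Prop :=
  ∀ η : F, η * σ η = 1 → ∀ v : Fin k → F, H *ᵥ v = η • v → v = 0

/-- An admissible commutator representation of the block on `W`. -/
def Good (q : ℕ) (σ : F →+* F) (ε : F) (fix : Prop) (A : Matrix (Fin k) (Fin k) F) : Prop :=
  ∃ b H : GL (Fin k) F, A = ((b * H * b⁻¹ * H⁻¹ : GL (Fin k) F) : Matrix (Fin k) (Fin k) F) ∧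
    FreeW σ (H : Matrix (Fin k) (Fin k) F) ∧ Avoids σ (H : Matrix (Fin k) (Fin k) F) ∧
    (H : Matrix (Fin k) (Fin k) F).det ^ (q - 1) = ε ∧
    (fix → (b : Matrix (Fin k) (Fin k) F).det ^ (q - 1) = 1)

theorem Good.conj {q : ℕ} {σ : F →+* F} {ε : F} {fix : Prop} {A : Matrix (Fin k) (Fin k) F}
    (h : Good q σ ε fix A) (c : GL (Fin k) F) :
    Good q σ ε fix ((c : Matrix (Fin k) (Fin k) F) * A * ((c⁻¹ : GL (Fin k) F) : Matrix (Fin k) (Fin k) F)) := by
  obtain ⟨b, H, hA, hF, hv, hd, hb⟩ := h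
  have hdet : ∀ x : GL (Fin k) F,
      ((c * x * c⁻¹ : GL (Fin k) F) : Matrix (Fin k) (Fin k) F).det = (x : Matrix (Fin k) (Fin k) F).det := by
    intro x
    simp only [Units.val_mul]
    exact Matrix.det_units_conj c _
  refine ⟨c * b * c⁻¹, c * H * c⁻¹, ?_, ?_, ?_, by rw [hdet, hd], fun h => by rw [hdet, hb h]⟩
  · rw [hA, ← Units.val_mul, ← Units.val_mul]
    congr 1
    group
  · intro X hX
    set M : Matrix (Fin k) (Fin k) F := ((c⁻¹ : GL (Fin k) F) : Matrix (Fin k) (Fin k) F) with hM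
    set N : Matrix (Fin k) (Fin k) F := (c : Matrix (Fin k) (Fin k) F) with hN
    have hMN : M * N = 1 := by rw [hM, hN, Units.inv_mul]
    have hNM : N * M = 1 := by rw [hM, hN, Units.mul_inv]
    have hX' : N * (H : Matrix (Fin k) (Fin k) F) * M * X *
        (adj σ M * adj σ (H : Matrix (Fin k) (Fin k) F) * adj σ N) = X := by
      simpa only [Units.val_mul, adj_mul, ← hM, ← hN, mul_assoc] using hX
    have hMN' : adj σ N * adj σ M = 1 := by rw [← adj_mul, hMN, adj_one]
    have h1 : (H : Matrix (Fin k) (Fin k) F) * (M * X * adj σ M) * adj σ (H : Matrix (Fin k) (Fin k) F) =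
        M * X * adj σ M := by
      calc (H : Matrix (Fin k) (Fin k) F) * (M * X * adj σ M) * adj σ (H : Matrix (Fin k) (Fin k) F)
          = (M * N) * (H : Matrix (Fin k) (Fin k) F) * (M * X * adj σ M) *
              adj σ (H : Matrix (Fin k) (Fin k) F) * (adj σ N * adj σ M) := by
            rw [hMN, hMN', one_mul, mul_one]
        _ = M * (N * (H : Matrix (Fin k) (Fin k) F) * M * X *
              (adj σ M * adj σ (H : Matrix (Fin k) (Fin k) F) * adj σ N)) * adj σ M := by
            simp only [mul_assoc]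
        _ = M * X * adj σ M := by rw [hX']
    have h2 := hF _ h1
    calc X = N * (M * X * adj σ M) * adj σ N := by
          simp only [← mul_assoc, hNM, one_mul]
          simp only [mul_assoc, ← adj_mul, hNM, adj_one, mul_one]
      _ = 0 := by rw [h2, mul_zero, zero_mul]
  · intro η hη v hv'
    have h1 : (H : Matrix (Fin k) (Fin k) F) *ᵥ (((c⁻¹ : GL (Fin k) F) : Matrix (Fin k) (Fin k) F) *ᵥ v) =
        η • (((c⁻¹ : GL (Fin k) F) : Matrix (Fin k) (Fin k) F) *ᵥ v) := by
      have h2 := congrArg (((c⁻¹ : GL (Fin k) F) : Matrix (Fin k) (Fin k) F) *ᵥ ·) hv'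
      simpa only [Units.val_mul, Matrix.mulVec_mulVec, ← mul_assoc, Units.inv_mul, one_mul,
        Matrix.mulVec_smul] using h2
    have h3 := congrArg ((c : Matrix (Fin k) (Fin k) F) *ᵥ ·) (hv η hη _ h1)
    simpa only [Matrix.mulVec_mulVec, Units.mul_inv, Matrix.one_mulVec, Matrix.mulVec_zero] using h3

/-- A witness for the middle block `diagonal ν`. -/
def Mid {m : ℕ} (σ : F →+* F) (ν : Fin m → F) (ε : F) : Prop :=
  ∃ η : Fin m → F, (∀ i, η i * σ (η i) = 1) ∧ ∏ i, η i = ε ∧
    ∀ z : F, z * σ z = 1 → 0 < m → ∃ b ∈ isom σ (1 : Matrix (Fin m) (Fin m) F),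
      (b : Matrix (Fin m) (Fin m) F).det = z ∧
      (b : Matrix (Fin m) (Fin m) F) * diagonal η = diagonal (ν * η) * b

end CfsgLib.OreSU
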