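/-
Three by three block matrices on `W + V + W'`.
-/
import Mathlib
import Cfsg.Agent.Lib.OreSU.Defs

set_option autoImplicit false
set_option linter.unusedSectionVars false

namespace CfsgLib.OreSU

open Matrix

variable {F : Type*} [Field F] {k m : ℕ}

/-- A matrix on `W + V + W'` given by its nine blocks, row by row. -/
def blk (A : Matrix (Fin k) (Fin k) F) (B : Matrix (Fin k) (Fin m) F) (C : Matrix (Fin k) (Fin k) F)
    (D : Matrix (Fin m) (Fin k) F) (E : Matrix (Fin m) (Fin m) F) (G : Matrix (Fin m) (Fin k) F)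
    (H : Matrix (Fin k) (Fin k) F) (I : Matrix (Fin k) (Fin m) F) (J : Matrix (Fin k) (Fin k) F) :
    Matrix (Idx k m) (Idx k m) F
  | Sum.inl i, Sum.inl j => A i j
  | Sum.inl i, Sum.inr (Sum.inl j) => B i j
  | Sum.inl i, Sum.inr (Sum.inr j) => C i j
  | Sum.inr (Sum.inl i), Sum.inl j => D i j
  | Sum.inr (Sum.inl i), Sum.inr (Sum.inl j) => E i j
  | Sum.inr (Sum.inl i), Sum.inr (Sum.inr j) => G i j
  | Sum.inr (Sum.inr i), Sum.inl j => H i j
  | Sum.inr (Sum.inr i), Sum.inr (Sum.inl j) => I i j
  | Sum.inr (Sum.inr i), Sum.inr (Sum.inr j) => J i j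

theorem blk_eta (M : Matrix (Idx k m) (Idx k m) F) :
    blk (M.submatrix wI wI) (M.submatrix wI vI) (M.submatrix wI fI) (M.submatrix vI wI)
      (M.submatrix vI vI) (M.submatrix vI fI) (M.submatrix fI wI) (M.submatrix fI vI)
      (M.submatrix fI fI) = M := by
  ext i j
  rcases i with i | i | i <;> rcases j with j | j | j <;> rfl

section Blocks

variable (A A' : Matrix (Fin k) (Fin k) F) (B B' : Matrix (Fin k) (Fin m) F)
  (C C' : Matrix (Fin k) (Fin k) F) (D D' : Matrix (Fin m) (Fin k) F)
  (E E' : Matrix (Fin m) (Fin m) F) (G G' : Matrix (Fin m) (Fin k) F)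
  (H H' : Matrix (Fin k) (Fin k) F) (I I' : Matrix (Fin k) (Fin m) F)
  (J J' : Matrix (Fin k) (Fin k) F)

@[simp] theorem blk_ww : (blk A B C D E G H I J).submatrix wI wI = A := rfl
@[simp] theorem blk_wv : (blk A B C D E G H I J).submatrix wI vI = B := rfl
@[simp] theorem blk_wf : (blk A B C D E G H I J).submatrix wI fI = C := rfl
@[simp] theorem blk_vw : (blk A B C D E G H I J).submatrix vI wI = D := rfl
@[simp] theorem blk_vv : (blk A B C D E G H I J).submatrix vI vI = E := rfl
@[simp] theorem blk_vf : (blk A B C D E G H I J).submatrix vI fI = G := rfl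
@[simp] theorem blk_fw : (blk A B C D E G H I J).submatrix fI wI = H := rfl
@[simp] theorem blk_fv : (blk A B C D E G H I J).submatrix fI vI = I := rfl
@[simp] theorem blk_ff : (blk A B C D E G H I J).submatrix fI fI = J := rfl

theorem blk_mul : blk A B C D E G H I J * blk A' B' C' D' E' G' H' I' J' =
    blk (A * A' + B * D' + C * H') (A * B' + B * E' + C * I') (A * C' + B * G' + C * J')
      (D * A' + E * D' + G * H') (D * B' + E * E' + G * I') (D * C' + E * G' + G * J')
      (H * A' + I * D' + J * H') (H * B' + I * E' + J * I') (H * C' + I * G' + J * J') := by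
  ext i j
  rcases i with i | i | i <;> rcases j with j | j | j <;>
    simp [blk, Matrix.mul_apply, Fintype.sum_sum_type, add_assoc]

theorem adj_blk (σ : F →+* F) : adj σ (blk A B C D E G H I J) =
    blk (adj σ A) (adj σ D) (adj σ H) (adj σ B) (adj σ E) (adj σ I) (adj σ C) (adj σ G) (adj σ J) := by
  ext i j
  rcases i with i | i | i <;> rcases j with j | j | j <;> rfl

end Blocks

theorem blk_one : blk (k := k) (m := m) (1 : Matrix (Fin k) (Fin k) F) 0 0 0 1 0 0 0 1 = 1 := by
  ext i j
  rcases i with i | i | i <;> rcases j with j | j | j <;> simp [blk, Matrix.one_apply]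

theorem hyp_eq : (hyp k m : Matrix (Idx k m) (Idx k m) F) = blk 0 0 1 0 1 0 1 0 0 := by
  ext i j
  rcases i with i | i | i <;> rcases j with j | j | j <;> simp [hyp, blk, fromBlocks, fromCols, Matrix.fromRows_apply_inl, Matrix.fromRows_apply_inr]

/-- The determinant of an upper unitriangular block matrix. -/
theorem det_blk_unit (B : Matrix (Fin k) (Fin m) F) (C : Matrix (Fin k) (Fin k) F)
    (G : Matrix (Fin m) (Fin k) F) : (blk 1 B C 0 1 G 0 0 1).det = 1 := by
  have e : blk 1 B C 0 1 G 0 0 1 = fromBlocks 1 (fromCols B C) 0 (fromBlocks 1 G 0 1) := by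
    ext i j
    rcases i with i | i | i <;> rcases j with j | j | j <;>
      simp [blk, fromBlocks, fromCols, Matrix.one_apply]
  rw [e, det_fromBlocks_zero₂₁, det_fromBlocks_zero₂₁]
  simp

/-- The determinant of a lower unitriangular block matrix. -/
theorem det_blk_unit_lower (D : Matrix (Fin m) (Fin k) F) (H : Matrix (Fin k) (Fin k) F)
    (I : Matrix (Fin k) (Fin m) F) : (blk 1 0 0 D 1 0 H I 1).det = 1 := by
  have e : blk 1 0 0 D 1 0 H I 1 = fromBlocks 1 0 (fromRows D H) (fromBlocks 1 0 I 1) := by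
    ext i j
    rcases i with i | i | i <;> rcases j with j | j | j <;>
      simp [blk, fromBlocks, Matrix.fromRows_apply_inl, Matrix.fromRows_apply_inr, Matrix.one_apply]
  rw [e, det_fromBlocks_zero₁₂, det_fromBlocks_zero₁₂]
  simp

/-- The determinant of a block diagonal matrix. -/
theorem det_blk_diag (A : Matrix (Fin k) (Fin k) F) (E : Matrix (Fin m) (Fin m) F)
    (J : Matrix (Fin k) (Fin k) F) : (blk A 0 0 0 E 0 0 0 J).det = A.det * (E.det * J.det) := by
  have e : blk A 0 0 0 E 0 0 0 J = fromBlocks A 0 0 (fromBlocks E 0 0 J) := by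
    ext i j
    rcases i with i | i | i <;> rcases j with j | j | j <;> simp [blk, fromBlocks]
  rw [e, det_fromBlocks_zero₂₁, det_fromBlocks_zero₂₁]

end CfsgLib.OreSU
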