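/-
Passage between `SU n F q` and the isometries of a congruent Gram matrix.
-/
import Mathlib
import Cfsg.Prelude.Def_Classical
import Cfsg.Agent.Lib.OreSU.Defs

set_option autoImplicit false
set_option linter.unusedSectionVars false

namespace CfsgLib.OreSU

open Matrix

variable {F : Type*} [Field F] [Fintype F] {q : ℕ} {σ : F →+* F} {n : ℕ}

theorem hermForm_eq (hσ : IsConj q σ) (u v : Fin n → F) :
    Cfsg.hermForm n F q u v = u ⬝ᵥ (σ ∘ v) := by
  simp [Cfsg.hermForm, dotProduct, hσ.apply]

theorem mem_SU_iff (hσ : IsConj q σ) (g : Matrix.SpecialLinearGroup (Fin n) F) :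
    g ∈ Cfsg.SU n F q ↔ adj σ (g : Matrix (Fin n) (Fin n) F) * (g : Matrix (Fin n) (Fin n) F) = 1 := by
  set G : Matrix (Fin n) (Fin n) F := (g : Matrix (Fin n) (Fin n) F) with hG
  have hform : ∀ u v : Fin n → F, Cfsg.hermForm n F q (G *ᵥ u) (G *ᵥ v) =
      u ⬝ᵥ ((Gᵀ * G.map σ) *ᵥ (σ ∘ v)) := by
    intro u v
    have h1 : σ ∘ (G *ᵥ v) = (G.map σ) *ᵥ (σ ∘ v) := funext fun i => RingHom.map_mulVec σ G v i
    rw [hermForm_eq hσ, h1, ← Matrix.mulVec_mulVec, Matrix.dotProduct_mulVec u,
      Matrix.vecMul_transpose]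
  have hflip : Gᵀ * G.map σ = 1 ↔ adj σ G * G = 1 := by
    have e1 : (Gᵀ * G.map σ).map σ = adj σ G * G := by
      rw [Matrix.map_mul]
      congr 1
      ext i j
      simp [hσ.invol]
    constructor
    · intro h
      rw [← e1, h]
      ext i j
      rcases eq_or_ne i j with rfl | hij
      · simp [Matrix.one_apply_eq]
      · simp [Matrix.one_apply_ne hij]
    · intro h
      ext i j
      have h2 := congrArg σ (congrFun (congrFun (e1.trans h) i) j)
      rw [Matrix.map_apply, hσ.invol] at h2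
      rw [h2]
      rcases eq_or_ne i j with rfl | hij
      · simp [Matrix.one_apply_eq]
      · simp [Matrix.one_apply_ne hij]
  rw [← hflip]
  constructor
  · intro h
    ext i j
    have h1 : Cfsg.hermForm n F q (G *ᵥ Pi.single i 1) (G *ᵥ Pi.single j 1) =
        Cfsg.hermForm n F q (Pi.single i 1) (Pi.single j 1) := h _ _
    have hs : σ ∘ (Pi.single j (1 : F) : Fin n → F) = Pi.single j 1 := by
      funext l
      by_cases hl : l = j
      · subst hl; simp
      · simp [hl]
    rw [hform, hermForm_eq hσ, hs, single_dotProduct, single_dotProduct, one_mul, one_mul,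
      Matrix.mulVec_single_one] at h1
    rw [Matrix.col_apply] at h1
    rw [h1, Matrix.one_apply]
    simp [Pi.single_apply]
  · intro h u v
    show Cfsg.hermForm n F q (G *ᵥ u) (G *ᵥ v) = Cfsg.hermForm n F q u v
    rw [hform, h, Matrix.one_mulVec, hermForm_eq hσ]

variable {ι : Type*} [Fintype ι] [DecidableEq ι]

/-- A basis change `T` moves `g` into the isometries of `adj σ T * T`, and commutators back. -/
theorem exists_transfer (hσ : IsConj q σ) (T : Matrix (Fin n) ι F) (T' : Matrix ι (Fin n) F)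
    (h1 : T' * T = 1) (h2 : T * T' = 1) (g : Cfsg.SU n F q) :
    ∃ h : GL ι F,
      (h : Matrix ι ι F) = T' * ((g : Matrix.SpecialLinearGroup (Fin n) F) : Matrix (Fin n) (Fin n) F) * T ∧
      h ∈ sisom σ (adj σ T * T) ∧
      (IsComm (sisom σ (adj σ T * T)) h → ∃ a b : Cfsg.SU n F q, g = a * b * a⁻¹ * b⁻¹) := by
  set G : Matrix (Fin n) (Fin n) F :=
    ((g : Matrix.SpecialLinearGroup (Fin n) F) : Matrix (Fin n) (Fin n) F) with hG
  have hGd : G.det = 1 := (g : Matrix.SpecialLinearGroup (Fin n) F).2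
  have hGu : adj σ G * G = 1 := (mem_SU_iff hσ _).1 g.2
  have hcancel : ∀ X : Matrix (Fin n) (Fin n) F, (T' * X * T).det = X.det := by
    intro X
    exact Matrix.det_conj_of_mul_eq_one h1 h2
  have hGd' : IsUnit (T' * G * T).det := by rw [hcancel, hGd]; exact isUnit_one
  refine ⟨Matrix.GeneralLinearGroup.mk'' _ hGd', rfl, mem_sisom.2 ⟨?_, ?_⟩, ?_⟩
  · show adj σ (T' * G * T) * (adj σ T * T) * (T' * G * T) = adj σ T * T
    calc adj σ (T' * G * T) * (adj σ T * T) * (T' * G * T)
        = adj σ T * (adj σ G * (adj σ (T * T') * (T * T')) * G) * T := by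
          simp only [adj_mul, mul_assoc, Matrix.mul_assoc]
      _ = adj σ T * T := by rw [h2, adj_one, one_mul, mul_one, hGu, Matrix.mul_one]
  · show (T' * G * T).det = 1
    rw [hcancel, hGd]
  · rintro ⟨a, ha, b, hb, hab⟩
    have back : ∀ x : GL ι F, x ∈ sisom σ (adj σ T * T) → ∃ y : Cfsg.SU n F q,
        ((y : Matrix.SpecialLinearGroup (Fin n) F) : Matrix (Fin n) (Fin n) F) =
          T * (x : Matrix ι ι F) * T' := by
      intro x hx
      obtain ⟨hxu, hxd⟩ := mem_sisom.1 hx
      have hd : (T * (x : Matrix ι ι F) * T').det = 1 := by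
        rw [Matrix.det_conj_of_mul_eq_one h2 h1, hxd]
      refine ⟨⟨⟨_, hd⟩, (mem_SU_iff hσ _).2 ?_⟩, rfl⟩
      show adj σ (T * (x : Matrix ι ι F) * T') * (T * (x : Matrix ι ι F) * T') = 1
      calc adj σ (T * (x : Matrix ι ι F) * T') * (T * (x : Matrix ι ι F) * T')
          = adj σ T' * (adj σ (x : Matrix ι ι F) * (adj σ T * T) * (x : Matrix ι ι F)) * T' := by
            simp only [adj_mul, Matrix.mul_assoc]
        _ = adj σ (T * T') * (T * T') := by rw [hxu]; simp only [adj_mul, Matrix.mul_assoc]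
        _ = 1 := by rw [h2, adj_one, one_mul]
    obtain ⟨A, hA⟩ := back a ha
    obtain ⟨B, hB⟩ := back b hb
    refine ⟨A, B, ?_⟩
    have key : g * B * A = A * B := by
      apply Subtype.ext
      apply Subtype.ext
      show G * ((B : Matrix.SpecialLinearGroup (Fin n) F) : Matrix (Fin n) (Fin n) F) *
          ((A : Matrix.SpecialLinearGroup (Fin n) F) : Matrix (Fin n) (Fin n) F) =
        ((A : Matrix.SpecialLinearGroup (Fin n) F) : Matrix (Fin n) (Fin n) F) *
          ((B : Matrix.SpecialLinearGroup (Fin n) F) : Matrix (Fin n) (Fin n) F)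
      rw [hA, hB]
      have hab' : T' * G * T * ((b : Matrix ι ι F) * (a : Matrix ι ι F)) =
          (a : Matrix ι ι F) * (b : Matrix ι ι F) := by
        have h3 := congrArg (fun z : GL ι F => z * (b * a)) hab
        have h4 : a * b * a⁻¹ * b⁻¹ * (b * a) = a * b := by group
        simp only [h4] at h3
        exact congrArg Units.val h3
      calc G * (T * (b : Matrix ι ι F) * T') * (T * (a : Matrix ι ι F) * T')
          = (T * T') * G * T * ((b : Matrix ι ι F) * ((T' * T) * (a : Matrix ι ι F))) * T' := by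
            rw [h2]; simp only [Matrix.one_mul, Matrix.mul_assoc]
        _ = T * (T' * G * T * ((b : Matrix ι ι F) * (a : Matrix ι ι F))) * T' := by
            rw [h1]; simp only [Matrix.one_mul, Matrix.mul_assoc]
        _ = T * ((a : Matrix ι ι F) * ((T' * T) * (b : Matrix ι ι F))) * T' := by
            rw [hab', h1, Matrix.one_mul]
        _ = T * (a : Matrix ι ι F) * T' * (T * (b : Matrix ι ι F) * T') := by
            simp only [Matrix.mul_assoc]
    calc g = g * B * A * A⁻¹ * B⁻¹ := by group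
      _ = A * B * A⁻¹ * B⁻¹ := by rw [key]

end CfsgLib.OreSU
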