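/-
Normal form of a non-scalar element of the special unitary group.
-/
import Mathlib
import Cfsg.Agent.Lib.Forms.Hermitian
import Cfsg.Agent.Lib.Forms.UnitaryForm
import Cfsg.Agent.Lib.OreSU.Defs
import Cfsg.Agent.Lib.OreSU.Transfer

set_option autoImplicit false
set_option linter.unusedSectionVars false

namespace CfsgLib.OreSU

open Matrix

variable {F : Type*} [Field F] [Fintype F] {q : ℕ} {σ : F →+* F}

theorem exists_three_norm_neg_one (hσ : IsConj q σ) :
    σ ≠ RingHom.id F ∧ ∃ a b c : F, a ≠ b ∧ a ≠ c ∧ b ≠ c ∧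
      σ a * a = -1 ∧ σ b * b = -1 ∧ σ c * c = -1 := by
  classical
  have hq := hσ.two_le
  obtain ⟨g, hg⟩ := IsCyclic.exists_ofOrder_eq_natCard (α := Fˣ)
  obtain ⟨d, rfl⟩ : ∃ d, q = d + 1 := ⟨q - 1, by omega⟩
  have hg' : orderOf g = d * (d + 2) := by
    rw [hg, Nat.card_units, hσ.card]
    have : (d + 1) ^ 2 = d * (d + 2) + 1 := by ring
    omega
  have hne : σ ≠ RingHom.id F := by
    intro he
    have h1 : (g : F) ^ (d + 1) = (g : F) := by rw [← hσ.apply, he]; rfl
    have h2 : g ^ d = 1 := by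
      refine mul_right_cancel (b := g) ?_
      rw [← pow_succ, one_mul]
      exact Units.ext h1
    have h3 := Nat.le_of_dvd (by omega) (orderOf_dvd_of_pow_eq_one h2)
    rw [hg'] at h3
    nlinarith
  obtain ⟨t, ht⟩ := CfsgLib.Forms.exists_norm_eq σ hne hσ.invol (-1) (by rw [map_neg, map_one])
  have ht0 : t ≠ 0 := by rintro rfl; simp at ht
  have hw : ∀ i : ℕ, σ (((g ^ d) ^ i : Fˣ) : F) * (((g ^ d) ^ i : Fˣ) : F) = 1 := by
    intro i
    rw [hσ.apply, ← Units.val_pow_eq_pow_val, ← Units.val_mul, ← pow_succ, ← pow_mul, ← pow_mul,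
      show d * (i * (d + 1 + 1)) = d * (d + 2) * i by ring, pow_mul, ← hg', pow_orderOf_eq_one,
      one_pow, Units.val_one]
  have hord : orderOf (g ^ d) = d + 2 := by
    rw [orderOf_pow' g (by omega : d ≠ 0), hg', Nat.gcd_eq_right (dvd_mul_right d _),
      Nat.mul_div_cancel_left _ (by omega : 0 < d)]
  have hinj : ∀ i j : ℕ, i < 3 → j < 3 →
      t * (((g ^ d) ^ i : Fˣ) : F) = t * (((g ^ d) ^ j : Fˣ) : F) → i = j := fun i j hi hj h =>
    pow_injOn_Iio_orderOf (by rw [Set.mem_Iio, hord]; omega) (by rw [Set.mem_Iio, hord]; omega)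
      (Units.ext (mul_left_cancel₀ ht0 h))
  have hn : ∀ i, σ (t * (((g ^ d) ^ i : Fˣ) : F)) * (t * (((g ^ d) ^ i : Fˣ) : F)) = -1 := fun i => by
    rw [map_mul, mul_mul_mul_comm, ht, hw, mul_one]
  exact ⟨hne, _, _, _, fun h => absurd (hinj 0 1 (by omega) (by omega) h) (by omega),
    fun h => absurd (hinj 0 2 (by omega) (by omega) h) (by omega),
    fun h => absurd (hinj 1 2 (by omega) (by omega) h) (by omega), hn 0, hn 1, hn 2⟩

theorem quadratic_eq_zero {a b c x y z : F} (hxy : x ≠ y) (hxz : x ≠ z) (hyz : y ≠ z)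
    (hx : a * x ^ 2 + b * x + c = 0) (hy : a * y ^ 2 + b * y + c = 0)
    (hz : a * z ^ 2 + b * z + c = 0) : a = 0 ∧ b = 0 ∧ c = 0 := by
  have h1 : a * (x + y) + b = 0 := (mul_eq_zero.1 (show (x - y) * (a * (x + y) + b) = 0 by
    linear_combination hx - hy)).resolve_left (sub_ne_zero.2 hxy)
  have h2 : a * (x + z) + b = 0 := (mul_eq_zero.1 (show (x - z) * (a * (x + z) + b) = 0 by
    linear_combination hx - hz)).resolve_left (sub_ne_zero.2 hxz)
  have ha : a = 0 := (mul_eq_zero.1 (show (y - z) * a = 0 by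
    linear_combination h1 - h2)).resolve_left (sub_ne_zero.2 hyz)
  subst ha
  simp only [zero_mul, zero_add] at h1
  subst h1
  exact ⟨rfl, rfl, by simpa using hx⟩

section Space

variable {V : Type*} [AddCommGroup V] [Module F V] [FiniteDimensional F V]

/-- The data of a normal form of `g` on the subspace `U`. -/
structure Frame (σ : F →+* F) (B : V →ₛₗ[σ] V →ₗ[F] F) (U : Submodule F V) (g : V →ₗ[F] V)
    (k m : ℕ) (e : Fin k → V) (v : Fin m → V) (lam : F) : Prop where
  emem : ∀ i, e i ∈ U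
  vmem : ∀ i, v i ∈ U
  ee : ∀ i j, B (e i) (e j) = 0
  ev : ∀ i j, B (e i) (v j) = 0
  vge : ∀ i j, B (v i) (g (e j)) = 0
  vv : ∀ i j, B (v i) (v j) = if i = j then 1 else 0
  vgv : ∀ i j, B (v i) (g (v j)) = if i = j then lam else 0
  upper : ∀ i j, j < i → B (e i) (g (e j)) = 0
  diag : ∀ i, B (e i) (g (e i)) ≠ 0
  dim : 2 * k + m = Module.finrank F U
  norm : lam * σ lam = 1

variable (hσ : IsConj q σ) {B : V →ₛₗ[σ] V →ₗ[F] F} (hS : B.IsSymm)
include hσ hS

/-- An isometry without a moved isotropic line is scalar. -/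
theorem scalar_of_isotropic {U : Submodule F V} (hU : ∀ w ∈ U, (∀ w' ∈ U, B w w' = 0) → w = 0)
    {g : V →ₗ[F] V} (hgU : ∀ x ∈ U, g x ∈ U)
    (hgB : ∀ x ∈ U, ∀ y ∈ U, B (g x) (g y) = B x y)
    (hiso : ∀ e ∈ U, B e e = 0 → B e (g e) = 0) :
    ∃ (c : F) (v : Fin (Module.finrank F U) → V), c * σ c = 1 ∧ (∀ i, v i ∈ U) ∧
      (∀ i j, B (v i) (v j) = if i = j then 1 else 0) ∧ ∀ x ∈ U, g x = c • x := by
  classical
  obtain ⟨hne, t1, t2, t3, h12, h13, h23, ht1, ht2, ht3⟩ := exists_three_norm_neg_one hσ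
  obtain ⟨v, hvU, hv⟩ := CfsgLib.Forms.exists_orthonormal_family σ hne hσ.invol B hS _ U rfl hU
  have hli : LinearIndependent F v := by
    rw [Fintype.linearIndependent_iff]
    intro a ha j
    have h := congrArg (B (v j)) ha
    simpa [map_sum, hv, Finset.sum_ite_eq] using h
  have hspan : Submodule.span F (Set.range v) = U := Submodule.eq_of_le_of_finrank_eq
    (Submodule.span_le.2 (Set.range_subset_iff.2 hvU))
    (by rw [finrank_span_eq_card hli, Fintype.card_fin])
  have horth : ∀ x ∈ U, (∀ i, B (v i) x = 0) → x = 0 := fun x hx h => hU x hx fun w hw => by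
    rw [← hS.eq]
    rw [← hspan] at hw
    refine (map_eq_zero σ).2 ?_
    induction hw using Submodule.span_induction with
    | mem y hy => obtain ⟨i, rfl⟩ := hy; exact h i
    | zero => simp
    | add y z _ _ hy hz => simp [hy, hz]
    | smul a y _ hy => simp [hy]
  have key : ∀ i j, i ≠ j → B (v i) (g (v j)) = 0 ∧ B (v i) (g (v i)) = B (v j) (g (v j)) := by
    intro i j hij
    have hq : ∀ t, σ t * t = -1 → B (v i) (g (v j)) * t ^ 2 +
        (B (v i) (g (v i)) - B (v j) (g (v j))) * t + -B (v j) (g (v i)) = 0 := by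
      intro t ht
      have h := hiso (v i + t • v j) (U.add_mem (hvU i) (U.smul_mem t (hvU j))) (by
        simp [hv, hij, hij.symm, map_smulₛₗ]
        linear_combination ht)
      simp only [map_add, map_smulₛₗ, LinearMap.add_apply, LinearMap.smul_apply, smul_eq_mul,
        RingHom.id_apply] at h
      linear_combination t * h - (B (v j) (g (v i)) + t * B (v j) (g (v j))) * ht
    obtain ⟨h1, h2, -⟩ := quadratic_eq_zero h12 h13 h23 (hq t1 ht1) (hq t2 ht2) (hq t3 ht3)
    exact ⟨h1, sub_eq_zero.1 h2⟩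
  rcases Nat.eq_zero_or_pos (Module.finrank F U) with h0 | hpos
  · refine ⟨1, v, by simp, hvU, hv, fun x hx => ?_⟩
    rw [Submodule.finrank_eq_zero.1 h0] at hx
    rw [(Submodule.mem_bot F).1 hx, map_zero, smul_zero]
  set i0 : Fin (Module.finrank F U) := ⟨0, hpos⟩
  set c := B (v i0) (g (v i0)) with hc
  have hgv : ∀ j, g (v j) = c • v j := fun j => sub_eq_zero.1 <|
    horth _ (U.sub_mem (hgU _ (hvU j)) (U.smul_mem c (hvU j))) fun i => by
      rw [map_sub, map_smul, hv, smul_eq_mul, sub_eq_zero]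
      rcases eq_or_ne i j with rfl | hij
      · rw [if_pos rfl, mul_one]
        rcases eq_or_ne i i0 with rfl | hi0
        · rfl
        · exact (key i i0 hi0).2
      · rw [if_neg hij, mul_zero, (key i j hij).1]
  refine ⟨c, v, ?_, hvU, hv, fun x hx => ?_⟩
  · have h := hgB _ (hvU i0) _ (hvU i0)
    rw [hgv] at h
    simp [hv] at h
    linear_combination h
  · rw [← hspan] at hx
    induction hx using Submodule.span_induction with
    | mem y hy => obtain ⟨i, rfl⟩ := hy; exact hgv i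
    | zero => simp
    | add y z _ _ hy hz => simp [hy, hz]
    | smul a y _ hy => simp [hy, smul_comm c a y]

/-- Every isometry has a frame, non-trivial unless it is scalar. -/
theorem exists_frame (N : ℕ) : ∀ {U : Submodule F V}, Module.finrank F U ≤ N →
    (∀ w ∈ U, (∀ w' ∈ U, B w w' = 0) → w = 0) → ∀ {g : V →ₗ[F] V}, (∀ x ∈ U, g x ∈ U) →
    (∀ x ∈ U, ∀ y ∈ U, B (g x) (g y) = B x y) →
    ∃ (k m : ℕ) (e : Fin k → V) (v : Fin m → V) (lam : F), Frame σ B U g k m e v lam ∧
      (k = 0 → ∀ x ∈ U, g x = lam • x) := by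
  classical
  induction N using Nat.strong_induction_on with
  | _ N ih =>
  intro U hN hU g hgU hgB
  by_cases hiso : ∀ e ∈ U, B e e = 0 → B e (g e) = 0
  · obtain ⟨c, v, hc, hvU, hv, hgc⟩ := scalar_of_isotropic hσ hS hU hgU hgB hiso
    refine ⟨0, _, Fin.elim0, v, c, ⟨fun i => i.elim0, hvU, fun i => i.elim0, fun i => i.elim0,
      fun i j => j.elim0, hv, fun i j => ?_, fun i => i.elim0, fun i => i.elim0, ?_, hc⟩,
      fun _ => hgc⟩
    · rw [hgc _ (hvU j), map_smul, hv, smul_eq_mul, mul_ite, mul_one, mul_zero]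
    · rw [Nat.mul_zero, Nat.zero_add]
  push Not at hiso
  obtain ⟨e, heU, hee, hege⟩ := hiso
  set f := g e with hf
  have hfU : f ∈ U := hgU e heU
  have hff : B f f = 0 := by rw [hf, hgB e heU e heU, hee]
  set c := B e f with hc
  have hfe : B f e = σ c := by rw [hc, hS.eq]
  have hc' : σ c ≠ 0 := (map_ne_zero σ).2 hege
  let pr : U →ₗ[F] F × F := ((B e).prod (B f)).comp U.subtype
  let U1 : Submodule F V := U ⊓ (LinearMap.ker (B e) ⊓ LinearMap.ker (B f))
  have hmem1 : ∀ {x : V}, x ∈ U1 ↔ x ∈ U ∧ B e x = 0 ∧ B f x = 0 := fun {x} => Iff.rfl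
  have hsplit : ∀ x ∈ U, x - (B f x / σ c) • e - (B e x / c) • f ∈ U1 := fun x hx => hmem1.2
    ⟨U.sub_mem (U.sub_mem hx (U.smul_mem _ heU)) (U.smul_mem _ hfU),
      by simp [hee, ← hc, div_mul_cancel₀ _ hege],
      by simp [hff, hfe, div_mul_cancel₀ _ hc']⟩
  have hdim : Module.finrank F U1 + 2 = Module.finrank F U := by
    have hsurj : LinearMap.range pr = ⊤ := by
      rw [LinearMap.range_eq_top]
      rintro ⟨a, b⟩
      refine ⟨⟨(b / σ c) • e + (a / c) • f, U.add_mem (U.smul_mem _ heU) (U.smul_mem _ hfU)⟩, ?_⟩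
      refine Prod.ext ?_ ?_
      · show B e ((b / σ c) • e + (a / c) • f) = a
        simp [hee, ← hc, div_mul_cancel₀ _ hege]
      · show B f ((b / σ c) • e + (a / c) • f) = b
        simp [hff, hfe, div_mul_cancel₀ _ hc']
    have h := LinearMap.finrank_range_add_finrank_ker pr
    rw [hsurj, finrank_top, Module.finrank_prod, Module.finrank_self] at h
    have hk : (LinearMap.ker pr).map U.subtype = U1 := by
      ext x
      constructor
      · rintro ⟨⟨y, hy⟩, hy', rfl⟩
        have h' : (B e y, B f y) = (0, 0) := hy'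
        exact hmem1.2 ⟨hy, congrArg Prod.fst h', congrArg Prod.snd h'⟩
      · intro hx
        obtain ⟨hxU, h1, h2⟩ := hmem1.1 hx
        exact ⟨⟨x, hxU⟩, Prod.ext h1 h2, rfl⟩
    rw [← hk, Submodule.finrank_map_subtype_eq]
    omega
  have horth : ∀ {x : V}, x ∈ U1 → B x e = 0 ∧ B x f = 0 := fun {x} hx =>
    ⟨by rw [← hS.eq, (hmem1.1 hx).2.1, map_zero], by rw [← hS.eq, (hmem1.1 hx).2.2, map_zero]⟩
  have hU1 : ∀ w ∈ U1, (∀ w' ∈ U1, B w w' = 0) → w = 0 := fun w hw h => hU w hw.1 fun x hx => by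
    have h1 := h _ (hsplit x hx)
    simpa [(horth hw).1, (horth hw).2] using h1
  let g1 : V →ₗ[F] V := g - LinearMap.smulRight (c⁻¹ • (B e).comp g) f
  have hg1 : ∀ x, g1 x = g x - (c⁻¹ * B e (g x)) • f := fun x => rfl
  have hg1U : ∀ x ∈ U1, g1 x ∈ U1 := fun x hx => by
    have hfgx : B f (g x) = 0 := by rw [hf, hgB e heU x hx.1, (hmem1.1 hx).2.1]
    refine hmem1.2 ⟨?_, ?_, ?_⟩
    · rw [hg1]; exact U.sub_mem (hgU x hx.1) (U.smul_mem _ hfU)
    · rw [hg1, map_sub, map_smul, ← hc, smul_eq_mul, mul_comm c⁻¹, mul_assoc,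
        inv_mul_cancel₀ hege, mul_one, sub_self]
    · rw [hg1, map_sub, map_smul, hff, hfgx, smul_zero, sub_zero]
  have hg1B : ∀ x ∈ U1, ∀ y ∈ U1, B (g1 x) (g1 y) = B x y := fun x hx y hy => by
    have hfgy : B f (g y) = 0 := by rw [hf, hgB e heU y hy.1, (hmem1.1 hy).2.1]
    have hgxf : B (g x) f = 0 := by rw [hf, hgB x hx.1 e heU, (horth hx).1]
    rw [hg1, hg1]
    simp [hgB x hx.1 y hy.1, hfgy, hgxf, hff, map_smulₛₗ]
  obtain ⟨k, m, e', v, lam, hfr, -⟩ := ih (Module.finrank F U1) (by omega) le_rfl hU1 hg1U hg1B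
  have hB1 : ∀ {x : V}, x ∈ U1 → ∀ y, B x (g1 y) = B x (g y) := fun {x} hx y => by
    rw [hg1, map_sub, map_smul, (horth hx).2, smul_zero, sub_zero]
  refine ⟨k + 1, m, Fin.cons e e', v, lam, ⟨?_, fun i => (hfr.vmem i).1, ?_, ?_, ?_, hfr.vv,
    fun i j => by rw [← hB1 (hfr.vmem i), hfr.vgv], ?_, ?_, by have := hfr.dim; omega, hfr.norm⟩,
    fun h => absurd h (Nat.succ_ne_zero k)⟩
  · intro i
    induction i using Fin.cases with
    | zero => simpa using heU
    | succ i => simpa using (hfr.emem i).1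
  · intro i j
    induction i using Fin.cases with
    | zero =>
      induction j using Fin.cases with
      | zero => simpa using hee
      | succ j => simpa using (hmem1.1 (hfr.emem j)).2.1
    | succ i =>
      induction j using Fin.cases with
      | zero => simpa using (horth (hfr.emem i)).1
      | succ j => simpa using hfr.ee i j
  · intro i j
    induction i using Fin.cases with
    | zero => simpa using (hmem1.1 (hfr.vmem j)).2.1
    | succ i => simpa using hfr.ev i j
  · intro i j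
    induction j using Fin.cases with
    | zero => simpa using (horth (hfr.vmem i)).2
    | succ j => simpa [← hB1 (hfr.vmem i)] using hfr.vge i j
  · intro i j hji
    induction i using Fin.cases with
    | zero => simp at hji
    | succ i =>
      induction j using Fin.cases with
      | zero => simpa using (horth (hfr.emem i)).2
      | succ j => simpa [← hB1 (hfr.emem i)] using hfr.upper i j (Fin.succ_lt_succ_iff.1 hji)
  · intro i
    induction i using Fin.cases with
    | zero => simpa [← hf, ← hc] using hege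
    | succ i => simpa [← hB1 (hfr.emem i)] using hfr.diag i

end Space

theorem hyp_mul_apply {k m : ℕ} {κ : Type*} (M : Matrix (Idx k m) κ F) (j : κ) :
    (∀ i, ((hyp k m : Matrix (Idx k m) (Idx k m) F) * M) (wI i) j = M (fI i) j) ∧
    (∀ i, ((hyp k m : Matrix (Idx k m) (Idx k m) F) * M) (vI i) j = M (vI i) j) ∧
    (∀ i, ((hyp k m : Matrix (Idx k m) (Idx k m) F) * M) (fI i) j = M (wI i) j) := by
  classical
  refine ⟨fun i => ?_, fun i => ?_, fun i => ?_⟩ <;>
    simp [Matrix.mul_apply, Fintype.sum_sum_type, hyp, Matrix.one_apply]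

/-- The normal form of a non-scalar element. -/
theorem exists_normalForm {n : ℕ} (hσ : IsConj q σ) (g : Cfsg.SU n F q)
    (hns : ∀ a : F, ((g : Matrix.SpecialLinearGroup (Fin n) F) : Matrix (Fin n) (Fin n) F) ≠ a • 1) :
    ∃ (k m : ℕ) (h : GL (Idx k m) F) (lam : F), 1 ≤ k ∧ 2 * k + m = n ∧ lam * σ lam = 1 ∧
      h ∈ sisom σ (hyp k m) ∧ NormalForm (h : Matrix (Idx k m) (Idx k m) F) lam ∧
      (IsComm (sisom σ (hyp k m)) h → ∃ a b : Cfsg.SU n F q, g = a * b * a⁻¹ * b⁻¹) := by
  classical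
  set G : Matrix (Fin n) (Fin n) F :=
    ((g : Matrix.SpecialLinearGroup (Fin n) F) : Matrix (Fin n) (Fin n) F) with hG
  set B := CfsgLib.Forms.hermBundled (F := F) n σ with hBdef
  have hS : B.IsSymm := CfsgLib.Forms.hermBundled_isSymm hσ.invol
  have hgB : ∀ x y, B (G *ᵥ x) (G *ᵥ y) = B x y := fun x y => by
    rw [hBdef, CfsgLib.Forms.hermBundled_apply hσ.apply, CfsgLib.Forms.hermBundled_apply hσ.apply]
    exact g.2 y x
  obtain ⟨k, m, e, v, lam, hfr, hk⟩ := exists_frame hσ hS (Module.finrank F (⊤ : Submodule F (Fin n → F)))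
    le_rfl (fun w _ hw => (CfsgLib.Forms.hermBundled_nondegenerate hσ.invol).1 w fun x => hw x trivial)
    (g := G.mulVecLin) (fun _ _ => trivial) (fun x _ y _ => hgB x y)
  have hk1 : 1 ≤ k := by
    by_contra hk0
    refine hns lam (Matrix.ext fun i j => ?_)
    have h := congrFun (hk (by omega) (Pi.single j 1) trivial) i
    simpa [Matrix.one_apply, Pi.single_apply] using h
  have hn : 2 * k + m = n := by rw [hfr.dim, finrank_top, Module.finrank_fin_fun]
  have hge : ∀ i j, B (G *ᵥ e i) (G *ᵥ e j) = 0 := fun i j => by rw [hgB, hfr.ee]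
  -- the dual family
  set R : Matrix (Fin k) (Fin k) F := Matrix.of fun i l => B (e i) (G *ᵥ e l) with hR
  have hRdet : IsUnit R.det := by
    rw [Matrix.det_of_isUpperTriangular (fun i j hij => by exact hfr.upper i j hij), isUnit_iff_ne_zero,
      Finset.prod_ne_zero_iff]
    exact fun i _ => hfr.diag i
  set f : Fin k → Fin n → F := fun j => ∑ l, R⁻¹ l j • (G *ᵥ e l) with hf
  have hef : ∀ i j, B (e i) (f j) = if i = j then 1 else 0 := fun i j => by
    have h : (R * R⁻¹) i j = (1 : Matrix (Fin k) (Fin k) F) i j := by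
      rw [Matrix.mul_nonsing_inv R hRdet]
    simpa [hf, hR, Matrix.mul_apply, Matrix.one_apply, map_sum, mul_comm] using h
  have hsymm : ∀ x y, B y x = σ (B x y) := fun x y => (hS.eq x y).symm
  have hfg : ∀ {x}, (∀ l, B (G *ᵥ e l) x = 0) → ∀ j, B (f j) x = 0 := fun {x} hx j => by
    simp [hf, map_sum, map_smulₛₗ, hx]
  have hfv : ∀ i j, B (f i) (v j) = 0 := fun i j => hfg (fun l => by
    rw [hsymm]; exact (map_eq_zero σ).2 (hfr.vge j l)) i
  have hff : ∀ i j, B (f i) (f j) = 0 := fun i j => hfg (fun l => by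
    simp [hf, map_sum, hge]) i
  let col : Idx k m → Fin n → F := Sum.elim e (Sum.elim v f)
  set T : Matrix (Fin n) (Idx k m) F := Matrix.of fun r c => col c r with hT
  have hpair : ∀ (M : Matrix (Fin n) (Fin n) F) i j, (adj σ T * (M * T)) i j = B (col i) (M *ᵥ col j) := by
    intro M i j
    simp only [hBdef, CfsgLib.Forms.hermBundled, LinearMap.mk₂'ₛₗ_apply, Matrix.mul_apply, adj_apply]
    exact Finset.sum_congr rfl fun l _ => mul_comm _ _
  have hgram : adj σ T * T = hyp k m := by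
    ext i j
    have h := hpair 1 i j
    rw [Matrix.one_mul, Matrix.one_mulVec] at h
    rw [h]
    rcases i with i | i | i <;> rcases j with j | j | j <;>
      simp [col, hyp, hfr.ee, hfr.ev, hfr.vv, hef, hfv, hff, Matrix.one_apply, hsymm (e _) (v _),
        hsymm (e _) (f _), hsymm (f _) (v _), apply_ite σ, eq_comm]
  have hhyp : (hyp k m : Matrix (Idx k m) (Idx k m) F) * hyp k m = 1 := by
    ext i j
    obtain ⟨hw, hv', hf'⟩ := hyp_mul_apply (hyp k m : Matrix (Idx k m) (Idx k m) F) j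
    rcases i with i | i | i <;> first | rw [hw] | rw [hv'] | rw [hf']
    all_goals rcases j with j | j | j <;> simp [hyp, Matrix.one_apply]
  set T' : Matrix (Idx k m) (Fin n) F := (hyp k m : Matrix (Idx k m) (Idx k m) F) * adj σ T with hT'
  have h1 : T' * T = 1 := by rw [hT', Matrix.mul_assoc, hgram, hhyp]
  have h2 : T * T' = 1 := (Matrix.mul_eq_one_comm_of_equiv
    (Fintype.equivOfCardEq (by simp; omega))).1 h1
  obtain ⟨h, hval, hmem, hcomm⟩ := exists_transfer hσ T T' h1 h2 g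
  rw [hgram] at hmem hcomm
  refine ⟨k, m, h, lam, hk1, hn, hfr.norm, hmem, ?_, hcomm⟩
  have hH : (h : Matrix (Idx k m) (Idx k m) F) = hyp k m * (adj σ T * (G * T)) := by
    rw [hval, hT', ← hG]
    simp only [Matrix.mul_assoc]
  have hgv : ∀ l j, B (G *ᵥ e l) (G *ᵥ v j) = 0 := fun l j => by rw [hgB, hfr.ev]
  rw [hH]
  refine ⟨?_, ?_, ?_, ?_, fun i j hij => ?_, fun i => ?_⟩
  · ext i j
    rw [Matrix.submatrix_apply, (hyp_mul_apply _ _).1, hpair]
    exact hfg (fun l => hge l j) i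
  · ext i j
    rw [Matrix.submatrix_apply, (hyp_mul_apply _ _).1, hpair]
    exact hfg (fun l => hgv l j) i
  · ext i j
    rw [Matrix.submatrix_apply, (hyp_mul_apply _ _).2.1, hpair]
    exact hfr.vge i j
  · ext i j
    rw [Matrix.submatrix_apply, (hyp_mul_apply _ _).2.1, hpair, Matrix.smul_apply, Matrix.one_apply,
      smul_eq_mul, mul_ite, mul_one, mul_zero]
    exact hfr.vgv i j
  · rw [(hyp_mul_apply _ _).2.2, hpair]
    exact hfr.upper i j hij
  · rw [(hyp_mul_apply _ _).2.2, hpair]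
    exact hfr.diag i

end CfsgLib.OreSU
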