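/-
Moving a hyperbolic pair out of the middle space of a normal form with a single isotropic line.
-/
import Mathlib
import Cfsg.Agent.Lib.OreSU.Defs
import Cfsg.Agent.Lib.OreSU.Blk
import Cfsg.Agent.Lib.OreSU.NormalForm

set_option autoImplicit false
set_option linter.unusedSectionVars false

namespace CfsgLib.OreSU

open Matrix

variable {F : Type*} [Field F] {σ : F →+* F}

/-- Conjugation by a matrix with a two-sided inverse. -/
def baseChange {ι κ : Type*} [Fintype ι] [Fintype κ] [DecidableEq ι] [DecidableEq κ]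
    (T : Matrix ι κ F) (T' : Matrix κ ι F) (h1 : T' * T = 1) (h2 : T * T' = 1) :
    GL κ F →* GL ι F :=
  Units.map
    { toFun := fun X => T * X * T'
      map_one' := by rw [Matrix.mul_one, h2]
      map_mul' := fun X Y => by
        calc T * (X * Y) * T' = T * (X * ((T' * T) * Y)) * T' := by rw [h1, Matrix.one_mul]
          _ = T * X * T' * (T * Y * T') := by simp only [Matrix.mul_assoc] }

theorem baseChange_val {ι κ : Type*} [Fintype ι] [Fintype κ] [DecidableEq ι] [DecidableEq κ]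
    (T : Matrix ι κ F) (T' : Matrix κ ι F) (h1 : T' * T = 1) (h2 : T * T' = 1) (x : GL κ F) :
    (baseChange T T' h1 h2 x : Matrix ι ι F) = T * (x : Matrix κ κ F) * T' := rfl

theorem baseChange_mem {ι κ : Type*} [Fintype ι] [Fintype κ] [DecidableEq ι] [DecidableEq κ]
    {T : Matrix ι κ F} {T' : Matrix κ ι F} (h1 : T' * T = 1) (h2 : T * T' = 1)
    {J : Matrix ι ι F} {J' : Matrix κ κ F} (hJ : adj σ T * J * T = J') {x : GL κ F}
    (hx : x ∈ sisom σ J') : baseChange T T' h1 h2 x ∈ sisom σ J := by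
  obtain ⟨hxu, hxd⟩ := mem_sisom.1 hx
  refine mem_sisom.2 ⟨?_, ?_⟩
  · rw [baseChange_val]
    calc adj σ (T * (x : Matrix κ κ F) * T') * J * (T * (x : Matrix κ κ F) * T')
        = adj σ T' * (adj σ (x : Matrix κ κ F) * (adj σ T * J * T) * (x : Matrix κ κ F)) * T' := by
          simp only [adj_mul, Matrix.mul_assoc]
      _ = adj σ (T * T') * J * (T * T') := by
          rw [hJ, hxu, ← hJ]; simp only [adj_mul, Matrix.mul_assoc]
      _ = J := by rw [h2, adj_one, Matrix.one_mul, Matrix.mul_one]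
  · rw [baseChange_val, Matrix.det_conj_of_mul_eq_one h2 h1, hxd]

/-- A vector of `W + V + W'` by its three components. -/
abbrev vec {k m : ℕ} (x : Fin k → F) (y : Fin m → F) (z : Fin k → F) : Idx k m → F :=
  Sum.elim x (Sum.elim y z)

theorem blk_mulVec_vec {k m : ℕ} (A : Matrix (Fin k) (Fin k) F) (B : Matrix (Fin k) (Fin m) F)
    (C : Matrix (Fin k) (Fin k) F) (D : Matrix (Fin m) (Fin k) F) (E : Matrix (Fin m) (Fin m) F)
    (G : Matrix (Fin m) (Fin k) F) (H : Matrix (Fin k) (Fin k) F) (I : Matrix (Fin k) (Fin m) F)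
    (J : Matrix (Fin k) (Fin k) F) (x : Fin k → F) (y : Fin m → F) (z : Fin k → F) :
    blk A B C D E G H I J *ᵥ vec x y z =
      vec (A *ᵥ x + B *ᵥ y + C *ᵥ z) (D *ᵥ x + E *ᵥ y + G *ᵥ z) (H *ᵥ x + I *ᵥ y + J *ᵥ z) := by
  funext i
  rcases i with i | i | i <;>
    simp [blk, Matrix.mulVec, dotProduct, Fintype.sum_sum_type, add_assoc]

theorem dot_hyp_vec {k m : ℕ} (x : Fin k → F) (y : Fin m → F) (z : Fin k → F)
    (x' : Fin k → F) (y' : Fin m → F) (z' : Fin k → F) :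
    (σ ∘ vec x y z) ⬝ᵥ ((hyp k m : Matrix (Idx k m) (Idx k m) F) *ᵥ vec x' y' z') =
      (σ ∘ x) ⬝ᵥ z' + ((σ ∘ y) ⬝ᵥ y' + (σ ∘ z) ⬝ᵥ x') := by
  rw [hyp_eq, blk_mulVec_vec]
  simp [dotProduct, Fintype.sum_sum_type]

variable [Fintype F] {q : ℕ}

/-- An isotropic pair in place of the first two middle vectors. -/
theorem exists_append (hσ : IsConj q σ) {m : ℕ} {h : GL (Idx 1 (m + 2)) F}
    (hh : h ∈ sisom σ (hyp 1 (m + 2))) {lam : F}
    (hN : NormalForm (h : Matrix (Idx 1 (m + 2)) (Idx 1 (m + 2)) F) lam) :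
    ∃ (h' : GL (Idx 2 m) F) (r a : F), r ≠ 0 ∧ h' ∈ sisom σ (hyp 2 m) ∧
      (h' : Matrix (Idx 2 m) (Idx 2 m) F).submatrix wI wI = !![0, 0; 0, lam] ∧
      (h' : Matrix (Idx 2 m) (Idx 2 m) F).submatrix fI wI = !![r, a; 0, 0] ∧
      (h' : Matrix (Idx 2 m) (Idx 2 m) F).submatrix vI wI = 0 ∧
      (h' : Matrix (Idx 2 m) (Idx 2 m) F).submatrix vI vI = lam • 1 ∧
      (IsComm (sisom σ (hyp 2 m)) h' → IsComm (sisom σ (hyp 1 (m + 2))) h) := by
  classical
  obtain ⟨-, s, t, -, hst, -, -, hs, ht, -⟩ := exists_three_norm_neg_one hσ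
  have hd : 1 + σ s * t ≠ 0 := fun e => hst <| by
    have h0 : σ s * t = σ s * s := by rw [hs]; linear_combination e
    refine (mul_left_cancel₀ ?_ h0).symm
    intro z
    rw [z, zero_mul] at hs
    exact neg_ne_zero.2 one_ne_zero hs.symm
  set c := (1 + σ s * t)⁻¹ with hc
  have hcm : c * (1 + σ s * t) = 1 := inv_mul_cancel₀ hd
  have hcm' : σ c * (1 + σ t * s) = 1 := by
    have := congrArg σ hcm
    rwa [map_mul, map_add, map_one, map_mul, hσ.invol, mul_comm s] at this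
  set w : Fin (m + 2) → F := Fin.cons 1 (Fin.cons s 0) with hw
  set φ : Fin (m + 2) → F := Fin.cons c (Fin.cons (c * t) 0) with hφ
  set u : Fin m → Fin (m + 2) → F := fun i => Fin.cons 0 (Fin.cons 0 (Pi.single i 1)) with hu
  have hww : (σ ∘ w) ⬝ᵥ w = 0 := by
    simp [hw, dotProduct, Fin.sum_univ_succ]; linear_combination hs
  have hwφ : (σ ∘ w) ⬝ᵥ φ = 1 := by
    simp [hw, hφ, dotProduct, Fin.sum_univ_succ]; linear_combination hcm
  have hφw : (σ ∘ φ) ⬝ᵥ w = 1 := by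
    simp [hw, hφ, dotProduct, Fin.sum_univ_succ]; linear_combination hcm'
  have hφφ : (σ ∘ φ) ⬝ᵥ φ = 0 := by
    simp [hφ, dotProduct, Fin.sum_univ_succ]; linear_combination (σ c * c) * ht
  have hwu : ∀ i, (σ ∘ w) ⬝ᵥ u i = 0 ∧ (σ ∘ u i) ⬝ᵥ w = 0 := fun i => by
    constructor <;> simp [hw, hu, dotProduct, Fin.sum_univ_succ]
  have hφu : ∀ i, (σ ∘ φ) ⬝ᵥ u i = 0 ∧ (σ ∘ u i) ⬝ᵥ φ = 0 := fun i => by
    constructor <;> simp [hφ, hu, dotProduct, Fin.sum_univ_succ]
  have huu : ∀ i j, (σ ∘ u i) ⬝ᵥ u j = if i = j then 1 else 0 := fun i j => by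
    simp [hu, dotProduct, Fin.sum_univ_succ, Pi.single_apply, apply_ite σ, eq_comm]
  let col : Idx 2 m → Idx 1 (m + 2) → F :=
    Sum.elim ![vec 1 0 0, vec 0 w 0]
      (Sum.elim (fun i => vec 0 (u i) 0) ![vec 0 0 1, vec 0 φ 0])
  set T : Matrix (Idx 1 (m + 2)) (Idx 2 m) F := Matrix.of fun r c => col c r with hT
  set J1 : Matrix (Idx 1 (m + 2)) (Idx 1 (m + 2)) F := hyp 1 (m + 2) with hJ1
  set J2 : Matrix (Idx 2 m) (Idx 2 m) F := hyp 2 m with hJ2
  have hpair : ∀ (M : Matrix (Idx 1 (m + 2)) (Idx 1 (m + 2)) F) i j,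
      (adj σ T * (J1 * (M * T))) i j = (σ ∘ col i) ⬝ᵥ (J1 *ᵥ (M *ᵥ col j)) := fun M i j => rfl
  have hgram : adj σ T * J1 * T = J2 := by
    ext i j
    have h' := hpair 1 i j
    rw [Matrix.one_mul, Matrix.one_mulVec, ← Matrix.mul_assoc] at h'
    rw [h', hJ2, hJ1]
    conv_rhs => rw [hyp_eq]
    rcases i with i | i | i <;> rcases j with j | j | j <;>
      (try fin_cases i) <;> (try fin_cases j) <;>
      simp [col, dot_hyp_vec, blk, hww, hwφ, hφw, hφφ, hwu, hφu, huu, Matrix.one_apply]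
  have hJJ : J2 * J2 = 1 := by
    rw [hJ2, hyp_eq, blk_mul, ← blk_one]
    simp
  set T' : Matrix (Idx 2 m) (Idx 1 (m + 2)) F := J2 * (adj σ T * J1) with hT'
  have h1 : T' * T = 1 := by rw [hT', Matrix.mul_assoc, hgram, hJJ]
  have h2 : T * T' = 1 := (Matrix.mul_eq_one_comm_of_equiv
    (Fintype.equivOfCardEq (by simp; omega))).1 h1
  have hgram' : adj σ T' * J2 * T' = J1 := by
    calc adj σ T' * J2 * T' = adj σ (T * T') * J1 * (T * T') := by
          rw [← hgram]; simp only [adj_mul, Matrix.mul_assoc]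
      _ = J1 := by rw [h2, adj_one, Matrix.one_mul, Matrix.mul_one]
  set h' := baseChange T' T h2 h1 h with hh'
  -- the old blocks
  set H := (h : Matrix (Idx 1 (m + 2)) (Idx 1 (m + 2)) F) with hH
  have hwv : ∀ (x : Fin 1 → F) (y : Fin (m + 2) → F),
      H *ᵥ vec x y 0 = vec 0 (lam • y) (H.submatrix fI wI *ᵥ x + H.submatrix fI vI *ᵥ y) := by
    intro x y
    conv_lhs => rw [← blk_eta H]
    rw [blk_mulVec_vec, hN.ww, hN.wv, hN.vw, hN.vv]
    simp [Matrix.smul_mulVec]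
  have hM : (h' : Matrix (Idx 2 m) (Idx 2 m) F) = J2 * (adj σ T * (J1 * (H * T))) := by
    rw [hh', baseChange_val, hT', ← hH]
    simp only [Matrix.mul_assoc]
  refine ⟨h', H (fI 0) (wI 0), (H.submatrix fI vI *ᵥ w) 0, hN.diag 0,
    baseChange_mem h2 h1 hgram' hh, ?_, ?_, ?_, ?_, ?_⟩
  · ext i j
    rw [Matrix.submatrix_apply, hM, (hyp_mul_apply _ _).1, hpair]
    fin_cases i <;> fin_cases j <;>
      simp [col, hJ1, dot_hyp_vec, hwv, dotProduct_smul, hφw]
  · ext i j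
    rw [Matrix.submatrix_apply, hM, (hyp_mul_apply _ _).2.2, hpair]
    fin_cases i <;> fin_cases j <;>
      simp [col, hJ1, dot_hyp_vec, hwv, dotProduct_smul, hww] <;>
      simp [Matrix.mulVec, dotProduct]
  · ext i j
    rw [Matrix.submatrix_apply, hM, (hyp_mul_apply _ _).2.1, hpair]
    fin_cases j <;>
      simp [col, hJ1, dot_hyp_vec, hwv, dotProduct_smul, hwu]
  · ext i j
    rw [Matrix.submatrix_apply, hM, (hyp_mul_apply _ _).2.1, hpair]
    simp [col, hJ1, dot_hyp_vec, hwv, dotProduct_smul, huu, Matrix.one_apply]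
  · rintro ⟨a, ha, b, hb, hab⟩
    refine ⟨_, baseChange_mem h1 h2 hgram ha, _, baseChange_mem h1 h2 hgram hb, ?_⟩
    rw [← map_inv (baseChange T T' h1 h2) a, ← map_inv (baseChange T T' h1 h2) b, ← map_mul,
      ← map_mul, ← map_mul, ← hab]
    refine Units.ext ?_
    rw [baseChange_val, hh', baseChange_val, ← hH]
    calc H = (T * T') * H * (T * T') := by rw [h2, Matrix.one_mul, Matrix.mul_one]
      _ = T * (T' * H * T) * T' := by simp only [Matrix.mul_assoc]

end CfsgLib.OreSU
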