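import Cfsg.Agent.Lib.OreSU.Defs
import Cfsg.Agent.Lib.OreOrth.Cert
import Cfsg.Agent.Lib.OreOrth.Split

/-!
Commutator representations of linear blocks for special unitary groups: similarity, coupling of two blocks with
coprime annihilators, and the passage to admissible representations.
-/

set_option autoImplicit false
set_option linter.unusedSectionVars false

namespace CfsgLib.OreSU

open Polynomial Module CfsgLib.OreOrth
open scoped Matrix

variable {F : Type*} [Field F] {V W : Type*} [AddCommGroup V] [Module F V] [AddCommGroup W] [Module F W]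

/-- `T` is a commutator `b * H * b⁻¹ * H⁻¹` with given determinants and `H` killed by `P`. -/
def Rep (P : F[X]) (T : End F V) (db dh : F) : Prop :=
  ∃ b H : (End F V)ˣ, T = ((b * H * b⁻¹ * H⁻¹ : (End F V)ˣ) : End F V) ∧
    LinearMap.det (b : End F V) = db ∧ LinearMap.det (H : End F V) = dh ∧ aeval (H : End F V) P = 0

theorem Rep.of_dvd {P Q : F[X]} {T : End F V} {db dh : F} (hd : P ∣ Q) (hT : Rep P T db dh) : Rep Q T db dh := by
  obtain ⟨b, h, e, hb, hh, hN⟩ := hT
  obtain ⟨R, rfl⟩ := hd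
  exact ⟨b, h, e, hb, hh, by rw [map_mul, hN, zero_mul]⟩

theorem Rep.map {P : F[X]} {T : End F V} {db dh : F} (hT : Rep P T db dh) (e : V ≃ₗ[F] W) :
    Rep P (e.conj T) db dh := by
  obtain ⟨b, h, rfl, hb, hh, hN⟩ := hT
  let ψ : End F V ≃ₐ[F] End F W := e.conjAlgEquiv F
  let c : (End F V)ˣ →* (End F W)ˣ := Units.map (ψ : End F V →* End F W)
  refine ⟨c b, c h, ?_, ?_, ?_, ?_⟩
  · rw [← map_inv, ← map_inv, ← map_mul, ← map_mul, ← map_mul]
    rfl
  · show LinearMap.det (e.conj (b : End F V)) = db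
    rw [LinearEquiv.conj_apply, LinearMap.comp_assoc, LinearMap.det_conj]
    exact hb
  · show LinearMap.det (e.conj (h : End F V)) = dh
    rw [LinearEquiv.conj_apply, LinearMap.comp_assoc, LinearMap.det_conj]
    exact hh
  · show aeval (ψ (h : End F V)) P = 0
    rw [aeval_algEquiv, AlgHom.comp_apply, hN]
    exact map_zero ψ

theorem rep_conj_iff {P : F[X]} {T : End F V} {db dh : F} (e : V ≃ₗ[F] W) :
    Rep P (e.conj T) db dh ↔ Rep P T db dh :=
  ⟨fun h => by simpa [LinearEquiv.conj_apply, LinearMap.comp_assoc, LinearMap.ext_iff] using h.map e.symm,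
    fun h => h.map e⟩

/-- A representation from units: `T * H * b = b * H`. -/
theorem rep_of_mul {P : F[X]} {T : End F V} (b H : (End F V)ˣ)
    (e : T * (H : End F V) * (b : End F V) = (b : End F V) * (H : End F V)) (hN : aeval (H : End F V) P = 0) :
    Rep P T (LinearMap.det (b : End F V)) (LinearMap.det (H : End F V)) :=
  ⟨b, H, eq_commutator_of_mul T H b e, rfl, rfl, hN⟩

/-- Coupling two blocks with coprime annihilators. -/
theorem Rep.udl [FiniteDimensional F V] [FiniteDimensional F W] {P Q : F[X]} (hPQ : IsCoprime P Q)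
    {T : End F V} {S : End F W} {db dh db' dh' : F} (hT : Rep P T db dh) (hS : Rep Q S db' dh')
    (X : W →ₗ[F] V) (Y : V →ₗ[F] W) :
    Rep (P * Q) (CfsgLib.OreOrth.udl X Y T S) (db * db') (dh * dh') := by
  obtain ⟨b, h, rfl, hb, hh, hN⟩ := hT
  obtain ⟨b', h', rfl, hb', hh', hN'⟩ := hS
  set f : (End F V)ˣ := b * h * b⁻¹ with hf
  set g : (End F W)ˣ := b' * h' * b'⁻¹ with hg
  have hfP : aeval (f : End F V) P = 0 := by
    have e := aeval_intertwine (f := (f : End F V)) (g := (h : End F V)) (Z := (b : End F V)) (by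
      show (f : End F V) * (b : End F V) = (b : End F V) * (h : End F V)
      rw [← Units.val_mul, ← Units.val_mul, hf]; group) P
    rw [hN, LinearMap.comp_zero] at e
    calc aeval (f : End F V) P = aeval (f : End F V) P * (b : End F V) * ↑b⁻¹ := by
          rw [mul_assoc, Units.mul_inv, mul_one]
      _ = 0 := by rw [Module.End.mul_eq_comp (aeval _ _) (b : End F V), e, zero_mul]
  have hgQ : aeval (g : End F W) Q = 0 := by
    have e := aeval_intertwine (f := (g : End F W)) (g := (h' : End F W)) (Z := (b' : End F W)) (by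
      show (g : End F W) * (b' : End F W) = (b' : End F W) * (h' : End F W)
      rw [← Units.val_mul, ← Units.val_mul, hg]; group) Q
    rw [hN', LinearMap.comp_zero] at e
    calc aeval (g : End F W) Q = aeval (g : End F W) Q * (b' : End F W) * ↑b'⁻¹ := by
          rw [mul_assoc, Units.mul_inv, mul_one]
      _ = 0 := by rw [Module.End.mul_eq_comp (aeval _ _) (b' : End F W), e, zero_mul]
  -- the two Sylvester equations
  obtain ⟨Z, hZ⟩ : ∃ Z : W →ₗ[F] V,
      Z - (f : End F V) ∘ₗ Z ∘ₗ ((g⁻¹ : (End F W)ˣ) : End F W) = X := by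
    let φ : (W →ₗ[F] V) →ₗ[F] (W →ₗ[F] V) :=
      { toFun := fun Z => Z - (f : End F V) ∘ₗ Z ∘ₗ ((g⁻¹ : (End F W)ˣ) : End F W)
        map_add' := fun A B => by simp [LinearMap.add_comp, LinearMap.comp_add]; abel
        map_smul' := fun c A => by simp [LinearMap.smul_comp, LinearMap.comp_smul, smul_sub] }
    refine (LinearMap.injective_iff_surjective (f := φ)).1 ?_ X
    rw [← LinearMap.ker_eq_bot, LinearMap.ker_eq_bot']
    intro A hA
    refine intertwine_eq_zero hPQ hfP hgQ ?_
    have hA' : A = (f : End F V) ∘ₗ A ∘ₗ ((g⁻¹ : (End F W)ˣ) : End F W) := sub_eq_zero.1 hA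
    calc (f : End F V) ∘ₗ A = (f : End F V) ∘ₗ A ∘ₗ (((g⁻¹ * g : (End F W)ˣ)) : End F W) := by
          rw [inv_mul_cancel]; rfl
      _ = A ∘ₗ (g : End F W) := by
          conv_rhs => rw [hA']
          rfl
  obtain ⟨U, hU⟩ : ∃ U : V →ₗ[F] W,
      (h' : End F W) ∘ₗ U ∘ₗ ((h⁻¹ : (End F V)ˣ) : End F V) - U = Y := by
    let φ : (V →ₗ[F] W) →ₗ[F] (V →ₗ[F] W) :=
      { toFun := fun U => (h' : End F W) ∘ₗ U ∘ₗ ((h⁻¹ : (End F V)ˣ) : End F V) - U
        map_add' := fun A B => by simp [LinearMap.add_comp, LinearMap.comp_add]; abel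
        map_smul' := fun c A => by simp [LinearMap.smul_comp, LinearMap.comp_smul, smul_sub] }
    refine (LinearMap.injective_iff_surjective (f := φ)).1 ?_ Y
    rw [← LinearMap.ker_eq_bot, LinearMap.ker_eq_bot']
    intro A hA
    refine intertwine_eq_zero hPQ.symm hN' hN ?_
    have hA' : (h' : End F W) ∘ₗ A ∘ₗ ((h⁻¹ : (End F V)ˣ) : End F V) = A := sub_eq_zero.1 hA
    calc (h' : End F W) ∘ₗ A = (h' : End F W) ∘ₗ A ∘ₗ (((h⁻¹ * h : (End F V)ˣ)) : End F V) := by
          rw [inv_mul_cancel]; rfl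
      _ = A ∘ₗ (h : End F V) := by
          conv_rhs => rw [← hA']
          rfl
  set B := pairUnit (b, b') with hB
  set H := pairUnit (h, h') with hH
  set H' := pairUnit (f, g) with hH'
  set p : (End F (V × W))ˣ := upUnit Z with hp
  set s : (End F (V × W))ˣ := lowUnit U with hs
  have hBH : H' = B * H * B⁻¹ := by
    rw [hB, hH, hH', ← map_inv, ← map_mul, ← map_mul]; rfl
  have hu : (upUnit X : (End F (V × W))ˣ) = p * H' * p⁻¹ * H'⁻¹ := by
    refine Units.ext (LinearMap.ext fun x => ?_)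
    rw [hH', ← map_inv]
    refine Prod.ext ?_ ?_
    · simp [hp, upUnit, ← hZ]
      abel
    · simp [hp, upUnit]
  have hl : (lowUnit Y : (End F (V × W))ˣ) = H * s * H⁻¹ * s⁻¹ := by
    refine Units.ext (LinearMap.ext fun x => ?_)
    rw [hH, ← map_inv]
    refine Prod.ext ?_ ?_
    · simp [hs, lowUnit]
    · simp [hs, lowUnit, ← hU]
      abel
  refine ⟨s * (s⁻¹ * p * B) * s⁻¹, s * H * s⁻¹, ?_, ?_, ?_, ?_⟩
  · have e : upUnit X * pairUnit (b * h * b⁻¹ * h⁻¹, b' * h' * b'⁻¹ * h'⁻¹) * lowUnit Y =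
        s * (s⁻¹ * p * B) * s⁻¹ * (s * H * s⁻¹) * (s * (s⁻¹ * p * B) * s⁻¹)⁻¹ * (s * H * s⁻¹)⁻¹ := by
      have : pairUnit (b * h * b⁻¹ * h⁻¹, b' * h' * b'⁻¹ * h'⁻¹) = B * H * B⁻¹ * H⁻¹ := by
        rw [hB, hH, ← map_inv, ← map_inv, ← map_mul, ← map_mul, ← map_mul]; rfl
      rw [this, hu, hl, hBH]
      group
    rw [← e]
    rfl
  · have e : s * (s⁻¹ * p * B) * s⁻¹ = p * B * s⁻¹ := by group
    have hsi : LinearMap.det ((s⁻¹ : (End F (V × W))ˣ) : End F (V × W)) = 1 := by
      have := congrArg LinearMap.det s.inv_mul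
      rwa [map_mul, hs, det_lowUnit, mul_one, map_one] at this
    rw [e, Units.val_mul, Units.val_mul, map_mul, map_mul, hp, det_upUnit, one_mul, hB, coe_pairUnit,
      LinearMap.det_prodMap, hsi, mul_one]
    rw [hb, hb']
  · have hsi : LinearMap.det ((s⁻¹ : (End F (V × W))ˣ) : End F (V × W)) = 1 := by
      have := congrArg LinearMap.det s.inv_mul
      rwa [map_mul, hs, det_lowUnit, mul_one, map_one] at this
    rw [Units.val_mul, Units.val_mul, map_mul, map_mul, hs, det_lowUnit, one_mul, hsi, mul_one, hH,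
      coe_pairUnit, LinearMap.det_prodMap]
    rw [hh, hh']
  · have e0 : aeval ((H : (End F (V × W))ˣ) : End F (V × W)) (P * Q) = 0 := by
      rw [hH, coe_pairUnit, aeval_prodMap]
      have e1 : aeval (h : End F V) (P * Q) = 0 := by
        rw [map_mul, hN, zero_mul]
      have e2 : aeval (h' : End F W) (P * Q) = 0 := by
        rw [mul_comm P, map_mul, hN', zero_mul]
      rw [e1, e2]
      exact LinearMap.prodMap_zero
    have e := aeval_intertwine (f := ((s * H * s⁻¹ : (End F (V × W))ˣ) : End F (V × W)))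
      (g := ((H : (End F (V × W))ˣ) : End F (V × W))) (Z := ((s : (End F (V × W))ˣ) : End F (V × W))) (by
        show ((s * H * s⁻¹ : (End F (V × W))ˣ) : End F (V × W)) * (s : End F (V × W)) =
          (s : End F (V × W)) * (H : End F (V × W))
        rw [← Units.val_mul, ← Units.val_mul]; group) (P * Q)
    rw [e0, LinearMap.comp_zero] at e
    set A := aeval ((s * H * s⁻¹ : (End F (V × W))ˣ) : End F (V × W)) (P * Q)
    calc A = A * (s : End F (V × W)) * ↑s⁻¹ := by rw [mul_assoc, Units.mul_inv, mul_one]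
      _ = 0 := by rw [Module.End.mul_eq_comp A (s : End F (V × W)), e, zero_mul]

/-- A split block is represented by the product of the representing polynomials. -/
theorem Rep.of_hasUDL {V₁ V₂ : Type*} [AddCommGroup V₁] [Module F V₁] [AddCommGroup V₂] [Module F V₂]
    [FiniteDimensional F V₁] [FiniteDimensional F V₂] {T : End F V} {A : End F V₁} {B : End F V₂}
    (h : HasUDL T A B) {P Q : F[X]} (hPQ : IsCoprime P Q) {db dh db' dh' : F} (hA : Rep P A db dh)
    (hB : Rep Q B db' dh') : Rep (P * Q) T (db * db') (dh * dh') := by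
  obtain ⟨e, X, Y, he⟩ := h
  exact (rep_conj_iff e).1 (he ▸ Rep.udl hPQ hA hB X Y)

section Matrices

variable {k : ℕ} {σ : F →+* F}

theorem aeval_map_map (M : Matrix (Fin k) (Fin k) F) (P : F[X]) :
    aeval (M.map σ) (P.map σ) = (aeval M P).map σ := by
  induction P using Polynomial.induction_on' with
  | add p q hp hq =>
    rw [Polynomial.map_add, map_add, map_add, hp, hq, Matrix.map_add _ (map_add σ)]
  | monomial n r =>
    rw [map_monomial, aeval_monomial, aeval_monomial, Algebra.algebraMap_eq_smul_one,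
      Algebra.algebraMap_eq_smul_one, smul_mul_assoc, smul_mul_assoc, one_mul, one_mul]
    have hp : (M ^ n).map σ = M.map σ ^ n := map_pow σ.mapMatrix M n
    ext i j
    simp [← hp]

/-- A matrix killed by `P`, prime to its conjugate reverse, fixes no non-zero matrix. -/
theorem freeW_of_aeval (H : GL (Fin k) F) (P : F[X]) (hP : aeval (H : Matrix (Fin k) (Fin k) F) P = 0)
    (hco : IsCoprime P (P.map σ).reverse) : FreeW σ (H : Matrix (Fin k) (Fin k) F) := by
  set G : GL (Fin k) F := Units.map (σ.mapMatrix.toMonoidHom) H with hG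
  have hGv : (G : Matrix (Fin k) (Fin k) F) = (H : Matrix (Fin k) (Fin k) F).map σ := rfl
  have hGP : aeval (G : Matrix (Fin k) (Fin k) F) (P.map σ) = 0 := by
    rw [hGv, aeval_map_map, hP, Matrix.map_zero _ (map_zero σ)]
  intro X hX
  refine matrix_intertwine_eq_zero hco hP
    (g := (((G⁻¹ : GL (Fin k) F) : Matrix (Fin k) (Fin k) F))ᵀ) ?_ ?_
  · rw [CfsgLib.OreOrth.aeval_transpose, aeval_inv_reverse G _ hGP, Matrix.transpose_zero]
  · calc (H : Matrix (Fin k) (Fin k) F) * X
        = (H : Matrix (Fin k) (Fin k) F) * X *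
            ((((G⁻¹ : GL (Fin k) F) : Matrix (Fin k) (Fin k) F) * (G : Matrix (Fin k) (Fin k) F))ᵀ) := by
          rw [Units.inv_mul, Matrix.transpose_one, mul_one]
      _ = X * (((G⁻¹ : GL (Fin k) F) : Matrix (Fin k) (Fin k) F))ᵀ := by
          rw [Matrix.transpose_mul, ← mul_assoc, hGv]
          exact congrArg (· * _) hX

/-- No eigenvalue of norm one. -/
theorem avoids_of_aeval (M : Matrix (Fin k) (Fin k) F) (P : F[X]) (hP : aeval M P = 0)
    (hroot : ∀ η : F, η * σ η = 1 → P.eval η ≠ 0) : Avoids σ M := by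
  intro η hη v hv
  have key : ∀ Q : F[X], (aeval M Q).mulVec v = Q.eval η • v := by
    intro Q
    induction Q using Polynomial.induction_on' with
    | add p q hp hq => rw [map_add, Matrix.add_mulVec, hp, hq, eval_add, add_smul]
    | monomial n r =>
      have hn : (M ^ n).mulVec v = η ^ n • v := by
        induction n with
        | zero => rw [pow_zero, Matrix.one_mulVec, pow_zero, one_smul]
        | succ n ih => rw [pow_succ, ← Matrix.mulVec_mulVec, hv, Matrix.mulVec_smul, ih, smul_smul, pow_succ']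
      rw [aeval_monomial, Algebra.algebraMap_eq_smul_one, smul_mul_assoc, one_mul, Matrix.smul_mulVec, hn,
        eval_monomial, smul_smul]
  have := key P
  rw [hP, Matrix.zero_mulVec] at this
  exact (smul_eq_zero.1 this.symm).resolve_left (hroot η hη)

/-- An admissible representation gives a good block. -/
theorem good_of_rep {q : ℕ} {ε : F} {fix : Prop} {A : Matrix (Fin k) (Fin k) F} {P : F[X]} {db dh : F}
    (hA : Rep P (Matrix.toLin' A) db dh) (hco : IsCoprime P (P.map σ).reverse)
    (hroot : ∀ η : F, η * σ η = 1 → P.eval η ≠ 0) (hd : dh ^ (q - 1) = ε) (hb : fix → db ^ (q - 1) = 1) :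
    Good q σ ε fix A := by
  obtain ⟨b, h, e, hdb, hdh, hN⟩ := hA
  let ψ : Module.End F (Fin k → F) ≃ₐ[F] Matrix (Fin k) (Fin k) F := LinearMap.toMatrixAlgEquiv'
  let c : (Module.End F (Fin k → F))ˣ →* GL (Fin k) F :=
    Units.map (ψ : Module.End F (Fin k → F) →* Matrix (Fin k) (Fin k) F)
  have hP : aeval ((c h : GL (Fin k) F) : Matrix (Fin k) (Fin k) F) P = 0 := by
    show aeval (ψ (h : Module.End F (Fin k → F))) P = 0
    rw [aeval_algEquiv, AlgHom.comp_apply, hN]
    exact map_zero ψ
  refine ⟨c b, c h, ?_, freeW_of_aeval _ P hP hco, avoids_of_aeval _ P hP hroot, ?_, fun hf => ?_⟩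
  · rw [← map_inv, ← map_inv, ← map_mul, ← map_mul, ← map_mul]
    show A = ψ ((b * h * b⁻¹ * h⁻¹ : (Module.End F (Fin k → F))ˣ) : Module.End F (Fin k → F))
    rw [← e]
    exact (LinearMap.toMatrix'_toLin' A).symm
  · show (LinearMap.toMatrix' (h : Module.End F (Fin k → F))).det ^ (q - 1) = ε
    rw [LinearMap.det_toMatrix', hdh, hd]
  · show (LinearMap.toMatrix' (b : Module.End F (Fin k → F))).det ^ (q - 1) = 1
    rw [LinearMap.det_toMatrix', hdb, hb hf]

end Matrices

end CfsgLib.OreSU
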