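import Cfsg.Agent.Lib.OreSU.Blk

/-!
The Gauss decomposition of an isometry of the hyperbolic hermitian form with invertible first block.
-/

set_option autoImplicit false
set_option linter.unusedSectionVars false
set_option linter.style.haveILetI false

namespace CfsgLib.OreSU

open Matrix

variable {F : Type*} [Field F] {q : ℕ} {σ : F →+* F} {k m : ℕ}

theorem IsConj.finite (hσ : IsConj q σ) : Finite F := by
  have hq0 : q ≠ 0 := fun h => by
    have := hσ.apply 0
    rw [map_zero, h, pow_zero] at this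
    exact zero_ne_one this
  exact Nat.finite_of_card_ne_zero (by rw [hσ.card]; positivity)

namespace Parabolic

local notation "MM" => Matrix (Idx k m) (Idx k m) F
local notation "GG" => GL (Idx k m) F

theorem blk_mul_sub {α β : Type*} (X Y : MM) (a : α → Idx k m) (b : β → Idx k m) :
    (X * Y).submatrix a b = X.submatrix a wI * Y.submatrix wI b +
      (X.submatrix a vI * Y.submatrix vI b + X.submatrix a fI * Y.submatrix fI b) := by
  ext i j
  simp [Matrix.mul_apply, Fintype.sum_sum_type]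

theorem adj_sub {α β : Type*} (X : MM) (a : α → Idx k m) (b : β → Idx k m) :
    (adj σ X).submatrix a b = adj σ (X.submatrix b a) := rfl

theorem ext_sub {X Y : MM} (h1 : X.submatrix wI wI = Y.submatrix wI wI) (h2 : X.submatrix wI vI = Y.submatrix wI vI)
    (h3 : X.submatrix wI fI = Y.submatrix wI fI) (h4 : X.submatrix vI wI = Y.submatrix vI wI)
    (h5 : X.submatrix vI vI = Y.submatrix vI vI) (h6 : X.submatrix vI fI = Y.submatrix vI fI)
    (h7 : X.submatrix fI wI = Y.submatrix fI wI) (h8 : X.submatrix fI vI = Y.submatrix fI vI)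
    (h9 : X.submatrix fI fI = Y.submatrix fI fI) : X = Y := by
  ext i j
  rcases i with i | i | i <;> rcases j with j | j | j
  · exact congrFun (congrFun h1 i) j
  · exact congrFun (congrFun h2 i) j
  · exact congrFun (congrFun h3 i) j
  · exact congrFun (congrFun h4 i) j
  · exact congrFun (congrFun h5 i) j
  · exact congrFun (congrFun h6 i) j
  · exact congrFun (congrFun h7 i) j
  · exact congrFun (congrFun h8 i) j
  · exact congrFun (congrFun h9 i) j

theorem one_sub_self {α β : Type*} [DecidableEq α] [DecidableEq β] (a : α → β) (ha : Function.Injective a) :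
    (1 : Matrix β β F).submatrix a a = 1 := Matrix.submatrix_one a ha

theorem one_sub_ne {α β γ : Type*} [DecidableEq γ] (a : α → γ) (b : β → γ) (h : ∀ i j, a i ≠ b j) :
    (1 : Matrix γ γ F).submatrix a b = 0 := by
  ext i j
  simp [h i j]

theorem one_blocks : (1 : MM).submatrix wI wI = 1 ∧ (1 : MM).submatrix wI vI = 0 ∧ (1 : MM).submatrix wI fI = 0 ∧
    (1 : MM).submatrix vI wI = 0 ∧ (1 : MM).submatrix vI vI = 1 ∧ (1 : MM).submatrix vI fI = 0 ∧
    (1 : MM).submatrix fI wI = 0 ∧ (1 : MM).submatrix fI vI = 0 ∧ (1 : MM).submatrix fI fI = 1 :=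
  ⟨one_sub_self _ fun a b h => by simpa using h, one_sub_ne _ _ (by simp), one_sub_ne _ _ (by simp),
    one_sub_ne _ _ (by simp), one_sub_self _ fun a b h => by simpa using h, one_sub_ne _ _ (by simp),
    one_sub_ne _ _ (by simp), one_sub_ne _ _ (by simp), one_sub_self _ fun a b h => by simpa using h⟩

theorem hyp_blk_mul_sub {β : Type*} (g : MM) (b : β → Idx k m) :
    ((hyp k m : MM) * g).submatrix wI b = g.submatrix fI b ∧
    ((hyp k m : MM) * g).submatrix vI b = g.submatrix vI b ∧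
    ((hyp k m : MM) * g).submatrix fI b = g.submatrix wI b := by
  refine ⟨?_, ?_, ?_⟩ <;>
  · ext i j
    simp [Matrix.mul_apply, Fintype.sum_sum_type, hyp, Matrix.one_apply]

/-- The blocks of `adj g * J * g`. -/
theorem herm_sub {α β : Type*} (g : MM) (a : α → Idx k m) (b : β → Idx k m) :
    (adj σ g * hyp k m * g).submatrix a b = adj σ (g.submatrix wI a) * g.submatrix fI b +
      (adj σ (g.submatrix vI a) * g.submatrix vI b + adj σ (g.submatrix fI a) * g.submatrix wI b) := by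
  obtain ⟨h1, h2, h3⟩ := hyp_blk_mul_sub g b
  rw [mul_assoc, blk_mul_sub, adj_sub, adj_sub, adj_sub, h1, h2, h3]

theorem hyp_blocks : (hyp k m : MM).submatrix wI wI = 0 ∧ (hyp k m : MM).submatrix wI vI = 0 ∧
    (hyp k m : MM).submatrix wI fI = 1 ∧ (hyp k m : MM).submatrix vI wI = 0 ∧
    (hyp k m : MM).submatrix vI vI = 1 ∧ (hyp k m : MM).submatrix vI fI = 0 ∧
    (hyp k m : MM).submatrix fI wI = 1 ∧ (hyp k m : MM).submatrix fI vI = 0 ∧
    (hyp k m : MM).submatrix fI fI = 0 := by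
  refine ⟨?_, ?_, ?_, ?_, ?_, ?_, ?_, ?_, ?_⟩ <;>
  · ext i j
    simp [hyp, Matrix.one_apply]

theorem det_lower {X : MM} (h1 : X.submatrix wI vI = 0) (h2 : X.submatrix wI fI = 0)
    (h3 : X.submatrix vI fI = 0) :
    X.det = (X.submatrix wI wI).det * ((X.submatrix vI vI).det * (X.submatrix fI fI).det) := by
  have e1 : X.toBlocks₁₂ = 0 := by
    ext i j
    rcases j with j | j
    · exact congrFun (congrFun h1 i) j
    · exact congrFun (congrFun h2 i) j
  conv_lhs => rw [← fromBlocks_toBlocks X, e1, det_fromBlocks_zero₁₂, ← fromBlocks_toBlocks X.toBlocks₂₂,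
    show X.toBlocks₂₂.toBlocks₁₂ = 0 from h3, det_fromBlocks_zero₁₂]
  rfl

theorem det_upper {X : MM} (h1 : X.submatrix vI wI = 0) (h2 : X.submatrix fI wI = 0)
    (h3 : X.submatrix fI vI = 0) :
    X.det = (X.submatrix wI wI).det * ((X.submatrix vI vI).det * (X.submatrix fI fI).det) := by
  have e1 : X.toBlocks₂₁ = 0 := by
    ext i j
    rcases i with i | i
    · exact congrFun (congrFun h1 i) j
    · exact congrFun (congrFun h2 i) j
  conv_lhs => rw [← fromBlocks_toBlocks X, e1, det_fromBlocks_zero₂₁, ← fromBlocks_toBlocks X.toBlocks₂₂,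
    show X.toBlocks₂₂.toBlocks₂₁ = 0 from h3, det_fromBlocks_zero₂₁]
  rfl

/-- Upper unitriangular. -/
def IsUpper (X : MM) : Prop :=
  X.submatrix wI wI = 1 ∧ X.submatrix vI vI = 1 ∧ X.submatrix fI fI = 1 ∧
    X.submatrix vI wI = 0 ∧ X.submatrix fI wI = 0 ∧ X.submatrix fI vI = 0

/-- Lower unitriangular. -/
def IsLower (X : MM) : Prop :=
  X.submatrix wI wI = 1 ∧ X.submatrix vI vI = 1 ∧ X.submatrix fI fI = 1 ∧
    X.submatrix wI vI = 0 ∧ X.submatrix wI fI = 0 ∧ X.submatrix vI fI = 0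

/-- Block diagonal. -/
def IsDiag (X : MM) : Prop :=
  X.submatrix wI vI = 0 ∧ X.submatrix wI fI = 0 ∧ X.submatrix vI wI = 0 ∧
    X.submatrix vI fI = 0 ∧ X.submatrix fI wI = 0 ∧ X.submatrix fI vI = 0

theorem IsUpper.mul {X Y : MM} (hX : IsUpper X) (hY : IsUpper Y) : IsUpper (X * Y) := by
  obtain ⟨a1, a2, a3, a4, a5, a6⟩ := hX
  obtain ⟨b1, b2, b3, b4, b5, b6⟩ := hY
  refine ⟨?_, ?_, ?_, ?_, ?_, ?_⟩ <;> simp [blk_mul_sub, a1, a2, a3, a4, a5, a6, b1, b2, b3, b4, b5, b6]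

theorem IsLower.mul {X Y : MM} (hX : IsLower X) (hY : IsLower Y) : IsLower (X * Y) := by
  obtain ⟨a1, a2, a3, a4, a5, a6⟩ := hX
  obtain ⟨b1, b2, b3, b4, b5, b6⟩ := hY
  refine ⟨?_, ?_, ?_, ?_, ?_, ?_⟩ <;> simp [blk_mul_sub, a1, a2, a3, a4, a5, a6, b1, b2, b3, b4, b5, b6]

theorem IsDiag.mul {X Y : MM} (hX : IsDiag X) (hY : IsDiag Y) : IsDiag (X * Y) := by
  obtain ⟨a1, a2, a3, a4, a5, a6⟩ := hX
  obtain ⟨b1, b2, b3, b4, b5, b6⟩ := hY
  refine ⟨?_, ?_, ?_, ?_, ?_, ?_⟩ <;> simp [blk_mul_sub, a1, a2, a3, a4, a5, a6, b1, b2, b3, b4, b5, b6]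

theorem isUpper_one : IsUpper (1 : MM) := by
  obtain ⟨h1, -, -, h4, h5, -, h7, h8, h9⟩ := one_blocks (F := F) (k := k) (m := m)
  exact ⟨h1, h5, h9, h4, h7, h8⟩

theorem isLower_one : IsLower (1 : MM) := by
  obtain ⟨h1, h2, h3, -, h5, h6, -, -, h9⟩ := one_blocks (F := F) (k := k) (m := m)
  exact ⟨h1, h5, h9, h2, h3, h6⟩

theorem isDiag_one : IsDiag (1 : MM) := by
  obtain ⟨-, h2, h3, h4, -, h6, h7, h8, -⟩ := one_blocks (F := F) (k := k) (m := m)
  exact ⟨h2, h3, h4, h6, h7, h8⟩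

theorem IsUpper.diag_conj {X M N : MM} (hX : IsUpper X) (hM : IsDiag M) (hN : IsDiag N) (h : M * N = 1) :
    IsUpper (M * X * N) := by
  obtain ⟨a1, a2, a3, a4, a5, a6⟩ := hX
  obtain ⟨b1, b2, b3, b4, b5, b6⟩ := hM
  obtain ⟨c1, c2, c3, c4, c5, c6⟩ := hN
  obtain ⟨h1, -, -, -, h5, -, -, -, h9⟩ := one_blocks (F := F) (k := k) (m := m)
  have e1 := congrArg (fun Z : MM => Z.submatrix wI wI) h
  have e2 := congrArg (fun Z : MM => Z.submatrix vI vI) h
  have e3 := congrArg (fun Z : MM => Z.submatrix fI fI) h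
  simp [blk_mul_sub, b1, b2, b3, b4, b5, b6, c1, c2, c3, c4, c5, c6, h1, h5, h9] at e1 e2 e3
  refine ⟨?_, ?_, ?_, ?_, ?_, ?_⟩ <;>
    simp [blk_mul_sub, a1, a2, a3, a4, a5, a6, b1, b2, b3, b4, b5, b6, c1, c2, c3, c4, c5, c6, e1, e2, e3]

theorem IsLower.diag_conj {X M N : MM} (hX : IsLower X) (hM : IsDiag M) (hN : IsDiag N) (h : M * N = 1) :
    IsLower (M * X * N) := by
  obtain ⟨a1, a2, a3, a4, a5, a6⟩ := hX
  obtain ⟨b1, b2, b3, b4, b5, b6⟩ := hM
  obtain ⟨c1, c2, c3, c4, c5, c6⟩ := hN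
  obtain ⟨h1, -, -, -, h5, -, -, -, h9⟩ := one_blocks (F := F) (k := k) (m := m)
  have e1 := congrArg (fun Z : MM => Z.submatrix wI wI) h
  have e2 := congrArg (fun Z : MM => Z.submatrix vI vI) h
  have e3 := congrArg (fun Z : MM => Z.submatrix fI fI) h
  simp [blk_mul_sub, b1, b2, b3, b4, b5, b6, c1, c2, c3, c4, c5, c6, h1, h5, h9] at e1 e2 e3
  refine ⟨?_, ?_, ?_, ?_, ?_, ?_⟩ <;>
    simp [blk_mul_sub, a1, a2, a3, a4, a5, a6, b1, b2, b3, b4, b5, b6, c1, c2, c3, c4, c5, c6, e1, e2, e3]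

/-- A submonoid of a finite group is a subgroup. -/
def toSubgroup {G : Type*} [Group G] [Finite G] (S : Submonoid G) : Subgroup G :=
  { S with
    inv_mem' := fun {x} hx => by
      have h : x⁻¹ = x ^ (orderOf x - 1) := inv_eq_of_mul_eq_one_right (by
        rw [← pow_succ', Nat.sub_add_cancel (orderOf_pos x), pow_orderOf_eq_one])
      rw [h]
      exact S.pow_mem hx _ }

theorem mem_toSubgroup {G : Type*} [Group G] [Finite G] {S : Submonoid G} {x : G} : x ∈ toSubgroup S ↔ x ∈ S :=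
  Iff.rfl

variable [Finite F]

/-- The upper radical. -/
def upperRad (σ : F →+* F) : Subgroup GG :=
  toSubgroup {
    carrier := {g | g ∈ sisom σ (hyp k m) ∧ IsUpper (g : MM)}
    one_mem' := ⟨one_mem _, by rw [Units.val_one]; exact isUpper_one⟩
    mul_mem' := fun {a b} ha hb => ⟨mul_mem ha.1 hb.1, by rw [Units.val_mul]; exact ha.2.mul hb.2⟩ }

/-- The lower radical. -/
def lowerRad (σ : F →+* F) : Subgroup GG :=
  toSubgroup {
    carrier := {g | g ∈ sisom σ (hyp k m) ∧ IsLower (g : MM)}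
    one_mem' := ⟨one_mem _, by rw [Units.val_one]; exact isLower_one⟩
    mul_mem' := fun {a b} ha hb => ⟨mul_mem ha.1 hb.1, by rw [Units.val_mul]; exact ha.2.mul hb.2⟩ }

/-- The Levi subgroup. -/
def leviSub (σ : F →+* F) : Subgroup GG :=
  toSubgroup {
    carrier := {g | g ∈ isom σ (hyp k m) ∧ IsDiag (g : MM)}
    one_mem' := ⟨one_mem _, by rw [Units.val_one]; exact isDiag_one⟩
    mul_mem' := fun {a b} ha hb => ⟨mul_mem ha.1 hb.1, by rw [Units.val_mul]; exact ha.2.mul hb.2⟩ }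

theorem conj_mem_sisom {g u : GG} (hg : g ∈ isom σ (hyp k m)) (hu : u ∈ sisom σ (hyp k m)) :
    g * u * g⁻¹ ∈ sisom σ (hyp k m) := by
  rw [sisom, Subgroup.mem_inf] at hu ⊢
  exact ⟨mul_mem (mul_mem hg hu.1) (inv_mem hg), Subgroup.Normal.conj_mem inferInstance _ hu.2 g⟩

theorem conj_mem_upperRad {g : GG} (hg : g ∈ leviSub σ) {u : GG} (hu : u ∈ upperRad σ) :
    g * u * g⁻¹ ∈ upperRad σ := by
  have hg' : g⁻¹ ∈ leviSub σ := inv_mem hg
  refine ⟨conj_mem_sisom hg.1 hu.1, ?_⟩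
  rw [Units.val_mul, Units.val_mul]
  exact hu.2.diag_conj hg.2 hg'.2 g.mul_inv

theorem conj_mem_lowerRad {g : GG} (hg : g ∈ leviSub σ) {u : GG} (hu : u ∈ lowerRad σ) :
    g * u * g⁻¹ ∈ lowerRad σ := by
  have hg' : g⁻¹ ∈ leviSub σ := inv_mem hg
  refine ⟨conj_mem_sisom hg.1 hu.1, ?_⟩
  rw [Units.val_mul, Units.val_mul]
  exact hu.2.diag_conj hg.2 hg'.2 g.mul_inv

/-- The block diagonal matrix of a pair. -/
def leviMat (σ : F →+* F) (x : GL (Fin k) F × GL (Fin m) F) : MM :=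
  blk (x.1 : Matrix (Fin k) (Fin k) F) 0 0 0 (x.2 : Matrix (Fin m) (Fin m) F) 0 0 0
    (adj σ ((x.1⁻¹ : GL (Fin k) F) : Matrix (Fin k) (Fin k) F))

theorem leviMat_one : leviMat σ (1 : GL (Fin k) F × GL (Fin m) F) = 1 := by
  simp [leviMat, adj_one, blk_one]

theorem leviMat_mul (x y : GL (Fin k) F × GL (Fin m) F) :
    leviMat σ (x * y) = leviMat σ x * leviMat σ y := by
  apply ext_sub <;> simp only [blk_mul_sub] <;>
    simp [leviMat, adj_mul]

/-- The Levi embedding. -/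
def levi (σ : F →+* F) : GL (Fin k) F × GL (Fin m) F →* GG :=
  MonoidHom.toHomUnits
    { toFun := leviMat σ
      map_one' := leviMat_one
      map_mul' := leviMat_mul }

theorem levi_coe (x : GL (Fin k) F × GL (Fin m) F) : ((levi σ x : GG) : MM) = leviMat σ x := rfl

theorem isDiag_levi (x : GL (Fin k) F × GL (Fin m) F) : IsDiag ((levi σ x : GG) : MM) :=
  ⟨rfl, rfl, rfl, rfl, rfl, rfl⟩

theorem levi_mem_isom (hinv : ∀ a, σ (σ a) = a) {x : GL (Fin k) F × GL (Fin m) F}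
    (hx : x.2 ∈ isom σ (1 : Matrix (Fin m) (Fin m) F)) : levi σ x ∈ isom σ (hyp k m) := by
  have hx' : adj σ (x.2 : Matrix (Fin m) (Fin m) F) * (x.2 : Matrix (Fin m) (Fin m) F) = 1 := by
    have : adj σ (x.2 : Matrix (Fin m) (Fin m) F) * 1 * (x.2 : Matrix (Fin m) (Fin m) F) = 1 := hx
    rwa [mul_one] at this
  obtain ⟨j1, j2, j3, j4, j5, j6, j7, j8, j9⟩ := hyp_blocks (F := F) (k := k) (m := m)
  show adj σ (leviMat σ x) * hyp k m * leviMat σ x = hyp k m
  apply ext_sub <;> simp only [herm_sub, j1, j2, j3, j4, j5, j6, j7, j8, j9] <;>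
    simp [leviMat, adj_zero, adj_adj σ hinv, ← adj_mul, adj_one, hx']

theorem det_levi (x : GL (Fin k) F × GL (Fin m) F) :
    ((levi σ x : GG) : MM).det = (x.1 : Matrix (Fin k) (Fin k) F).det *
      ((x.2 : Matrix (Fin m) (Fin m) F).det * (σ (x.1 : Matrix (Fin k) (Fin k) F).det)⁻¹) := by
  rw [det_lower rfl rfl rfl]
  show _ * (_ * (adj σ ((x.1⁻¹ : GL (Fin k) F) : Matrix (Fin k) (Fin k) F)).det) = _
  rw [det_adj]
  congr 2
  refine eq_inv_of_mul_eq_one_left ?_
  rw [← map_mul, ← Matrix.det_mul, Units.inv_mul, det_one, map_one]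

/-- Gauss decomposition. -/
theorem exists_lx (hinv : ∀ a, σ (σ a) = a) {g : GG} (hg : g ∈ sisom σ (hyp k m)) (A : GL (Fin k) F)
    (hA : (g : MM).submatrix wI wI = (A : Matrix (Fin k) (Fin k) F)) :
    ∃ l ∈ lowerRad σ, ∃ x ∈ sisom σ (hyp k m), g = l * x ∧
      (x : MM).submatrix wI wI = (A : Matrix (Fin k) (Fin k) F) ∧ (x : MM).submatrix vI wI = 0 ∧
      (x : MM).submatrix fI wI = 0 ∧ (x : MM).submatrix vI vI = middle (g : MM) ∧
      (x : MM).submatrix fI vI = 0 ∧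
      (x : MM).submatrix fI fI = adj σ ((A⁻¹ : GL (Fin k) F) : Matrix (Fin k) (Fin k) F) := by
  classical
  obtain ⟨j1, j2, j3, j4, j5, j6, j7, j8, j9⟩ := hyp_blocks (F := F) (k := k) (m := m)
  obtain ⟨A', hA'⟩ : ∃ A' : Matrix (Fin k) (Fin k) F, A' = ((A⁻¹ : GL (Fin k) F) : Matrix (Fin k) (Fin k) F) :=
    ⟨_, rfl⟩
  have hAA' : (A : Matrix (Fin k) (Fin k) F) * A' = 1 := by rw [hA', Units.mul_inv]
  have hA'A : A' * (A : Matrix (Fin k) (Fin k) F) = 1 := by rw [hA', Units.inv_mul]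
  obtain ⟨D0, hD0⟩ : ∃ D0, D0 = (g : MM).submatrix vI wI * A' := ⟨_, rfl⟩
  obtain ⟨G0, hG0⟩ : ∃ G0, G0 = (g : MM).submatrix fI wI * A' := ⟨_, rfl⟩
  obtain ⟨L0, hL0⟩ : ∃ L0 : MM, L0 = blk 1 0 0 D0 1 0 G0 (-adj σ D0) 1 := ⟨_, rfl⟩
  have l1 : L0.submatrix wI wI = 1 := hL0 ▸ rfl
  have l2 : L0.submatrix wI vI = 0 := hL0 ▸ rfl
  have l3 : L0.submatrix wI fI = 0 := hL0 ▸ rfl
  have l4 : L0.submatrix vI wI = D0 := hL0 ▸ rfl
  have l5 : L0.submatrix vI vI = 1 := hL0 ▸ rfl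
  have l6 : L0.submatrix vI fI = 0 := hL0 ▸ rfl
  have l7 : L0.submatrix fI wI = G0 := hL0 ▸ rfl
  have l8 : L0.submatrix fI vI = -adj σ D0 := hL0 ▸ rfl
  have l9 : L0.submatrix fI fI = 1 := hL0 ▸ rfl
  have hgiso := (mem_sisom.1 hg).1
  have hgww := congrArg (fun Z : MM => Z.submatrix wI wI) hgiso
  simp only [herm_sub, j1, hA] at hgww
  have hLiso : adj σ L0 * hyp k m * L0 = hyp k m := by
    have key : adj σ (1 : Matrix (Fin k) (Fin k) F) * G0 + (adj σ D0 * D0 + adj σ G0 * 1) = 0 := by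
      have h := congrArg (fun Z => adj σ A' * Z * A') hgww
      simp only [mul_add, add_mul, mul_zero, zero_mul, ← mul_assoc, ← adj_mul, hAA', adj_one, one_mul] at h
      rw [hD0, hG0, adj_one, one_mul, adj_mul, adj_mul, mul_one]
      rw [mul_assoc _ (A : Matrix (Fin k) (Fin k) F), hAA', mul_one] at h
      simp only [adj_mul, ← Matrix.mul_assoc] at h ⊢
      exact h
    apply ext_sub <;> simp only [herm_sub, l1, l2, l3, l4, l5, l6, l7, l8, l9, j1, j2, j3, j4, j5, j6, j7, j8, j9]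
    all_goals first
      | exact key
      | simp [adj_zero, adj_one, adj_neg, adj_adj σ hinv]
  have hLdet : L0.det = 1 := by
    rw [det_lower l2 l3 l6, l1, l5, l9]
    simp
  let l : GG := Matrix.GeneralLinearGroup.mkOfDetNeZero L0 (by rw [hLdet]; exact one_ne_zero)
  have hl : l ∈ lowerRad σ := ⟨mem_sisom.2 ⟨hLiso, hLdet⟩, l1, l5, l9, l2, l3, l6⟩
  obtain ⟨x, hxdef⟩ : ∃ x : GG, x = l⁻¹ * g := ⟨_, rfl⟩
  have hx : x ∈ sisom σ (hyp k m) := hxdef ▸ mul_mem (inv_mem hl.1) hg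
  have hlx : L0 * (x : MM) = (g : MM) := by
    rw [hxdef, show L0 = (l : MM) from rfl, ← Units.val_mul, mul_inv_cancel_left]
  have e : ∀ {β : Type} (b : β → Idx k m), (x : MM).submatrix wI b = (g : MM).submatrix wI b ∧
      D0 * (x : MM).submatrix wI b + (x : MM).submatrix vI b = (g : MM).submatrix vI b ∧
      G0 * (x : MM).submatrix wI b + (-adj σ D0 * (x : MM).submatrix vI b + (x : MM).submatrix fI b) =
        (g : MM).submatrix fI b := by
    intro β b
    rw [← hlx]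
    refine ⟨?_, ?_, ?_⟩ <;> simp [blk_mul_sub, l1, l2, l3, l4, l5, l6, l7, l8, l9]
  obtain ⟨xw, xv, xf⟩ := e wI
  obtain ⟨yw, yv, -⟩ := e vI
  rw [hA] at xw
  rw [xw, hD0, Matrix.mul_assoc, hA'A, Matrix.mul_one, add_eq_left] at xv
  rw [xw, xv, hG0, Matrix.mul_assoc, hA'A, Matrix.mul_one, Matrix.mul_zero, zero_add, add_eq_left] at xf
  have xvv : (x : MM).submatrix vI vI = middle (g : MM) := by
    rw [middle, hA, ← Matrix.coe_units_inv, ← hA', ← hD0, eq_sub_iff_add_eq, add_comm]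
    rw [yw] at yv
    exact yv
  have hxiso := (mem_sisom.1 hx).1
  have xfv : (x : MM).submatrix fI vI = 0 := by
    have h := congrArg (fun Z : MM => Z.submatrix wI vI) hxiso
    simp only [herm_sub, j2, xw, xv, xf, adj_zero, Matrix.zero_mul, add_zero] at h
    have h' := congrArg (adj σ A' * ·) h
    simpa [← Matrix.mul_assoc, ← adj_mul, hAA', adj_one] using h'
  have xff : (x : MM).submatrix fI fI = adj σ A' := by
    have h := congrArg (fun Z : MM => Z.submatrix wI fI) hxiso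
    simp only [herm_sub, j3, xw, xv, xf, adj_zero, Matrix.zero_mul, add_zero] at h
    have h' := congrArg (adj σ A' * ·) h
    simpa [← Matrix.mul_assoc, ← adj_mul, hAA', adj_one] using h'
  refine ⟨l, hl, x, hx, ?_, xw, xv, xf, xvv, xfv, hA' ▸ xff⟩
  rw [hxdef, mul_inv_cancel_left]

/-- An upper triangular isometry has an isometry as its middle block and a prescribed determinant. -/
theorem middle_props (hinv : ∀ a, σ (σ a) = a) {g : GG} (hg : g ∈ sisom σ (hyp k m)) (A : GL (Fin k) F)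
    (hA : (g : MM).submatrix wI wI = (A : Matrix (Fin k) (Fin k) F)) :
    adj σ (middle (g : MM)) * middle (g : MM) = 1 ∧
      (middle (g : MM)).det * (A : Matrix (Fin k) (Fin k) F).det =
        σ (A : Matrix (Fin k) (Fin k) F).det := by
  obtain ⟨-, -, x, hx, -, xw, xv, xf, xvv, xfv, xff⟩ := exists_lx hinv hg A hA
  obtain ⟨-, -, -, -, j5, -, -, -, -⟩ := hyp_blocks (F := F) (k := k) (m := m)
  obtain ⟨h1, h2⟩ := mem_sisom.1 hx
  constructor
  · have h := congrArg (fun Z : MM => Z.submatrix vI vI) h1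
    simpa [herm_sub, j5, xvv, xfv, adj_zero] using h
  · rw [det_upper xv xf xfv, xw, xvv, xff, det_adj] at h2
    have h3 : σ ((A⁻¹ : GL (Fin k) F) : Matrix (Fin k) (Fin k) F).det *
        σ (A : Matrix (Fin k) (Fin k) F).det = 1 := by
      rw [← map_mul, ← Matrix.det_mul, Units.inv_mul, det_one, map_one]
    calc (middle (g : MM)).det * (A : Matrix (Fin k) (Fin k) F).det
        = ((A : Matrix (Fin k) (Fin k) F).det * ((middle (g : MM)).det *
            σ ((A⁻¹ : GL (Fin k) F) : Matrix (Fin k) (Fin k) F).det)) *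
            σ (A : Matrix (Fin k) (Fin k) F).det := by
          rw [mul_assoc, mul_assoc, h3, mul_one, mul_comm]
      _ = σ (A : Matrix (Fin k) (Fin k) F).det := by rw [h2, one_mul]

/-- Gauss decomposition. -/
theorem exists_ldu (hinv : ∀ a, σ (σ a) = a) {g : GG} (hg : g ∈ sisom σ (hyp k m)) (A : GL (Fin k) F)
    (hA : (g : MM).submatrix wI wI = (A : Matrix (Fin k) (Fin k) F)) (N : GL (Fin m) F)
    (hN : middle (g : MM) = (N : Matrix (Fin m) (Fin m) F)) (hD : levi σ (A, N) ∈ sisom σ (hyp k m)) :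
    ∃ l ∈ lowerRad σ, ∃ u ∈ upperRad σ, g = l * levi σ (A, N) * u := by
  obtain ⟨l, hl, x, hx, hgx, xw, xv, xf, xvv, xfv, xff⟩ := exists_lx hinv hg A hA
  rw [hN] at xvv
  obtain ⟨A', hA'⟩ : ∃ A' : Matrix (Fin k) (Fin k) F, A' = ((A⁻¹ : GL (Fin k) F) : Matrix (Fin k) (Fin k) F) :=
    ⟨_, rfl⟩
  have hA'A : A' * (A : Matrix (Fin k) (Fin k) F) = 1 := by rw [hA', Units.inv_mul]
  obtain ⟨u, hudef⟩ : ∃ u : GG, u = (levi σ (A, N))⁻¹ * x := ⟨_, rfl⟩
  have hu : leviMat σ (A, N) * (u : MM) = (x : MM) := by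
    rw [hudef, ← levi_coe, ← Units.val_mul, mul_inv_cancel_left]
  have c1 := congrArg (fun Z : MM => Z.submatrix wI wI) hu
  have c2 := congrArg (fun Z : MM => Z.submatrix vI vI) hu
  have c3 := congrArg (fun Z : MM => Z.submatrix fI fI) hu
  have c4 := congrArg (fun Z : MM => Z.submatrix vI wI) hu
  have c5 := congrArg (fun Z : MM => Z.submatrix fI wI) hu
  have c6 := congrArg (fun Z : MM => Z.submatrix fI vI) hu
  simp [blk_mul_sub, leviMat, xw, xv, xf, xvv, xfv, xff, ← hA'] at c1 c2 c3 c4 c5 c6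
  have hAA : adj σ (A : Matrix (Fin k) (Fin k) F) * adj σ A' = 1 := by rw [← adj_mul, hA'A, adj_one]
  refine ⟨l, hl, u, ⟨hudef ▸ mul_mem (inv_mem hD) hx, ?_, ?_, ?_, ?_, ?_, ?_⟩, ?_⟩
  · simpa [← Matrix.mul_assoc, hA'A] using congrArg (A' * ·) c1
  · simpa [← Matrix.mul_assoc] using congrArg (((N⁻¹ : GL (Fin m) F) : Matrix (Fin m) (Fin m) F) * ·) c2
  · simpa [← Matrix.mul_assoc, hAA] using congrArg (adj σ (A : Matrix (Fin k) (Fin k) F) * ·) c3
  · simpa [← Matrix.mul_assoc] using congrArg (((N⁻¹ : GL (Fin m) F) : Matrix (Fin m) (Fin m) F) * ·) c4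
  · simpa [← Matrix.mul_assoc, hAA] using congrArg (adj σ (A : Matrix (Fin k) (Fin k) F) * ·) c5
  · simpa [← Matrix.mul_assoc, hAA] using congrArg (adj σ (A : Matrix (Fin k) (Fin k) F) * ·) c6
  · rw [hudef, hgx]
    group

end Parabolic

open Parabolic in
/-- The middle factor of an isometry of determinant one is an isometry, and its determinant is
fixed by that of the first block. -/
theorem middle_of_mem (hσ : IsConj q σ) {k m : ℕ} {g : GL (Idx k m) F} (hg : g ∈ sisom σ (hyp k m))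
    (hA : IsUnit ((g : Matrix (Idx k m) (Idx k m) F).submatrix wI wI).det) :
    adj σ (middle (g : Matrix (Idx k m) (Idx k m) F)) * middle (g : Matrix (Idx k m) (Idx k m) F) = 1 ∧
      (middle (g : Matrix (Idx k m) (Idx k m) F)).det *
          ((g : Matrix (Idx k m) (Idx k m) F).submatrix wI wI).det =
        σ ((g : Matrix (Idx k m) (Idx k m) F).submatrix wI wI).det := by
  haveI := hσ.finite
  haveI := Fintype.ofFinite F
  exact middle_props hσ.invol hg (Matrix.GeneralLinearGroup.mkOfDetNeZero _ hA.ne_zero) rfl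

end CfsgLib.OreSU
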