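import Cfsg.Agent.Lib.OreSU.Split

/-!
Admissible representations of cyclic blocks over fields with at least sixteen elements: the roots of the second
entry are chosen by their residues modulo `q + 1`.
-/

set_option autoImplicit false
set_option linter.unusedSectionVars false

namespace CfsgLib.OreSU

open Matrix

variable {F : Type*} [Field F] [Fintype F] {q : ℕ} {σ : F →+* F}

/-- Non-zero representatives of the residues modulo `q + 1` whose products with conjugates avoid one. -/
theorem exists_residue_roots (hσ : IsConj q σ) (hq : 4 ≤ q) {ε : F} (hε : ε * σ ε = 1) :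
    ∃ (v : ZMod (q + 1) → F) (E : ZMod (q + 1)), (∀ r, v r ≠ 0) ∧ Function.Injective v ∧
      (∀ r r', v r * σ (v r') ≠ 1) ∧
      ∀ (ι : Type) (_ : Fintype ι) (r : ι → ZMod (q + 1)), ∑ i, r i = E → (∏ i, v (r i)) ^ (q - 1) = ε := by
  classical
  obtain ⟨g, hg⟩ := IsCyclic.exists_generator (α := Fˣ)
  obtain ⟨t, rfl⟩ : ∃ t, q = t + 1 := ⟨q - 1, by omega⟩
  have hord : orderOf g = t * (t + 2) := by
    rw [orderOf_eq_card_of_forall_mem_zpowers hg, Nat.card_units, hσ.card,
      show (t + 1) ^ 2 = t * (t + 2) + 1 by ring]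
    rfl
  have hord0 : 0 < orderOf g := orderOf_pos g
  have hε0 : ε ≠ 0 := fun h => by simp [h] at hε
  obtain ⟨e, he⟩ := (Submonoid.mem_powers_iff (Units.mk0 ε hε0) g).1
    ((isOfFinOrder_of_finite g).mem_powers_iff_mem_zpowers.2 (hg _))
  have hte : t ∣ e := by
    have h1 : g ^ (e * (t + 2)) = 1 := by
      rw [pow_mul, he]
      refine Units.ext ?_
      rw [Units.val_pow_eq_pow_val, Units.val_mk0, Units.val_one, show t + 2 = t + 1 + 1 from rfl, pow_succ',
        ← hσ.apply, hε]
    rw [← orderOf_dvd_iff_pow_eq_one, hord] at h1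
    exact Nat.dvd_of_mul_dvd_mul_right (by omega) h1
  obtain ⟨E, rfl⟩ := hte
  have hL : ∀ r : ZMod (t + 1 + 1), ∃ L : ℕ, (L : ZMod (t + 1 + 1)) = r ∧ ¬ t ∣ L := by
    intro r
    by_cases h : t ∣ r.val
    · refine ⟨r.val + (t + 1 + 1), ?_, fun h' => ?_⟩
      · rw [Nat.cast_add, ZMod.natCast_self, add_zero, ZMod.natCast_zmod_val]
      · have h2 : t ∣ 2 := (Nat.dvd_add_right (dvd_refl t)).1 ((Nat.dvd_add_right h).1 h')
        have := Nat.le_of_dvd (by norm_num) h2
        omega
    · exact ⟨r.val, ZMod.natCast_zmod_val r, h⟩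
  choose L hL1 hL2 using hL
  refine ⟨fun r => ((g ^ L r : Fˣ) : F), (E : ZMod (t + 1 + 1)), fun r => Units.ne_zero _, ?_, ?_, ?_⟩
  · intro r r' h
    have h1 : g ^ L r = g ^ L r' := Units.ext h
    rw [pow_eq_pow_iff_modEq, hord] at h1
    have h2 : L r ≡ L r' [MOD t + 1 + 1] := h1.of_mul_left t
    rw [← ZMod.natCast_eq_natCast_iff, hL1, hL1] at h2
    exact h2
  · intro r r' h
    have h1 : g ^ (L r + L r' * (t + 1)) = 1 := by
      refine Units.ext ?_
      rw [Units.val_one, pow_add, Units.val_mul, pow_mul, Units.val_pow_eq_pow_val _ (t + 1), ← hσ.apply]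
      exact h
    rw [← orderOf_dvd_iff_pow_eq_one, hord] at h1
    have h2 : r = r' := by
      have h3 : ((L r + L r' * (t + 1) : ℕ) : ZMod (t + 1 + 1)) = 0 := by
        rw [ZMod.natCast_eq_zero_iff]
        exact (Dvd.intro_left t rfl).trans h1
      rw [Nat.cast_add, Nat.cast_mul, hL1, hL1] at h3
      have h4 : ((t + 1 : ℕ) : ZMod (t + 1 + 1)) = -1 := by
        rw [eq_neg_iff_add_eq_zero]
        exact_mod_cast ZMod.natCast_self (t + 1 + 1)
      rw [h4, mul_neg, mul_one, ← sub_eq_add_neg, sub_eq_zero] at h3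
      exact h3
    subst h2
    rw [show L r + L r * (t + 1) = L r * (t + 2) by ring] at h1
    exact hL2 r (Nat.dvd_of_mul_dvd_mul_right (by omega) h1)
  · intro ι _ r hr
    have h1 : g ^ (t * ∑ i, L (r i)) = g ^ (t * E) := by
      rw [pow_eq_pow_iff_modEq, hord]
      refine Nat.ModEq.mul_left' t ?_
      rw [← ZMod.natCast_eq_natCast_iff, Nat.cast_sum]
      simp only [hL1]
      exact hr
    rw [← Units.coe_prod, ← Units.val_pow_eq_pow_val, Finset.prod_pow_eq_pow_sum, Nat.add_sub_cancel,
      ← pow_mul, mul_comm, h1, he, Units.val_mk0]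

/-- Cyclic blocks of determinant one are admissible over fields with at least sixteen elements. -/
theorem good_large (hσ : IsConj q σ) (hq : 4 ≤ q) {k : ℕ} (hk : 1 ≤ k) (A : Matrix (Fin k) (Fin k) F)
    (hA : CfsgLib.PSLCover.HasCyclic A) (hd : A.det = 1) {ε : F} (hε : ε * σ ε = 1) (fix : Prop)
    (hfix : fix → 2 ≤ k ∧ ε = 1) : Good q σ ε fix A := by
  classical
  obtain ⟨v, E, hv0, hvi, hvp, hve⟩ := exists_residue_roots hσ hq hε
  -- the engine for a residue vector
  have engine : ∀ r : Fin k → ZMod (q + 1), ∑ i, r i = E →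
      (∀ i j : Fin k, i < j → r i = r j → ∀ l : Fin k, l.val + 1 = j.val → r l = r j) →
      (k = 2 → ∀ i j : Fin k, i ≠ j → r i ≠ r j) → (fix → ∃ i₀, ∀ i, r i = r i₀ → i = i₀) →
      Good q σ ε fix A := by
    intro r hs hseg h2 hone
    refine good_split hσ hk A hA hd (fun i => v (r i)) (fun i => hv0 _) (fun i j => hvp _ _)
      (fun i j hij e l hl => congrArg v (hseg i j hij (hvi e) l hl))
      (fun h i j hne e => h2 h i j hne (hvi e)) (hve _ _ r hs).symm fix fun hf => ?_
    obtain ⟨i₀, hi₀⟩ := hone hf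
    refine ⟨i₀, ?_⟩
    rw [show Nat.card {i // v (r i) = v (r i₀)} = 1 from ?_]
    · exact Nat.coprime_one_left _
    rw [Nat.card_eq_one_iff_unique]
    exact ⟨⟨fun a b => Subtype.ext ((hi₀ _ (hvi a.2)).trans (hi₀ _ (hvi b.2)).symm)⟩, ⟨⟨i₀, rfl⟩⟩⟩
  obtain ⟨m, rfl⟩ : ∃ m, k = m + 1 := ⟨k - 1, by omega⟩
  rcases Nat.eq_zero_or_pos m with rfl | hm
  · exact engine (fun _ => E) (by simp) (fun i j hij => absurd (Fin.lt_def.1 hij) (by omega))
      (fun h => absurd h (by omega)) (fun _ => ⟨0, fun i _ => Fin.ext (by simp)⟩)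
  -- a constant residue followed by a different one
  by_cases hA' : ∃ r₁ : ZMod (q + 1), E - (m : ZMod (q + 1)) * r₁ ≠ r₁
  · obtain ⟨r₁, hr₁⟩ := hA'
    refine engine (Fin.snoc (fun _ => r₁) (E - (m : ZMod (q + 1)) * r₁)) ?_ ?_ ?_ ?_
    · rw [Fin.sum_univ_castSucc]
      simp only [Fin.snoc_castSucc, Fin.snoc_last, Finset.sum_const, Finset.card_univ, Fintype.card_fin,
        nsmul_eq_mul]
      ring
    · intro i j hij e l hl
      induction j using Fin.lastCases with
      | last =>
        obtain ⟨i', rfl⟩ : ∃ i' : Fin m, i'.castSucc = i := Fin.exists_castSucc_eq.2 hij.ne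
        simp only [Fin.snoc_castSucc, Fin.snoc_last] at e
        exact absurd e.symm hr₁
      | cast j =>
        obtain ⟨l', rfl⟩ : ∃ l' : Fin m, l'.castSucc = l := Fin.exists_castSucc_eq.2 (fun h => by
          have := j.isLt
          simp [h] at hl
          omega)
        simp only [Fin.snoc_castSucc]
    · intro h i j hne
      obtain rfl : m = 1 := by omega
      intro e
      induction i using Fin.lastCases with
      | last =>
        induction j using Fin.lastCases with
        | last => exact hne rfl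
        | cast j =>
          simp only [Fin.snoc_castSucc, Fin.snoc_last] at e
          exact hr₁ e
      | cast i =>
        induction j using Fin.lastCases with
        | last =>
          simp only [Fin.snoc_castSucc, Fin.snoc_last] at e
          exact hr₁ e.symm
        | cast j => exact hne (congrArg Fin.castSucc (Subsingleton.elim i j))
    · intro _
      refine ⟨Fin.last m, fun i hi => ?_⟩
      by_contra hne
      obtain ⟨i', rfl⟩ : ∃ i' : Fin m, i'.castSucc = i := Fin.exists_castSucc_eq.2 hne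
      simp only [Fin.snoc_castSucc, Fin.snoc_last] at hi
      exact hr₁ hi.symm
  -- now `E = 0` and `q + 1` divides the size
  push Not at hA'
  have hE : E = 0 := by simpa using hA' 0
  have hk0 : (m : ZMod (q + 1)) + 1 = 0 := by
    have h1 := hA' 1
    rw [hE, zero_sub, mul_one] at h1
    linear_combination -h1
  have hdiv : q + 1 ∣ m + 1 := by
    rw [← ZMod.natCast_eq_zero_iff]
    push_cast
    exact hk0
  have hm4 := Nat.le_of_dvd (by omega) hdiv
  obtain ⟨d, rfl⟩ : ∃ d, m = d + 1 := ⟨m - 1, by omega⟩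
  have : Fact (1 < q + 1) := ⟨by omega⟩
  have h11 : (1 : ZMod (q + 1)) ≠ -1 := by
    intro h
    have h1 : ((2 : ℕ) : ZMod (q + 1)) = 0 := by push_cast; linear_combination h
    rw [ZMod.natCast_eq_zero_iff] at h1
    have := Nat.le_of_dvd (by norm_num) h1
    omega
  set r : Fin (d + 1 + 1) → ZMod (q + 1) :=
    fun i => if i.val = d then 1 else if i.val = d + 1 then -1 else 0 with hr
  have hr0 : ∀ i, r i = 0 → i.val < d := by
    intro i hi
    have := i.isLt
    simp only [hr] at hi
    split_ifs at hi with a b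
    · exact absurd hi one_ne_zero
    · exact absurd hi (neg_ne_zero.2 one_ne_zero)
    · omega
  refine engine r ?_ ?_ (fun h => absurd h (by omega)) ?_
  · rw [Fin.sum_univ_castSucc, Fin.sum_univ_castSucc, hE,
      Finset.sum_eq_zero (fun i _ => ?_)]
    · simp [hr]
    · have := i.isLt
      simp [hr, show i.val ≠ d by omega, show i.val ≠ d + 1 by omega]
  · intro i j hij e l hl
    have := Fin.lt_def.1 hij
    have := j.isLt
    have hi : i.val < d ∨ i.val = d := by omega
    have hjd : j.val < d := by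
      by_contra hjd
      rcases hi with hi | hi
      · have e0 : r i = 0 := by simp [hr, show i.val ≠ d by omega, show i.val ≠ d + 1 by omega]
        exact absurd (hr0 j (e ▸ e0)) hjd
      · simp [hr, hi, show j.val = d + 1 by omega] at e
        exact h11 e
    simp [hr, show j.val ≠ d by omega, show j.val ≠ d + 1 by omega, show l.val ≠ d by omega,
      show l.val ≠ d + 1 by omega]
  · intro _
    refine ⟨Fin.last (d + 1), fun i hi => Fin.ext ?_⟩
    have := i.isLt
    simp only [hr, Fin.val_last] at hi ⊢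
    simp only [Nat.succ_ne_self, if_false, if_true] at hi
    split_ifs at hi with a b
    · exact absurd hi h11
    · exact b
    · exact absurd hi.symm (neg_ne_zero.2 one_ne_zero)

end CfsgLib.OreSU
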