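import Cfsg.Agent.Lib.OreSU.Corner
import Cfsg.Agent.Lib.OreSU.NineTable
import Cfsg.Agent.Lib.OreOrth.UTrick
import Cfsg.Agent.Lib.PSLCover.Cyclic

/-!
Over the field with nine elements every cyclic block of determinant one is good, up to the stated exceptions
in size at most two.
-/

set_option autoImplicit false
set_option linter.unusedSectionVars false
set_option linter.unusedSimpArgs false
set_option linter.style.haveILetI false
set_option maxRecDepth 20000

namespace CfsgLib.OreSU.Nine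

open Polynomial Matrix CfsgLib.OreOrth

/-! ### Codes -/

/-- The code of `a + b g`. -/
def pk (a b : ℕ) : ℕ := a % 3 + 3 * (b % 3)
/-- Sum of codes. -/
def kadd (x y : ℕ) : ℕ := pk (x % 3 + y % 3) (x / 3 % 3 + y / 3 % 3)
/-- Negation of codes. -/
def kneg (x : ℕ) : ℕ := pk (2 * (x % 3)) (2 * (x / 3 % 3))
/-- Product of codes. -/
def kmul (x y : ℕ) : ℕ :=
  pk (x % 3 * (y % 3) + x / 3 % 3 * (y / 3 % 3))
    (x % 3 * (y / 3 % 3) + x / 3 % 3 * (y % 3) + x / 3 % 3 * (y / 3 % 3))
/-- Powers of codes. -/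
def kpow (x : ℕ) : ℕ → ℕ
  | 0 => 1
  | n + 1 => kmul (kpow x n) x
/-- Conjugation of codes. -/
def kconj (x : ℕ) : ℕ := kpow x 3

/-- Product of coded matrices of size two. -/
def mm2 (X Y : Matrix (Fin 2) (Fin 2) ℕ) : Matrix (Fin 2) (Fin 2) ℕ :=
  Matrix.of fun i j => kadd (kmul (X i 0) (Y 0 j)) (kmul (X i 1) (Y 1 j))
/-- Product of coded matrices of size three. -/
def mm3 (X Y : Matrix (Fin 3) (Fin 3) ℕ) : Matrix (Fin 3) (Fin 3) ℕ :=
  Matrix.of fun i j => kadd (kadd (kmul (X i 0) (Y 0 j)) (kmul (X i 1) (Y 1 j))) (kmul (X i 2) (Y 2 j))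
/-- Coded determinant of size two. -/
def kdet2 (X : Matrix (Fin 2) (Fin 2) ℕ) : ℕ :=
  kadd (kmul (X 0 0) (X 1 1)) (kneg (kmul (X 0 1) (X 1 0)))
/-- Coded determinant of size three. -/
def kdet3 (X : Matrix (Fin 3) (Fin 3) ℕ) : ℕ :=
  kadd (kadd
    (kmul (X 0 0) (kadd (kmul (X 1 1) (X 2 2)) (kneg (kmul (X 1 2) (X 2 1)))))
    (kneg (kmul (X 0 1) (kadd (kmul (X 1 0) (X 2 2)) (kneg (kmul (X 1 2) (X 2 0)))))))
    (kmul (X 0 2) (kadd (kmul (X 1 0) (X 2 1)) (kneg (kmul (X 1 1) (X 2 0)))))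
/-- A coded matrix from a list. -/
def lmat (d : ℕ) (l : List ℕ) : Matrix (Fin d) (Fin d) ℕ :=
  Matrix.of fun i j => l.getD ((i : ℕ) * d + (j : ℕ)) 0

/-- The check of a witness in size two: polynomial `X ^ 2 + f₁ X + f₀`, block `X ^ 2 + c₁ X + 1`. -/
def OK2 (f₀ f₁ c₁ : ℕ) (w : List ℕ × List ℕ) : Prop :=
  mm2 (mm2 !![0, kneg 1; 1, kneg c₁] (lmat 2 w.1)) (lmat 2 w.2) = mm2 (lmat 2 w.2) (lmat 2 w.1) ∧
  (Matrix.of fun i j => kadd (kadd (mm2 (lmat 2 w.1) (lmat 2 w.1) i j) (kmul f₁ (lmat 2 w.1 i j)))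
    (kmul f₀ (if i = j then 1 else 0))) = 0 ∧
  kdet2 (lmat 2 w.1) = f₀ ∧ kdet2 (lmat 2 w.2) = 1

set_option synthInstance.maxSize 4000 in
instance (f₀ f₁ c₁ : ℕ) (w : List ℕ × List ℕ) : Decidable (OK2 f₀ f₁ c₁ w) := by
  unfold OK2; infer_instance

/-- The check of a witness in size three for the cubic `X ^ 3 + 2 X ^ 2 + 1`. -/
def OK3 (c₁ c₂ : ℕ) (w : List ℕ × List ℕ) : Prop :=
  mm3 (mm3 !![0, 0, kneg 2; 1, 0, kneg c₁; 0, 1, kneg c₂] (lmat 3 w.1)) (lmat 3 w.2) =
    mm3 (lmat 3 w.2) (lmat 3 w.1) ∧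
  (Matrix.of fun i j => kadd (kadd (mm3 (mm3 (lmat 3 w.1) (lmat 3 w.1)) (lmat 3 w.1) i j)
    (kmul 2 (mm3 (lmat 3 w.1) (lmat 3 w.1) i j))) (if i = j then 1 else 0)) = 0 ∧
  kdet3 (lmat 3 w.1) = 2 ∧ kdet3 (lmat 3 w.2) % 9 = kdet3 (lmat 3 w.2) ∧ kdet3 (lmat 3 w.2) ≠ 0

set_option synthInstance.maxSize 4000 in
instance (c₁ c₂ : ℕ) (w : List ℕ × List ℕ) : Decidable (OK3 c₁ c₂ w) := by
  unfold OK3; infer_instance

theorem ok3 : ∀ a < 9, ∀ b < 9, OK3 a b (tab3.getD (9 * a + b) ([], [])) := by decide +kernel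
theorem okOdd : ∀ a < 9, a ≠ 1 → OK2 3 1 a (tabOdd.getD a ([], [])) := by decide +kernel
theorem okEven : ∀ a < 9, a ≠ 1 → OK2 1 3 a (tabEven.getD a ([], [])) := by decide +kernel
theorem okSplitZero : OK2 2 2 1 ([0, 5, 3, 1], [8, 4, 0, 4]) := by decide +kernel
theorem okSplitTwo : OK2 4 3 1 ([0, 6, 3, 6], [8, 4, 0, 4]) := by decide +kernel

theorem exists_kinv : ∀ n < 9, n ≠ 0 → ∃ m < 9, kmul n m = 1 := by decide +kernel
theorem kadd_ne : ∀ n < 9, ∀ m < 9, n ≠ m → kadd n (kneg m) < 9 ∧ kadd n (kneg m) ≠ 0 := by decide +kernel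
theorem kpow_four : ∀ n < 9, kpow n 4 = 1 → ∃ E < 4, n = kpow 3 (2 * E) := by decide +kernel
theorem kpow_lt : ∀ n < 9, ∀ i < 5, kpow n i < 9 := by decide +kernel
/-- The scaled cubic has no root and differs from its conjugate reverse. -/
theorem cubic_ok : ∀ j < 4,
    (∀ n < 9, kadd (kadd (kadd (kmul (kpow 3 (3 * j)) 1) (kmul 0 n))
        (kmul (kmul (kpow 3 j) 2) (kpow n 2))) (kpow n 3) ≠ 0) ∧
    (kmul (kconj (kpow 3 (3 * j))) (kpow 3 (3 * j)) ≠ 1 ∨
      kconj (kmul (kpow 3 j) 2) ≠ kmul (kconj (kpow 3 (3 * j))) 0 ∨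
      kconj 0 ≠ kmul (kconj (kpow 3 (3 * j))) (kmul (kpow 3 j) 2)) ∧
    kadd (kadd (kadd 1 (kmul (kconj (kmul (kpow 3 j) 2)) 3)) (kmul (kconj 0) (kpow 3 2)))
      (kmul (kconj (kpow 3 (3 * j))) (kpow 3 3)) ≠ 0 := by decide +kernel
/-- The scaled quadratics have no roots and differ from their conjugate reverses. -/
theorem quad_ok : ∀ f ∈ [(3, 1), (1, 3)], ∀ j < 2,
    (∀ n < 9, kadd (kadd (kmul (kpow 3 (2 * j)) f.1) (kmul (kmul (kpow 3 j) f.2) n)) (kpow n 2) ≠ 0) ∧
    (kmul (kconj (kmul (kpow 3 (2 * j)) f.1)) (kmul (kpow 3 (2 * j)) f.1) ≠ 1 ∨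
      kconj (kmul (kpow 3 j) f.2) ≠
        kmul (kconj (kmul (kpow 3 (2 * j)) f.1)) (kmul (kpow 3 j) f.2)) := by decide +kernel

/-! ### The field -/

variable {F : Type*} [Field F]

/-- A generator `g` with `g ^ 2 = g + 1` in characteristic three. -/
structure Gen (σ : F →+* F) (g : F) : Prop where
  three : (3 : F) = 0
  sq : g * g = g + 1
  conj : ∀ x, σ x = x ^ 3
  nine : ∀ x : F, x ^ 9 = x
  card : Nat.card F = 9

/-- The value of a code. -/
def φ (g : F) (n : ℕ) : F := ((n % 3 : ℕ) : F) + ((n / 3 % 3 : ℕ) : F) * g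

variable {σ : F →+* F} {g : F}

theorem Gen.cast_mod (G : Gen σ g) (n : ℕ) : ((n % 3 : ℕ) : F) = n := by
  conv_rhs => rw [← Nat.mod_add_div n 3, Nat.cast_add, Nat.cast_mul, Nat.cast_ofNat, G.three,
    zero_mul, add_zero]

theorem Gen.φ_pk (G : Gen σ g) (a b : ℕ) : φ g (pk a b) = (a : F) + (b : F) * g := by
  have h1 : pk a b % 3 = a % 3 := by unfold pk; omega
  have h2 : pk a b / 3 % 3 = b % 3 := by unfold pk; omega
  rw [φ, h1, h2, G.cast_mod, G.cast_mod]

theorem Gen.φ_add (G : Gen σ g) (x y : ℕ) : φ g (kadd x y) = φ g x + φ g y := by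
  rw [kadd, G.φ_pk]; simp only [φ, Nat.cast_add]; ring

theorem Gen.φ_neg (G : Gen σ g) (x : ℕ) : φ g (kneg x) = -φ g x := by
  rw [kneg, G.φ_pk]; simp only [φ, Nat.cast_mul, Nat.cast_ofNat]
  linear_combination (((x % 3 : ℕ) : F) + ((x / 3 % 3 : ℕ) : F) * g) * G.three

theorem Gen.φ_mul (G : Gen σ g) (x y : ℕ) : φ g (kmul x y) = φ g x * φ g y := by
  rw [kmul, G.φ_pk]; simp only [φ, Nat.cast_add, Nat.cast_mul]
  linear_combination (-((x / 3 % 3 : ℕ) : F) * ((y / 3 % 3 : ℕ) : F)) * G.sq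

@[simp] theorem φ_zero : φ g 0 = 0 := by simp [φ]
@[simp] theorem φ_one : φ g 1 = 1 := by simp [φ]
theorem φ_three : φ g 3 = g := by simp [φ]

theorem Gen.φ_two (G : Gen σ g) : φ g 2 = -1 := by
  have : φ g 2 = 2 := by simp [φ]
  rw [this]
  linear_combination G.three

theorem Gen.φ_pow (G : Gen σ g) (x n : ℕ) : φ g (kpow x n) = φ g x ^ n := by
  induction n with
  | zero => simp [kpow]
  | succ n ih => rw [kpow, G.φ_mul, ih, pow_succ]

theorem Gen.φ_gpow (G : Gen σ g) (n : ℕ) : φ g (kpow 3 n) = g ^ n := by rw [G.φ_pow, φ_three]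

theorem Gen.φ_conj (G : Gen σ g) (x : ℕ) : φ g (kconj x) = σ (φ g x) := by
  rw [kconj, G.φ_pow, G.conj]

theorem Gen.φ_ne_zero (G : Gen σ g) {n : ℕ} (h : n < 9) (h0 : n ≠ 0) : φ g n ≠ 0 := by
  obtain ⟨m, -, hm⟩ := exists_kinv n h h0
  intro e
  have := G.φ_mul n m
  rw [hm, e, zero_mul, φ_one] at this
  exact one_ne_zero this

theorem Gen.φ_inj (G : Gen σ g) {n m : ℕ} (hn : n < 9) (hm : m < 9) (e : φ g n = φ g m) : n = m := by
  by_contra h
  obtain ⟨h1, h2⟩ := kadd_ne n hn m hm h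
  exact G.φ_ne_zero h1 h2 (by rw [G.φ_add, G.φ_neg, e, add_neg_cancel])

theorem pk_lt (a b : ℕ) : pk a b < 9 := by unfold pk; omega

theorem Gen.ne_of_code (G : Gen σ g) {x y : ℕ} (hx : x < 9) (hy : y < 9) (h : x ≠ y) :
    φ g x ≠ φ g y := fun e => h (G.φ_inj hx hy e)

theorem Gen.φ_kadd_ne_zero (G : Gen σ g) {x y : ℕ} (h : kadd x y ≠ 0) : φ g (kadd x y) ≠ 0 :=
  G.φ_ne_zero (pk_lt _ _) h

variable [Fintype F]

theorem exists_gen (hσ : IsConj 3 σ) : ∃ g, Gen σ g := by
  classical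
  have hc : Fintype.card F = 9 := by rw [← Nat.card_eq_fintype_card, hσ.card]; norm_num
  have h3 : (3 : F) = 0 := by
    have := FiniteField.cast_card_eq_zero F
    rw [hc] at this
    exact mul_self_eq_zero.1 (by norm_num at this ⊢; exact this)
  have h9 : ∀ x : F, x ^ 9 = x := fun x => by rw [← hc]; exact FiniteField.pow_card x
  obtain ⟨u, hu⟩ := IsCyclic.exists_generator (α := Fˣ)
  have hu8 : orderOf u = 8 := by
    rw [orderOf_eq_card_of_forall_mem_zpowers hu, Nat.card_units, Nat.card_eq_fintype_card, hc]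
  set x : F := (u : F) with hx
  have h8 : x ^ 8 = 1 := by
    rw [hx, ← Units.val_pow_eq_pow_val, ← hu8, pow_orderOf_eq_one, Units.val_one]
  have h4 : x ^ 4 ≠ 1 := by
    rw [hx, ← Units.val_pow_eq_pow_val, Ne, Units.val_eq_one, ← orderOf_dvd_iff_pow_eq_one, hu8]
    norm_num
  have h4' : x ^ 4 + 1 = 0 := by
    have : (x ^ 4 - 1) * (x ^ 4 + 1) = 0 := by linear_combination h8
    exact (mul_eq_zero.1 this).resolve_left (sub_ne_zero.2 h4)
  have key : (x * x - x - 1) * (x * x + x - 1) = 0 := by linear_combination h4' - x ^ 2 * h3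
  have hcard : Nat.card F = 9 := by rw [Nat.card_eq_fintype_card, hc]
  rcases mul_eq_zero.1 key with h | h
  · exact ⟨x, h3, by linear_combination h, hσ.apply, h9, hcard⟩
  · exact ⟨-x, h3, by linear_combination h, hσ.apply, h9, hcard⟩

theorem Gen.surj (G : Gen σ g) (x : F) : ∃ n < 9, φ g n = x := by
  have hinj : Function.Injective fun n : Fin 9 => φ g n := fun a b e =>
    Fin.ext (G.φ_inj a.isLt b.isLt e)
  have hb := (Fintype.bijective_iff_injective_and_card _).2
    ⟨hinj, by rw [Fintype.card_fin, ← Nat.card_eq_fintype_card, G.card]⟩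
  obtain ⟨n, hn⟩ := hb.2 x
  exact ⟨n, n.isLt, hn⟩

theorem Gen.g_pow_four (G : Gen σ g) : g ^ 4 = -1 := by
  rw [← G.φ_gpow, show kpow 3 4 = 2 by decide +kernel, G.φ_two]

theorem Gen.g_ne (G : Gen σ g) : g ≠ 0 := by
  rw [← φ_three (g := g)]
  exact G.φ_ne_zero (by norm_num) (by norm_num)

theorem Gen.g_eight (G : Gen σ g) : g ^ 8 = 1 := by
  rw [show 8 = 4 + 4 from rfl, pow_add, G.g_pow_four]; ring

theorem Gen.gpow_congr (G : Gen σ g) {a b : ℕ} (h : a % 8 = b % 8) : g ^ a = g ^ b := by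
  rw [← Nat.mod_add_div a 8, ← Nat.mod_add_div b 8, pow_add, pow_add, pow_mul, pow_mul, G.g_eight,
    one_pow, one_pow, h]

/-! ### Polynomials -/

/-- The polynomial with coefficients `a b c e`. -/
noncomputable def pl (a b c e : F) : F[X] := C a + C b * X + C c * X ^ 2 + C e * X ^ 3

theorem coeff_pl (a b c e : F) (i : ℕ) :
    (pl a b c e).coeff i = if i = 0 then a else if i = 1 then b else if i = 2 then c else if i = 3 then e
      else 0 := by
  rcases i with _ | _ | _ | _ | i <;> simp [pl, coeff_add, coeff_X, coeff_C, coeff_X_pow]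

theorem natDegree_pl_le (a b c e : F) : (pl a b c e).natDegree ≤ 3 := by
  rw [natDegree_le_iff_coeff_eq_zero]
  intro n hn
  simp [coeff_pl, show n ≠ 0 by omega, show n ≠ 1 by omega, show n ≠ 2 by omega, show n ≠ 3 by omega]

theorem natDegree_pl_two_le (a b c : F) : (pl a b c 0).natDegree ≤ 2 := by
  rw [natDegree_le_iff_coeff_eq_zero]
  intro n hn
  simp [coeff_pl, show n ≠ 0 by omega, show n ≠ 1 by omega, show n ≠ 2 by omega]

theorem pl_three (a b c : F) : (pl a b c 1).Monic ∧ (pl a b c 1).natDegree = 3 := by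
  have h : (pl a b c 1).natDegree = 3 :=
    le_antisymm (natDegree_pl_le _ _ _ _) (le_natDegree_of_ne_zero (by simp [coeff_pl]))
  exact ⟨by rw [Monic, leadingCoeff, h]; simp [coeff_pl], h⟩

theorem pl_two (a b : F) : (pl a b 1 0).Monic ∧ (pl a b 1 0).natDegree = 2 := by
  have h : (pl a b 1 0).natDegree = 2 :=
    le_antisymm (natDegree_pl_two_le _ _ _) (le_natDegree_of_ne_zero (by simp [coeff_pl]))
  exact ⟨by rw [Monic, leadingCoeff, h]; simp [coeff_pl], h⟩

theorem rev_three (a b c : F) : ((pl a b c 1).map σ).reverse = pl 1 (σ c) (σ b) (σ a) := by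
  have hd : ((pl a b c 1).map σ).natDegree = 3 := by
    rw [(pl_three a b c).1.natDegree_map]; exact (pl_three a b c).2
  ext i
  rw [coeff_reverse, hd, coeff_map, coeff_pl, coeff_pl]
  rcases i with _ | _ | _ | _ | i
  iterate 4 simp [revAt_le]
  rw [revAt_eq_self_of_lt (by omega)]
  simp

theorem rev_two (a b : F) : ((pl a b 1 0).map σ).reverse = pl 1 (σ b) (σ a) 0 := by
  have hd : ((pl a b 1 0).map σ).natDegree = 2 := by
    rw [(pl_two a b).1.natDegree_map]; exact (pl_two a b).2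
  ext i
  rw [coeff_reverse, hd, coeff_map, coeff_pl, coeff_pl]
  rcases i with _ | _ | _ | i
  iterate 3 simp [revAt_le]
  rw [revAt_eq_self_of_lt (by omega)]
  simp

theorem not_dvd_of_coeff {P R : F[X]} {d i : ℕ} (hP : P.Monic) (hd : P.natDegree = d)
    (hR : R.natDegree ≤ d) (h : R.coeff i ≠ R.coeff d * P.coeff i) : ¬ P ∣ R := by
  rintro ⟨S, rfl⟩
  have hS : S ≠ 0 := by
    rintro rfl
    simp at h
  rw [hP.natDegree_mul' hS, hd] at hR
  rw [eq_C_of_natDegree_eq_zero (p := S) (by omega)] at h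
  refine h ?_
  rw [coeff_mul_C, coeff_mul_C, ← hd, hP.coeff_natDegree, one_mul, mul_comm]

theorem cop_linear {P : F[X]} (hP : Irreducible P) (hd : 2 ≤ P.natDegree) (b : F) :
    IsCoprime P (((X : F[X]) - C b).map σ).reverse := by
  refine hP.coprime_iff_not_dvd.2 fun hdvd => ?_
  have h1 : ((((X : F[X]) - C b).map σ).reverse).natDegree ≤ 1 := by
    refine (reverse_natDegree_le _).trans ?_
    rw [Polynomial.map_sub, map_X, map_C, natDegree_X_sub_C]
  have h0 : (((X : F[X]) - C b).map σ).reverse ≠ 0 := by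
    rw [Ne, reverse_eq_zero, Polynomial.map_eq_zero_iff σ.injective]
    exact X_sub_C_ne_zero b
  have := natDegree_le_of_dvd hdvd h0
  omega

theorem rev_linear (b : F) : (((X : F[X]) - C b).map σ).reverse = C 1 - C (σ b) * X := by
  ext i
  rw [coeff_reverse, Polynomial.map_sub, map_X, map_C, natDegree_X_sub_C]
  rcases i with _ | _ | i
  iterate 2 simp [revAt_le, coeff_X, coeff_C, coeff_one]
  rw [revAt_eq_self_of_lt (by omega)]
  simp [coeff_X, coeff_C, coeff_one]

theorem cop_lin_lin {a b : F} (h : a * σ b ≠ 1) :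
    IsCoprime ((X : F[X]) - C a) (((X : F[X]) - C b).map σ).reverse := by
  refine (irreducible_X_sub_C a).coprime_iff_not_dvd.2 fun hd => h ?_
  rw [dvd_iff_isRoot, rev_linear, IsRoot, eval_sub, eval_C, eval_mul, eval_C, eval_X, sub_eq_zero] at hd
  rw [mul_comm]
  exact hd.symm

/-- `P` is prime to its conjugate reverse and has no root of norm one. -/
def Adm (σ : F →+* F) (P : F[X]) : Prop :=
  IsCoprime P (P.map σ).reverse ∧ ∀ η : F, η * σ η = 1 → P.eval η ≠ 0

theorem adm_lin_pow {a : F} (h : a * σ a ≠ 1) (m : ℕ) : Adm σ (((X : F[X]) - C a) ^ m) := by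
  constructor
  · rw [Polynomial.map_pow, reverse_pow_eq]
    exact (cop_lin_lin h).pow
  · intro η hη
    rw [eval_pow, eval_sub, eval_X, eval_C]
    exact pow_ne_zero _ (sub_ne_zero.2 fun e => h (e ▸ hη))

theorem adm_lin_lin {a b : F} (haa : a * σ a ≠ 1) (hbb : b * σ b ≠ 1) (hab : a * σ b ≠ 1)
    (hba : b * σ a ≠ 1) : Adm σ ((((X : F[X]) - C a)) * (X - C b)) := by
  constructor
  · rw [Polynomial.map_mul, reverse_mul_of_domain]
    exact ((cop_lin_lin haa).mul_right (cop_lin_lin hab)).mul_left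
      ((cop_lin_lin hba).mul_right (cop_lin_lin hbb))
  · intro η hη
    simp only [eval_mul, eval_sub, eval_X, eval_C]
    exact mul_ne_zero (sub_ne_zero.2 fun e => haa (e ▸ hη)) (sub_ne_zero.2 fun e => hbb (e ▸ hη))

theorem mul_lin_eq (a b : F) : (X - C a) * (X - C b) = pl (a * b) (-(a + b)) 1 0 := by
  simp [pl]; ring

/-- The scaled quadratic. -/
noncomputable def quad (g : F) (f₀ f₁ j : ℕ) : F[X] :=
  pl (φ g (kmul (kpow 3 (2 * j)) f₀)) (φ g (kmul (kpow 3 j) f₁)) 1 0

/-- The scaled cubic. -/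
noncomputable def cub (g : F) (j : ℕ) : F[X] :=
  pl (φ g (kmul (kpow 3 (3 * j)) 1)) (φ g 0) (φ g (kmul (kpow 3 j) 2)) 1

theorem adm_quad (G : Gen σ g) {f₀ f₁ : ℕ} (hf : (f₀, f₁) ∈ [(3, 1), (1, 3)]) {j : ℕ} (hj : j < 2) :
    Adm σ (quad g f₀ f₁ j) := by
  obtain ⟨h1, h2⟩ := quad_ok _ hf j hj
  obtain ⟨hm, hd⟩ := pl_two (φ g (kmul (kpow 3 (2 * j)) f₀)) (φ g (kmul (kpow 3 j) f₁))
  have hroot : ∀ x : F, ¬ (quad g f₀ f₁ j).IsRoot x := by
    intro x hx
    obtain ⟨n, hn, rfl⟩ := G.surj x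
    refine G.φ_kadd_ne_zero (h1 n hn) ?_
    rw [IsRoot, quad, pl] at hx
    simp only [eval_add, eval_mul, eval_C, eval_X, eval_pow, zero_mul, add_zero, one_mul] at hx
    rw [G.φ_add, G.φ_add, G.φ_mul (kmul (kpow 3 j) f₁), G.φ_pow]
    exact hx
  have hirr : Irreducible (quad g f₀ f₁ j) :=
    irreducible_of_degree_le_three_of_not_isRoot (by rw [quad, hd]; decide) hroot
  refine ⟨?_, fun η _ => hroot η⟩
  rw [show ((quad g f₀ f₁ j).map σ).reverse = _ from rev_two _ _]
  refine hirr.coprime_iff_not_dvd.2 ?_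
  rcases h2 with h | h
  · refine not_dvd_of_coeff hm hd (natDegree_pl_two_le _ _ _) (i := 0) ?_
    simp only [quad, cub, coeff_pl, if_true, OfNat.ofNat_ne_zero, if_false, OfNat.ofNat_ne_one]
    rw [← G.φ_conj, ← G.φ_mul, ← φ_one (g := g)]
    exact (G.ne_of_code (pk_lt _ _) (by norm_num) h).symm
  · refine not_dvd_of_coeff hm hd (natDegree_pl_two_le _ _ _) (i := 1) ?_
    simp only [quad, cub, coeff_pl, if_true, OfNat.ofNat_ne_zero, one_ne_zero, if_false, OfNat.ofNat_ne_one]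
    rw [← G.φ_conj, ← G.φ_conj, ← G.φ_mul]
    exact G.ne_of_code (pk_lt _ _) (pk_lt _ _) h

theorem adm_cub (G : Gen σ g) {j : ℕ} (hj : j < 4) :
    Adm σ (cub g j) ∧ Irreducible (cub g j) ∧ ((cub g j).map σ).reverse.eval g ≠ 0 := by
  obtain ⟨h1, h2, h3⟩ := cubic_ok j hj
  obtain ⟨hm, hd⟩ := pl_three (φ g (kmul (kpow 3 (3 * j)) 1)) (φ g 0) (φ g (kmul (kpow 3 j) 2))
  have hroot : ∀ x : F, ¬ (cub g j).IsRoot x := by
    intro x hx
    obtain ⟨n, hn, rfl⟩ := G.surj x
    refine G.φ_kadd_ne_zero (h1 n hn) ?_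
    rw [IsRoot, cub, pl] at hx
    simp only [eval_add, eval_mul, eval_C, eval_X, eval_pow, one_mul] at hx
    rw [G.φ_add, G.φ_add, G.φ_add, G.φ_mul 0, G.φ_mul (kmul (kpow 3 j) 2), G.φ_pow n 2, G.φ_pow n 3]
    exact hx
  have hirr : Irreducible (cub g j) :=
    irreducible_of_degree_le_three_of_not_isRoot (by rw [cub, hd]; decide) hroot
  have hR : ((cub g j).map σ).reverse = _ := rev_three _ _ _
  have e0 : φ g (kmul (kpow 3 (3 * j)) 1) = φ g (kpow 3 (3 * j)) := by rw [G.φ_mul, φ_one, mul_one]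
  refine ⟨⟨?_, fun η _ => hroot η⟩, hirr, ?_⟩
  · rw [hR]
    refine hirr.coprime_iff_not_dvd.2 ?_
    rcases h2 with h | h | h
    · refine not_dvd_of_coeff hm hd (natDegree_pl_le _ _ _ _) (i := 0) ?_
      simp only [quad, cub, coeff_pl, if_true, OfNat.ofNat_ne_zero, if_false, OfNat.ofNat_ne_one,
        OfNat.ofNat_eq_ofNat, reduceCtorEq, Nat.succ_ne_self]
      rw [e0, ← G.φ_conj, ← G.φ_mul, ← φ_one (g := g)]
      exact (G.ne_of_code (pk_lt _ _) (by norm_num) h).symm
    · refine not_dvd_of_coeff hm hd (natDegree_pl_le _ _ _ _) (i := 1) ?_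
      simp only [quad, cub, coeff_pl, if_true, OfNat.ofNat_ne_zero, one_ne_zero, if_false, OfNat.ofNat_ne_one,
        OfNat.ofNat_eq_ofNat, reduceCtorEq, Nat.succ_ne_self]
      rw [e0, ← G.φ_conj, ← G.φ_conj, ← G.φ_mul]
      exact G.ne_of_code (pk_lt _ _) (pk_lt _ _) h
    · refine not_dvd_of_coeff hm hd (natDegree_pl_le _ _ _ _) (i := 2) ?_
      simp only [quad, cub, coeff_pl, if_true, OfNat.ofNat_ne_zero, if_false, OfNat.ofNat_ne_one,
        OfNat.ofNat_eq_ofNat, reduceCtorEq, Nat.succ_ne_self]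
      rw [e0, ← G.φ_conj, ← G.φ_conj, ← G.φ_mul]
      exact G.ne_of_code (pk_lt _ _) (pk_lt _ _) h
  · rw [hR, e0]
    refine fun hx => G.φ_kadd_ne_zero h3 ?_
    simp only [pl, eval_add, eval_mul, eval_C, eval_X, eval_pow] at hx
    simp only [G.φ_add, G.φ_mul, G.φ_conj, G.φ_pow, φ_one, φ_three, φ_zero] at hx ⊢
    exact hx

/-! ### Representations -/

variable {d : ℕ}

theorem rep_of_matrix {P : F[X]} {T H B : Matrix (Fin d) (Fin d) F} (e : T * H * B = B * H)
    (hH : H.det ≠ 0) (hB : B.det ≠ 0) (hP : aeval H P = 0) : Rep P (toLin' T) B.det H.det := by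
  let ψ : Matrix (Fin d) (Fin d) F ≃ₐ[F] Module.End F (Fin d → F) := Matrix.toLinAlgEquiv'
  let c : GL (Fin d) F →* (Module.End F (Fin d → F))ˣ :=
    Units.map (ψ : Matrix (Fin d) (Fin d) F →* Module.End F (Fin d → F))
  obtain ⟨uH, hu⟩ := (Matrix.isUnit_iff_isUnit_det H).2 (IsUnit.mk0 _ hH)
  obtain ⟨uB, hv⟩ := (Matrix.isUnit_iff_isUnit_det B).2 (IsUnit.mk0 _ hB)
  have h := rep_of_mul (P := P) (T := toLin' T) (c uB) (c uH) (by
    show ψ T * ψ (uH : Matrix (Fin d) (Fin d) F) * ψ (uB : Matrix (Fin d) (Fin d) F) =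
      ψ (uB : Matrix (Fin d) (Fin d) F) * ψ (uH : Matrix (Fin d) (Fin d) F)
    rw [← map_mul, ← map_mul, ← map_mul, hu, hv, e]) (by
    show aeval (ψ (uH : Matrix (Fin d) (Fin d) F)) P = 0
    rw [hu, aeval_algEquiv, AlgHom.comp_apply, hP]
    exact map_zero ψ)
  have e1 : LinearMap.det ((c uB : (Module.End F (Fin d → F))ˣ) : Module.End F (Fin d → F)) = B.det := by
    show LinearMap.det (toLin' (uB : Matrix (Fin d) (Fin d) F)) = _
    rw [LinearMap.det_toLin', hv]
  have e2 : LinearMap.det ((c uH : (Module.End F (Fin d → F))ˣ) : Module.End F (Fin d → F)) = H.det := by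
    show LinearMap.det (toLin' (uH : Matrix (Fin d) (Fin d) F)) = _
    rw [LinearMap.det_toLin', hu]
  rw [e1, e2] at h
  exact h

theorem rep_smul {P : F[X]} {T H B : Matrix (Fin d) (Fin d) F} (e : T * H * B = B * H)
    (hH : H.det ≠ 0) (hB : B.det ≠ 0) {c u : F} (hc : c ≠ 0) (hu : u ≠ 0) (hP : aeval (c • H) P = 0) :
    Rep P (toLin' T) (u ^ d * B.det) (c ^ d * H.det) := by
  have h := rep_of_matrix (P := P) (T := T) (H := c • H) (B := u • B) ?_ ?_ ?_ hP
  · simpa [Matrix.det_smul] using h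
  · simp only [mul_smul_comm, smul_mul_assoc, e, smul_comm c u]
  · simp [Matrix.det_smul, hc, hH]
  · simp [Matrix.det_smul, hu, hB]

theorem toM_mm2 (G : Gen σ g) (X Y : Matrix (Fin 2) (Fin 2) ℕ) :
    (mm2 X Y).map (φ g) = X.map (φ g) * Y.map (φ g) := by
  ext i j
  simp [mm2, Matrix.mul_apply, G.φ_add, G.φ_mul, Fin.sum_univ_two]

theorem toM_mm3 (G : Gen σ g) (X Y : Matrix (Fin 3) (Fin 3) ℕ) :
    (mm3 X Y).map (φ g) = X.map (φ g) * Y.map (φ g) := by
  ext i j
  simp [mm3, Matrix.mul_apply, G.φ_add, G.φ_mul, Fin.sum_univ_three]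

theorem det_map2 (G : Gen σ g) (X : Matrix (Fin 2) (Fin 2) ℕ) : (X.map (φ g)).det = φ g (kdet2 X) := by
  simp [kdet2, Matrix.det_fin_two, G.φ_add, G.φ_mul, G.φ_neg, sub_eq_add_neg]

theorem det_map3 (G : Gen σ g) (X : Matrix (Fin 3) (Fin 3) ℕ) : (X.map (φ g)).det = φ g (kdet3 X) := by
  simp [kdet3, Matrix.det_fin_three, G.φ_add, G.φ_mul, G.φ_neg, sub_eq_add_neg]
  ring

theorem aeval_pl (a b c e : F) (H : Matrix (Fin d) (Fin d) F) :
    aeval H (pl a b c e) = a • 1 + b • H + c • (H * H) + e • (H * H * H) := by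
  simp [pl, Algebra.algebraMap_eq_smul_one, pow_succ]

/-- A checked witness in size two, with the witness scaled. -/
theorem rep_two (G : Gen σ g) {f₀ f₁ n j : ℕ} (hf : φ g f₀ ≠ 0) {w : List ℕ × List ℕ}
    (hok : OK2 f₀ f₁ n w) (c : Fin 2 → F) (h0 : c 0 = 1) (h1 : c 1 = φ g n) :
    Rep (quad g f₀ f₁ j) (OreOrth.comp c) 1 (g ^ (2 * j) * φ g f₀) := by
  obtain ⟨o1, o2, o3, o4⟩ := hok
  set H := (lmat 2 w.1).map (φ g) with hH
  set B := (lmat 2 w.2).map (φ g) with hB
  have dH : H.det = φ g f₀ := by rw [hH, det_map2 G, o3]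
  have dB : B.det = 1 := by rw [hB, det_map2 G, o4, φ_one]
  have hT : OreOrth.comp c = toLin' ((!![0, kneg 1; 1, kneg n]).map (φ g)) := by
    rw [OreOrth.comp]
    congr 1
    ext i j
    fin_cases i <;> fin_cases j <;> simp [G.φ_neg, h0, h1]
  have e : (!![0, kneg 1; 1, kneg n]).map (φ g) * H * B = B * H := by
    rw [hH, hB, ← toM_mm2 G, ← toM_mm2 G, ← toM_mm2 G]
    ext a b
    simp only [Matrix.map_apply, o1]
  have hP : aeval H (pl (φ g f₀) (φ g f₁) 1 0) = 0 := by
    rw [aeval_pl]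
    ext a b
    have := congrArg (φ g) (congrFun (congrFun o2 a) b)
    have hsq := congrFun (congrFun (toM_mm2 G (lmat 2 w.1) (lmat 2 w.1)) a) b
    simp only [Matrix.map_apply, ← hH] at hsq
    simp only [Matrix.of_apply, Matrix.zero_apply] at this
    rw [G.φ_add, G.φ_add, G.φ_mul, G.φ_mul, hsq, φ_zero, apply_ite (φ g), φ_one, φ_zero] at this
    simp [Matrix.one_apply, hH] at this ⊢
    linear_combination this
  have hP' : aeval ((g ^ j) • H) (quad g f₀ f₁ j) = 0 := by
    rw [quad, aeval_pl, G.φ_mul, G.φ_mul, G.φ_gpow, G.φ_gpow]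
    rw [aeval_pl] at hP
    calc _ = g ^ (2 * j) • (φ g f₀ • 1 + φ g f₁ • H + (1 : F) • (H * H) + (0 : F) • (H * H * H)) := by
          simp only [smul_mul_assoc, mul_smul_comm, smul_smul, zero_smul, add_zero, smul_add]
          rw [two_mul, pow_add]
          module
      _ = 0 := by rw [hP, smul_zero]
  have := rep_smul (T := (!![0, kneg 1; 1, kneg n]).map (φ g)) e (dH ▸ hf) (by rw [dB]; exact one_ne_zero)
    (pow_ne_zero j G.g_ne) (u := 1) one_ne_zero hP'
  rw [hT]
  convert this using 1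
  · rw [dB]; ring
  · rw [dH]; ring

/-- The checked witnesses in size three, with any determinant for `b`. -/
theorem rep_three (G : Gen σ g) (c : Fin 3 → F) (h0 : c 0 = -1) (j : ℕ) {δ : F} (hδ : δ ≠ 0) :
    Rep (cub g j) (OreOrth.comp c) δ (g ^ (3 * j) * -1) := by
  obtain ⟨a, ha, ha'⟩ := G.surj (c 1)
  obtain ⟨b, hb, hb'⟩ := G.surj (c 2)
  obtain ⟨o1, o2, o3, o4, o5⟩ := ok3 a ha b hb
  set w := tab3.getD (9 * a + b) ([], [])
  set H := (lmat 3 w.1).map (φ g) with hH
  set B := (lmat 3 w.2).map (φ g) with hB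
  have dH : H.det = -1 := by rw [hH, det_map3 G, o3, G.φ_two]
  have dB : B.det ≠ 0 := by rw [hB, det_map3 G]; exact G.φ_ne_zero (by omega) o5
  have hT : OreOrth.comp c = toLin' ((!![0, 0, kneg 2; 1, 0, kneg a; 0, 1, kneg b]).map (φ g)) := by
    rw [OreOrth.comp]
    congr 1
    ext i j
    fin_cases i <;> fin_cases j <;> simp [G.φ_neg, G.φ_two, h0, ← ha', ← hb']
  have e : (!![0, 0, kneg 2; 1, 0, kneg a; 0, 1, kneg b]).map (φ g) * H * B = B * H := by
    rw [hH, hB, ← toM_mm3 G, ← toM_mm3 G, ← toM_mm3 G]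
    ext a b
    simp only [Matrix.map_apply, o1]
  have hP : aeval H (pl 1 0 (φ g 2) 1) = 0 := by
    rw [aeval_pl]
    ext a b
    have := congrArg (φ g) (congrFun (congrFun o2 a) b)
    have hsq := congrFun (congrFun (toM_mm3 G (lmat 3 w.1) (lmat 3 w.1)) a) b
    have hcu' := toM_mm3 G (mm3 (lmat 3 w.1) (lmat 3 w.1)) (lmat 3 w.1)
    rw [toM_mm3 G (lmat 3 w.1) (lmat 3 w.1), ← hH] at hcu'
    have hcu := congrFun (congrFun hcu' a) b
    rw [Matrix.map_apply] at hcu
    simp only [Matrix.map_apply, ← hH] at hsq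
    simp only [Matrix.of_apply, Matrix.zero_apply] at this
    rw [G.φ_add, G.φ_add, G.φ_mul, hsq, hcu, φ_zero, apply_ite (φ g), φ_one, φ_zero] at this
    simp [Matrix.one_apply, hH] at this ⊢
    linear_combination this
  have hP' : aeval ((g ^ j) • H) (cub g j) = 0 := by
    rw [cub, aeval_pl, G.φ_mul, G.φ_mul, G.φ_gpow, G.φ_gpow, φ_one, φ_zero]
    rw [aeval_pl] at hP
    calc _ = g ^ (3 * j) • ((1 : F) • (1 : Matrix (Fin 3) (Fin 3) F) + (0 : F) • H + φ g 2 • (H * H) +
          (1 : F) • (H * H * H)) := by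
          simp only [smul_mul_assoc, mul_smul_comm, smul_smul, zero_smul, add_zero, smul_add]
          rw [show 3 * j = j + j + j by ring, pow_add, pow_add]
          module
      _ = 0 := by rw [hP, smul_zero]
  have := rep_smul (T := (!![0, 0, kneg 2; 1, 0, kneg a; 0, 1, kneg b]).map (φ g)) e
    (by rw [dH]; simp) dB (pow_ne_zero j G.g_ne) (u := (δ / B.det) ^ 3)
    (pow_ne_zero _ (div_ne_zero hδ dB)) hP'
  rw [hT]
  convert this using 1
  · rw [← pow_mul, G.nine, div_mul_cancel₀ _ dB]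
  · rw [dH]; ring

/-- A cyclic matrix in companion form. -/
theorem exists_conj_comp (A : Matrix (Fin d) (Fin d) F) (hA : CfsgLib.PSLCover.HasCyclic A) :
    ∃ (e : (Fin d → F) ≃ₗ[F] (Fin d → F)) (c : Fin d → F), e.conj (toLin' A) = OreOrth.comp c := by
  obtain ⟨v, hv⟩ := (CfsgLib.PSLCover.hasCyclic_iff_orbitSpan A).1 hA
  set T := toLin' A with hT
  have hle : (⊤ : Submodule F (Fin d → F)) ≤ Submodule.span F (Set.range fun i : Fin d => (T ^ (i : ℕ)) v) := by
    rw [← hv, CfsgLib.PSLCover.orbitSpan, Submodule.span_le]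
    rintro _ ⟨n, rfl⟩
    rcases Nat.eq_zero_or_pos d with hd | hd
    · subst hd
      show (T ^ n) v ∈ _
      rw [Subsingleton.elim ((T ^ n) v) 0]
      exact Submodule.zero_mem _
    have hmon := T.charpoly_monic
    have hdeg : T.charpoly.natDegree = d := by rw [LinearMap.charpoly_natDegree]; simp
    have hr : ((X : F[X]) ^ n %ₘ T.charpoly).natDegree < d := by
      conv_rhs => rw [← hdeg]
      exact natDegree_modByMonic_lt _ hmon (fun h => by rw [h, natDegree_one] at hdeg; omega)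
    have he : T ^ n = aeval T ((X : F[X]) ^ n %ₘ T.charpoly) := by
      rw [Polynomial.aeval_modByMonic_eq_self_of_root (LinearMap.aeval_self_charpoly T), map_pow, aeval_X]
    show (T ^ n) v ∈ _
    rw [he, aeval_eq_sum_range' hr, LinearMap.sum_apply]
    refine Submodule.sum_mem _ fun i hi => ?_
    rw [LinearMap.smul_apply]
    exact Submodule.smul_mem _ _ (Submodule.subset_span ⟨⟨i, Finset.mem_range.1 hi⟩, rfl⟩)
  let b := basisOfTopLeSpanOfCardEqFinrank (fun i : Fin d => (T ^ (i : ℕ)) v) hle (by simp)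
  have hb : ∀ i : Fin d, b i = (T ^ (i : ℕ)) v := fun i => by simp [b]
  refine ⟨b.equivFun, fun i => -(b.repr ((T ^ d) v) i), conj_eq_comp b T _ ?_ ?_⟩
  · intro j hj
    rw [hb, hb, ← Module.End.mul_apply, ← pow_succ']
  · intro j hj
    rw [hb, ← Module.End.mul_apply, ← pow_succ', hj]
    simp only [neg_smul, Finset.sum_neg_distrib, neg_neg]
    exact (b.sum_repr _).symm

/-- The regular unipotent block. -/
theorem rep_jordan (G : Gen σ g) (m : ℕ) (hm : 0 < m) : ∃ (r : Fin m → F) (db : F), r ⟨0, hm⟩ ≠ 0 ∧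
    (-1 : F) ^ m * r ⟨0, hm⟩ = 1 ∧ db ≠ 0 ∧ Rep ((X - C g) ^ m) (OreOrth.comp r) db (g ^ m) := by
  let N : Matrix (Fin m) (Fin m) F := Matrix.of fun i j => if (i : ℕ) = (j : ℕ) + 1 then 1 else 0
  let B : Matrix (Fin m) (Fin m) F := Matrix.diagonal fun i => (-1 : F) ^ (i : ℕ)
  have hd : (1 + N).det = 1 := by
    rw [Matrix.det_of_isLowerTriangular _ ?_]
    · refine Finset.prod_eq_one fun i _ => ?_
      simp [N]
    · intro i j hij
      have : (i : ℕ) < j := hij
      simp [N, Matrix.one_apply, Fin.ext_iff, this.ne, show (i : ℕ) ≠ j + 1 by omega]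
  have hN : ∀ s : ℕ, ∀ i j : Fin m, (N ^ s) i j = if (i : ℕ) = (j : ℕ) + s then 1 else 0 := by
    intro s
    induction s with
    | zero => intro i j; simp [Matrix.one_apply, Fin.ext_iff]
    | succ s ih =>
      intro i j
      rw [pow_succ, Matrix.mul_apply]
      by_cases h : (j : ℕ) + 1 < m
      · rw [Finset.sum_eq_single (⟨(j : ℕ) + 1, h⟩ : Fin m)]
        · simp [ih, N, add_assoc, add_comm 1 s]
        · intro l _ hl
          simp [N, show (l : ℕ) ≠ j + 1 from fun e => hl (Fin.ext e)]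
        · simp
      · rw [Finset.sum_eq_zero, if_neg (by omega)]
        intro l _
        simp [N, show (l : ℕ) ≠ j + 1 by omega]
  have hNm : N ^ m = 0 := by
    ext i j
    rw [hN, if_neg (by omega), Matrix.zero_apply]
  obtain ⟨V, hV⟩ := (Matrix.isUnit_iff_isUnit_det (1 + N)).2 (by rw [hd]; exact isUnit_one)
  let Vi : Matrix (Fin m) (Fin m) F := ((V⁻¹ : GL (Fin m) F) : Matrix (Fin m) (Fin m) F)
  let T : Matrix (Fin m) (Fin m) F := (1 - N) * Vi
  have hT : T * (1 + N) = 1 - N := by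
    show (1 - N) * Vi * (1 + N) = _
    rw [mul_assoc, ← hV, Units.inv_mul, mul_one]
  have hB : B * N = -(N * B) := by
    ext i j
    simp only [B, N, Matrix.diagonal_mul, Matrix.mul_diagonal, Matrix.neg_apply, Matrix.of_apply]
    split_ifs with h
    · rw [h, pow_succ]; ring
    · simp
  have hBd : B.det ≠ 0 := by simp [B, Matrix.det_diagonal, Finset.prod_ne_zero_iff]
  have hH : (g • (1 + N)).det = g ^ m := by rw [Matrix.det_smul, hd, mul_one, Fintype.card_fin]
  have hP : aeval (g • (1 + N)) ((X - C g) ^ m) = 0 := by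
    rw [map_pow, map_sub, aeval_X, aeval_C, Algebra.algebraMap_eq_smul_one, ← smul_sub,
      add_sub_cancel_left, _root_.smul_pow, hNm, smul_zero]
  have e : T * (g • (1 + N)) * B = B * (g • (1 + N)) := by
    rw [mul_smul_comm, smul_mul_assoc, mul_smul_comm, hT, sub_mul, mul_add, one_mul, mul_one, hB,
      sub_eq_add_neg]
  have hrep := rep_of_matrix e (by rw [hH]; exact pow_ne_zero _ G.g_ne) hBd hP
  rw [hH] at hrep
  -- cyclic vector
  have hspan : ∀ W : Submodule F (Fin m → F), (∀ x ∈ W, T *ᵥ x ∈ W) →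
      Pi.single (⟨0, hm⟩ : Fin m) (1 : F) ∈ W → W = ⊤ := by
    intro W hW h0
    have hinv : ∀ x ∈ W, N *ᵥ x ∈ W := by
      let L : W →ₗ[F] W := LinearMap.restrict (toLin' (T + 1)) fun x hx => by
        rw [toLin'_apply, Matrix.add_mulVec, Matrix.one_mulVec]
        exact W.add_mem (hW x hx) hx
      have hTV : (1 + N) * (T + 1) = (2 : F) • 1 := by
        have h2 : (T + 1) * (1 + N) = (2 : F) • 1 := by rw [add_mul, hT, one_mul, two_smul]; abel
        have h3 : T + 1 = (2 : F) • Vi := by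
          calc T + 1 = (T + 1) * (1 + N) * Vi := by rw [mul_assoc, ← hV, Units.mul_inv, mul_one]
            _ = _ := by rw [h2, smul_mul_assoc, one_mul]
        rw [h3, mul_smul_comm, ← hV, Units.mul_inv]
      have h2 : (2 : F) ≠ 0 := by
        intro h
        have h1 : (1 : F) = 0 := by linear_combination G.three - h
        exact one_ne_zero h1
      have hinjL : Function.Injective L := by
        intro x y hxy
        have h := congrArg (fun z : W => (1 + N) *ᵥ (z : Fin m → F)) hxy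
        simp only [L, LinearMap.coe_restrict_apply, toLin'_apply, Matrix.mulVec_mulVec, hTV,
          Matrix.smul_mulVec, Matrix.one_mulVec] at h
        exact Subtype.ext ((smul_right_injective (Fin m → F) h2) h)
      intro x hx
      obtain ⟨y, hy⟩ := LinearMap.injective_iff_surjective.1 hinjL ⟨x, hx⟩
      have hy' := congrArg Subtype.val hy
      simp only [L, LinearMap.coe_restrict_apply, toLin'_apply] at hy'
      have : (1 + N) *ᵥ x = (2 : F) • (y : Fin m → F) := by
        rw [← hy', Matrix.mulVec_mulVec, hTV, Matrix.smul_mulVec, Matrix.one_mulVec]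
      rw [Matrix.add_mulVec, Matrix.one_mulVec] at this
      rw [eq_sub_of_add_eq' this]
      exact W.sub_mem (W.smul_mem _ y.2) hx
    have hs : ∀ s : ℕ, (N ^ s) *ᵥ Pi.single (⟨0, hm⟩ : Fin m) (1 : F) ∈ W := by
      intro s
      induction s with
      | zero => rwa [pow_zero, Matrix.one_mulVec]
      | succ s ih => rw [pow_succ', ← Matrix.mulVec_mulVec]; exact hinv _ ih
    refine top_unique fun x _ => ?_
    rw [pi_eq_sum_univ' x]
    refine Submodule.sum_mem _ fun i _ => W.smul_mem _ ?_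
    convert hs i using 1
    funext l
    simp [hN, Matrix.mulVec_single, Pi.single_apply, Fin.ext_iff, eq_comm]
  have hcyc : CfsgLib.PSLCover.HasCyclic T := by
    refine ⟨Pi.single ⟨0, hm⟩ 1, hspan _ ?_ (Submodule.subset_span ⟨0, by show (T ^ 0) *ᵥ _ = _; rw [pow_zero, Matrix.one_mulVec]⟩)⟩
    intro x hx
    refine Submodule.span_induction ?_ ?_ ?_ ?_ hx
    · rintro _ ⟨i, rfl⟩
      exact Submodule.subset_span ⟨i + 1, by show (T ^ (i + 1)) *ᵥ _ = T *ᵥ ((T ^ i) *ᵥ _); rw [pow_succ', Matrix.mulVec_mulVec]⟩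
    · simp
    · intro a b _ _ ha hb; rw [Matrix.mulVec_add]; exact Submodule.add_mem _ ha hb
    · intro a v _ hv; rw [Matrix.mulVec_smul]; exact Submodule.smul_mem _ _ hv
  obtain ⟨el, r, hr⟩ := exists_conj_comp T hcyc
  have hdT : (toLin' T).det = 1 := by rw [LinearMap.det_toLin']; exact
    (mul_right_cancel₀ (b := (1 + N).det * B.det) (by rw [hd, one_mul]; exact hBd) (by
      have := congrArg Matrix.det e
      simp only [Matrix.det_mul, Matrix.det_smul, Fintype.card_fin, hd, mul_one] at this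
      rw [one_mul, hd, one_mul]
      exact mul_left_cancel₀ (pow_ne_zero m G.g_ne) (by linear_combination this)))
  have h1 : LinearMap.det (OreOrth.comp r) = 1 := by
    rw [← hr, LinearEquiv.conj_apply, LinearMap.comp_assoc, LinearMap.det_conj, hdT]
  rw [det_comp r hm] at h1
  refine ⟨r, B.det, fun h => ?_, h1, hBd, hr ▸ hrep.map el⟩
  rw [h, mul_zero] at h1
  exact zero_ne_one h1

theorem g_pow_double (G : Gen σ g) {a b : ℕ} (h : 2 * a % 8 = 2 * b % 8) :
    (g ^ a) ^ (3 - 1) = g ^ (2 * b) := by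
  rw [show 3 - 1 = 2 from rfl, ← pow_mul, mul_comm a]
  exact G.gpow_congr h

/-- The main case analysis, with a generator and the exponent of the determinant. -/
theorem good_main (G : Gen σ g) {k : ℕ} (A : Matrix (Fin k) (Fin k) F) (hd : A.det = 1)
    {E : ℕ} (hE : E < 4) (fix : Prop)
    (h : (k = 1 ∧ (g ^ (2 * E)) ^ 2 = -1) ∨
      (k = 2 ∧ (A = 1 ∨ CfsgLib.PSLCover.HasCyclic A ∧ ((g ^ (2 * E)) ^ 2 = 1 ∨ A.trace ≠ 2))) ∨
      (3 ≤ k ∧ CfsgLib.PSLCover.HasCyclic A)) : Good 3 σ (g ^ (2 * E)) fix A := by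
  have h2 : (-1 : F) ≠ 1 := by
    rw [← φ_one (g := g), ← G.φ_neg]
    exact G.ne_of_code (pk_lt _ _) (by norm_num) (by decide +kernel)
  have hnorm : ∀ a : ℕ, a % 2 = 1 → g ^ a * σ (g ^ a) ≠ 1 := by
    intro a ha
    rw [G.conj, ← pow_mul, ← pow_add, G.gpow_congr (b := 4) (by omega), G.g_pow_four]
    exact h2
  have hg1 : g * σ g ≠ 1 := by simpa using hnorm 1 rfl
  have good : ∀ {P : F[X]} {db dh : F}, Rep P (toLin' A) db dh → Adm σ P → db = 1 →
      dh ^ (3 - 1) = g ^ (2 * E) → Good 3 σ (g ^ (2 * E)) fix A := fun hR hP hb hh =>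
    good_of_rep hR hP.1 hP.2 hh fun _ => by rw [hb, one_pow]
  rcases h with ⟨rfl, he⟩ | ⟨rfl, h⟩ | ⟨hk, hc⟩
  · have hA : A = 1 := by
      rw [Matrix.det_fin_one] at hd
      ext i j
      fin_cases i; fin_cases j
      simpa using hd
    have hE1 : E % 2 = 1 := by
      by_contra hc
      rw [← pow_mul, G.gpow_congr (b := 0) (by omega), pow_zero] at he
      exact h2 he.symm
    have hR := rep_of_matrix (P := (X - C (g ^ E)) ^ 1) (T := A) (H := (g ^ E) • 1) (B := 1)
      (by rw [hA]; simp) (by simp [G.g_ne]) (by simp)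
      (by simp [Algebra.algebraMap_eq_smul_one, _root_.smul_pow])
    exact good hR (adm_lin_pow (hnorm E hE1) 1) (by simp)
      (by simpa using g_pow_double G (a := E) (b := E) rfl)
  · rcases h with hA | ⟨hA, hcond⟩
    · have hR : ∀ (P : F[X]) (H : Matrix (Fin 2) (Fin 2) F), H.det ≠ 0 → aeval H P = 0 →
          Rep P (toLin' A) 1 H.det := fun P H hH hP => by
        simpa using rep_of_matrix (T := A) (H := H) (B := 1) (by rw [hA]; simp) hH (by simp) hP
      rcases (show E = 0 ∨ E = 2 ∨ E % 2 = 1 by omega) with rfl | rfl | hE1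
      · refine good (hR ((X - C g) * (X - C (g ^ 3))) !![g, 0; 0, g ^ 3] (by simp [G.g_ne]) ?_)
          ?_ rfl ?_
        · rw [map_mul, map_sub, map_sub, aeval_X, aeval_C, aeval_C]
          ext i j
          fin_cases i <;> fin_cases j <;>
            simp [Matrix.mul_apply, Fin.sum_univ_two, Algebra.algebraMap_eq_smul_one]
        · refine adm_lin_lin hg1 (hnorm 3 rfl) ?_ ?_
          · rw [G.conj, ← pow_mul, ← pow_succ', G.gpow_congr (b := 2) (by norm_num), ← G.φ_gpow,
              ← φ_one (g := g)]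
            exact G.ne_of_code (pk_lt _ _) (by norm_num) (by decide +kernel)
          · rw [G.conj, ← pow_add, G.gpow_congr (b := 6) (by norm_num), ← G.φ_gpow, ← φ_one (g := g)]
            exact G.ne_of_code (pk_lt _ _) (by norm_num) (by decide +kernel)
        · rw [Matrix.det_fin_two_of, mul_zero, sub_zero, ← pow_succ']
          exact g_pow_double G (by norm_num)
      · refine good (hR ((X - C g) ^ 1) (g • 1) (by simp [Matrix.det_smul, G.g_ne]) ?_)
          (adm_lin_pow hg1 1) rfl ?_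
        · simp [Algebra.algebraMap_eq_smul_one]
        · rw [Matrix.det_smul, Matrix.det_one, mul_one, Fintype.card_fin]
          exact g_pow_double G (by norm_num)
      · have hd0 : (!![0, -φ g (kmul (kpow 3 (2 * (E / 2))) 3); 1, -φ g (kmul (kpow 3 (E / 2)) 1)]).det =
            g ^ (2 * (E / 2) + 1) := by
          rw [Matrix.det_fin_two_of]
          simp only [G.φ_mul, G.φ_gpow, φ_three]
          ring
        refine good (hR (quad g 3 1 (E / 2)) _ (by rw [hd0]; exact pow_ne_zero _ G.g_ne) ?_)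
          (adm_quad G (by simp) (by omega)) rfl (by rw [hd0]; exact g_pow_double G (by omega))
        rw [quad, aeval_pl]
        ext i j
        fin_cases i <;> fin_cases j <;> simp [Matrix.mul_apply, Fin.sum_univ_two] <;> ring
    · obtain ⟨el, c, hc⟩ := exists_conj_comp A hA
      have h0 : c 0 = 1 := by
        have := det_comp c (by norm_num)
        rw [← hc, LinearEquiv.conj_apply, LinearMap.comp_assoc, LinearMap.det_conj, LinearMap.det_toLin',
          hd] at this
        simpa using this.symm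
      obtain ⟨n, hn, hn'⟩ := G.surj (c 1)
      have htr : A.trace = -c 1 := by
        rw [← Matrix.trace_toLin'_eq, ← LinearMap.trace_conj' (toLin' A) el, hc, OreOrth.comp,
          Matrix.trace_toLin'_eq, Matrix.trace_fin_two]
        simp
      have conv : ∀ {P : F[X]} {db dh : F}, Rep P (OreOrth.comp c) db dh → Rep P (toLin' A) db dh :=
        fun hR => (rep_conj_iff el).1 (by rw [hc]; exact hR)
      by_cases hn1 : n = 1
      · subst hn1
        have htr2 : A.trace = 2 := by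
          rw [htr, ← hn', φ_one]
          linear_combination -G.three
        have hE0 : E % 2 = 0 := by
          by_contra hodd
          have he := hcond.resolve_right (not_not_intro htr2)
          rw [← pow_mul, G.gpow_congr (b := 4) (by omega), G.g_pow_four] at he
          exact h2 he
        rcases (show E = 0 ∨ E = 2 by omega) with rfl | rfl
        · refine good (conv (rep_two G (j := 0) (by rw [G.φ_two]; simp) okSplitZero c h0 hn'.symm))
            ?_ rfl ?_
          · have hP : quad g 2 2 0 = (X - C g) * (X - C (g ^ 3)) := by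
              rw [mul_lin_eq, quad, show kmul (kpow 3 (2 * 0)) 2 = 2 by decide +kernel,
                ← pow_succ', G.g_pow_four, G.φ_two]
              congr 1
              linear_combination (g + 1) * G.sq + g * G.three
            rw [hP]
            refine adm_lin_lin hg1 (hnorm 3 rfl) ?_ ?_
            · rw [G.conj, ← pow_mul, ← pow_succ', G.gpow_congr (b := 2) (by norm_num), ← G.φ_gpow,
                ← φ_one (g := g)]
              exact G.ne_of_code (pk_lt _ _) (by norm_num) (by decide +kernel)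
            · rw [G.conj, ← pow_add, G.gpow_congr (b := 6) (by norm_num), ← G.φ_gpow,
                ← φ_one (g := g)]
              exact G.ne_of_code (pk_lt _ _) (by norm_num) (by decide +kernel)
          · rw [G.φ_two]; simp
        · refine good (conv (rep_two G (j := 0) (G.φ_ne_zero (by norm_num) (by norm_num)) okSplitTwo c
            h0 hn'.symm)) ?_ rfl ?_
          · have hP : quad g 4 3 0 = (X - C g) ^ 2 := by
              rw [sq, mul_lin_eq, quad, show kmul (kpow 3 (2 * 0)) 4 = 4 by decide +kernel,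
                show kmul (kpow 3 0) 3 = 3 from rfl, φ_three]
              congr 1
              · rw [G.sq, φ]; simp [add_comm]
              · linear_combination g * G.three
            rw [hP]
            exact adm_lin_pow hg1 2
          · rw [show φ g 4 = g ^ 2 by rw [← G.φ_gpow, show kpow 3 2 = 4 by decide +kernel], ← pow_add]
            exact g_pow_double G (by norm_num)
      · by_cases hE1 : E % 2 = 1
        · refine good (conv (rep_two G (j := E / 2) (by rw [φ_three]; exact G.g_ne) (okOdd n hn hn1) c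
            h0 hn'.symm)) (adm_quad G (by simp) (by omega)) rfl ?_
          rw [φ_three, ← pow_succ]
          exact g_pow_double G (by omega)
        · refine good (conv (rep_two G (j := E / 2) (by simp) (okEven n hn hn1) c
            h0 hn'.symm)) (adm_quad G (by simp) (by omega)) rfl ?_
          rw [φ_one, mul_one]
          exact g_pow_double G (by omega)
  · obtain ⟨el, c, hc'⟩ := exists_conj_comp A hc
    have h0 : (-1 : F) ^ k * c ⟨0, by omega⟩ = 1 := by
      have := det_comp c (by omega : 0 < k)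
      rwa [← hc', LinearEquiv.conj_apply, LinearMap.comp_assoc, LinearMap.det_conj, LinearMap.det_toLin',
        hd, eq_comm] at this
    have conv : ∀ {P : F[X]} {db dh : F}, Rep P (OreOrth.comp c) db dh → Rep P (toLin' A) db dh :=
      fun hR => (rep_conj_iff el).1 (by rw [hc']; exact hR)
    obtain ⟨m, rfl⟩ : ∃ m, k = 3 + m := ⟨k - 3, by omega⟩
    rcases Nat.eq_zero_or_pos m with rfl | hm
    · have hj : 3 * E % 4 < 4 := Nat.mod_lt _ (by norm_num)
      refine good (conv (rep_three G c ?_ (3 * E % 4) one_ne_zero)) (adm_cub G hj).1 rfl ?_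
      · have h0' : (-1 : F) ^ 3 * c 0 = 1 := h0
        linear_combination -h0'
      · rw [← G.g_pow_four, ← pow_add]
        exact g_pow_double G (by omega)
    · set j := 3 * (E + 3 * m) % 4 with hj'
      have hj : j < 4 := Nat.mod_lt _ (by norm_num)
      obtain ⟨r, db, hr0, hr1, hdb, hrep⟩ := rep_jordan G m hm
      have hp0 : c (Fin.castAdd m (0 : Fin 3)) / r ⟨0, hm⟩ = -1 := by
        rw [div_eq_iff hr0]
        rw [pow_add] at h0
        have hs : (-1 : F) ^ m ≠ 0 := pow_ne_zero _ (by simp)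
        apply mul_left_cancel₀ hs
        show _ * c ⟨0, by omega⟩ = _
        linear_combination -h0 + hr1
      have hcg : c ⟨0, by omega⟩ ≠ 0 := fun e => by rw [e, mul_zero] at h0; exact zero_ne_one h0
      obtain ⟨⟨hadm, hroot⟩, hirr, heval⟩ := adm_cub G hj
      have hX : IsCoprime (X - C g) (cub g j) := by
        refine ((hirr.coprime_iff_not_dvd).2 fun hdvd => ?_).symm
        have h1 := natDegree_le_of_dvd hdvd (X_sub_C_ne_zero g)
        rw [natDegree_X_sub_C, cub, (pl_three _ _ _).2] at h1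
        omega
      have hR := Rep.of_hasUDL (hasUDL_comp (d := 3) (by norm_num) hm c hcg r hr0) hX.pow_left hrep
        (rep_three G (fun i => c (Fin.castAdd m i) / r ⟨0, hm⟩) hp0 j (inv_ne_zero hdb))
      have hd3 : 2 ≤ (cub g j).natDegree := by rw [cub, (pl_three _ _ _).2]; norm_num
      have hQ : IsCoprime (X - C g) ((cub g j).map σ).reverse :=
        (irreducible_X_sub_C g).coprime_iff_not_dvd.2 fun hdvd => heval (dvd_iff_isRoot.1 hdvd)
      refine good (conv hR) ⟨?_, ?_⟩ (mul_inv_cancel₀ hdb) ?_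
      · rw [Polynomial.map_mul, reverse_mul_of_domain]
        refine ((adm_lin_pow hg1 m).1.mul_right hQ.pow_left).mul_left (IsCoprime.mul_right ?_ hadm)
        rw [Polynomial.map_pow, reverse_pow_eq]
        exact (cop_linear hirr hd3 g).pow_right
      · intro η hη
        rw [eval_mul]
        exact mul_ne_zero ((adm_lin_pow hg1 m).2 η hη) (hroot η hη)
      · rw [← G.g_pow_four, ← pow_add, ← pow_add]
        exact g_pow_double G (by omega)

end CfsgLib.OreSU.Nine

namespace CfsgLib.OreSU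

open Matrix

variable {F : Type*} [Field F] [Fintype F] {σ : F →+* F}

/-- Over the field with nine elements a cyclic block of determinant one is good. -/
theorem good_three (hσ : IsConj 3 σ) {k : ℕ} (A : Matrix (Fin k) (Fin k) F) (hd : A.det = 1)
    {ε : F} (hε : ε * σ ε = 1) (fix : Prop) (_hfix : fix → ε = 1)
    (h : (k = 1 ∧ ε ^ 2 = -1) ∨
      (k = 2 ∧ (A = 1 ∨ CfsgLib.PSLCover.HasCyclic A ∧ (ε ^ 2 = 1 ∨ A.trace ≠ 2))) ∨
      (3 ≤ k ∧ CfsgLib.PSLCover.HasCyclic A)) : Good 3 σ ε fix A := by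
  obtain ⟨g, G⟩ := Nine.exists_gen hσ
  obtain ⟨n, hn, rfl⟩ := G.surj ε
  have h4 : Nine.kpow n 4 = 1 := by
    refine G.φ_inj (Nine.kpow_lt n hn 4 (by norm_num)) (by norm_num) ?_
    rw [G.φ_pow, Nine.φ_one, pow_succ', ← G.conj]
    exact hε
  obtain ⟨E, hE, rfl⟩ := Nine.kpow_four n hn h4
  rw [G.φ_gpow] at h ⊢
  exact Nine.good_main G A hd hE fix h

end CfsgLib.OreSU
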