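import Cfsg.Agent.Lib.OreSU.Two.Data
import Cfsg.Agent.Lib.OreSU.Two.Free
import Cfsg.Agent.Lib.OreOrth.Peel
import Cfsg.Agent.Lib.PSLCover.Cyclic

/-!
Admissible commutator representations of cyclic blocks over the field with four elements.
-/

set_option autoImplicit false
set_option linter.unusedSectionVars false
set_option maxRecDepth 100000

namespace CfsgLib.OreSU.Two

open Polynomial Module CfsgLib.OreOrth

variable {F : Type*} [Field F] [Fintype F]

theorem exists_omega (h4 : Fintype.card F = 4) : ∃ w : F, IsOmega w := by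
  classical
  have h2 : (2 : F) = 0 := by
    have h := FiniteField.cast_card_eq_zero F
    rw [h4] at h
    have : (2 : F) * 2 = 0 := by push_cast at h; linear_combination h
    simpa using this
  obtain ⟨x, hx⟩ : ∃ x : F, x ∉ ({0, 1} : Finset F) := by
    by_contra h
    push Not at h
    have : Fintype.card F ≤ 2 := by
      rw [← Finset.card_univ]
      exact (Finset.card_le_card fun y _ => h y).trans Finset.card_le_two
    omega
  simp only [Finset.mem_insert, Finset.mem_singleton, not_or] at hx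
  refine ⟨x, h2, ?_⟩
  have h3 := FiniteField.pow_card_sub_one_eq_one x hx.1
  rw [h4] at h3
  have : (x - 1) * (x ^ 2 + x + 1) = 0 := by linear_combination h3
  exact (mul_eq_zero.1 this).resolve_left (sub_ne_zero.2 hx.2)

variable {w : F}

theorem el_cases (hw : IsOmega w) (h4 : Fintype.card F = 4) (x : F) : ∃ a < 4, el w a = x := by
  have h := FiniteField.pow_card x
  rw [h4] at h
  have h2 := hw.two
  have hr := hw.root
  have : x * (x - 1) * ((x - w) * (x - (1 + w))) = 0 := by
    linear_combination h + (x * (x - 1)) * hr + (-(x * (x - 1)) * (x + w * x + 1) ) * h2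
  rcases mul_eq_zero.1 this with h' | h'
  · rcases mul_eq_zero.1 h' with h' | h'
    · exact ⟨0, by norm_num, by simp [el, h']⟩
    · exact ⟨1, by norm_num, by simp [el]; linear_combination -h'⟩
  · rcases mul_eq_zero.1 h' with h' | h'
    · exact ⟨2, by norm_num, by simp [el]; linear_combination -h'⟩
    · exact ⟨3, by norm_num, by simp [el]; linear_combination -h'⟩

/-- All numeral lists of a length. -/
def vecsN : ℕ → List (List ℕ)
  | 0 => [[]]
  | k + 1 => [0, 1, 2, 3].flatMap fun a => (vecsN k).map (List.cons a)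

theorem mem_vecsN : ∀ g : List ℕ, (∀ a ∈ g, a < 4) → g ∈ vecsN g.length
  | [], _ => List.mem_singleton.2 rfl
  | a :: g, h => by
    rw [List.length_cons, vecsN, List.mem_flatMap]
    have := h a List.mem_cons_self
    refine ⟨a, by simp; omega, List.mem_map.2 ⟨g, mem_vecsN g fun x hx => h x (List.mem_cons_of_mem _ hx), rfl⟩⟩

theorem exists_codes (hw : IsOmega w) (h4 : Fintype.card F = 4) {k : ℕ} (g : Fin k → F) :
    ∃ l : List ℕ, ∃ hl : l.length = k, (∀ a ∈ l, a < 4) ∧ ∀ i : Fin k, g i = vecE w l (Fin.cast hl.symm i) := by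
  choose a ha hea using fun i => el_cases hw h4 (g i)
  refine ⟨List.ofFn a, List.length_ofFn, fun x hx => ?_, fun i => ?_⟩
  · obtain ⟨i, rfl⟩ := List.mem_ofFn.1 hx
    exact ha i
  · simp [vecE, hea]

theorem el_eq_one {a : ℕ} (hw : IsOmega w) (ha : a < 4) (h : el w a = 1) : a = 1 := by
  have hr := hw.root
  have h2 := hw.two
  interval_cases a
  · simp [el] at h
  · rfl
  · simp [el] at h
    exact absurd (show (1 : F) = 0 by subst h; linear_combination hr - h2) one_ne_zero
  · simp [el] at h
    exact absurd (show (1 : F) = 0 by subst h; linear_combination hr) one_ne_zero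

/-- The polynomial of a numeral list. -/
noncomputable def polyN (w : F) (l : List ℕ) : F[X] := polyL (l.map (el w))

theorem cpoly_vecE (l : List ℕ) : cpoly (vecE w l) = polyN w (l ++ [1]) := by
  rw [cpoly_eq_polyL, polyN, List.map_append]
  congr 2
  refine List.ext_getElem (by simp) fun i h1 h2 => ?_
  simp [vecE]

theorem polyN_mul (hw : IsOmega w) (a b : List ℕ) (ha : ∀ x ∈ a, x < 4) (hb : ∀ x ∈ b, x < 4) :
    polyN w (mulL4 a b) = polyN w a * polyN w b := by
  rw [polyN, (mulL4_spec hw a b ha hb).1, polyL_mulL, polyN, polyN]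

theorem isCoprime_of_bez (hw : IsOmega w) (f g u v : List ℕ) (k : ℕ) (hf : ∀ x ∈ f, x < 4) (hg : ∀ x ∈ g, x < 4)
    (hu : ∀ x ∈ u, x < 4) (hv : ∀ x ∈ v, x < 4)
    (h : addL4 (mulL4 u f) (mulL4 v g) = 1 :: List.replicate k 0) : IsCoprime (polyN w f) (polyN w g) := by
  obtain ⟨e1, l1⟩ := mulL4_spec hw u f hu hf
  obtain ⟨e2, l2⟩ := mulL4_spec hw v g hv hg
  refine isCoprime_of_bezout _ _ (u.map (el w)) (v.map (el w)) k ?_
  rw [← e1, ← e2, ← (addL4_spec hw _ _ l1 l2).1, h]
  simp [el]

theorem el_conj (hw : IsOmega w) {σ : F →+* F} (hσ : IsConj 2 σ) {a : ℕ} (ha : a < 4) :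
    σ (el w a) = el w (conjN a) := by
  have hr := hw.root
  have h2 := hw.two
  rw [hσ.apply]
  interval_cases a <;> simp [el, conjN]
  · linear_combination hr - (1 + w) * h2
  · linear_combination hr + w * h2 - w * h2

/-- Horner evaluation of numerals. -/
def evalN (a : ℕ) : List ℕ → ℕ
  | [] => 0
  | x :: l => x ^^^ mulN a (evalN a l)

theorem eval_polyN (hw : IsOmega w) {a : ℕ} (ha : a < 4) : ∀ l : List ℕ, (∀ x ∈ l, x < 4) →
    (polyN w l).eval (el w a) = el w (evalN a l) ∧ evalN a l < 4
  | [], _ => by simp [polyN, polyL, evalN, el]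
  | x :: l, h => by
    obtain ⟨h1, h2⟩ := eval_polyN hw ha l fun y hy => h y (List.mem_cons_of_mem _ hy)
    have hx := h x List.mem_cons_self
    refine ⟨?_, xor_lt hx (mulN_lt ha h2)⟩
    rw [evalN, el_add hw hx (mulN_lt ha h2), el_mul hw ha h2, ← h1]
    simp [polyN, polyL]

theorem factors_lt : (∀ x ∈ f2, x < 4) ∧ (∀ x ∈ f3, x < 4) ∧ (∀ x ∈ g3, x < 4) ∧ (∀ x ∈ f4, x < 4) ∧
    (∀ x ∈ allF, x < 4) ∧ (∀ x ∈ mulL4 f2 g3, x < 4) ∧ (∀ x ∈ mulL4 f2 f3, x < 4) ∧ (∀ x ∈ mulL4 g3 f4, x < 4) := by
  decide +kernel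

theorem allF_split (hw : IsOmega w) :
    polyN w allF = polyN w f2 * polyN w f3 * (polyN w g3 * polyN w f4) := by
  obtain ⟨a, b, c, d, -, -, e, f⟩ := factors_lt
  rw [← allF_eq, polyN_mul hw _ _ e f, polyN_mul hw _ _ a b, polyN_mul hw _ _ c d]

theorem bez_lt : (∀ x ∈ allF.map conjN, x < 4) ∧ (∀ x ∈ (allF.map conjN).reverse, x < 4) := by decide +kernel

theorem small_table : ∀ g ∈ vecsN 2 ++ vecsN 3 ++ vecsN 4, g.getD 0 0 = 1 → (g.length = 2 → g.getD 1 0 ≠ 0) →
    data.any (fun D => D.key == g && D.pol == (if g.length = 2 then f2 else if g.length = 3 then f3 else f4).dropLast)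
      = true := by decide +kernel

theorem f_snoc : f2.dropLast ++ [1] = f2 ∧ f3.dropLast ++ [1] = f3 ∧ f4.dropLast ++ [1] = f4 := by decide

/-- The tabled small blocks. -/
theorem rep_small (hw : IsOmega w) (l : List ℕ) (hl4 : ∀ a ∈ l, a < 4) (hlen : 2 ≤ l.length ∧ l.length ≤ 4)
    (h0 : l.getD 0 0 = 1) (h1 : l.length = 2 → l.getD 1 0 ≠ 0) :
    Rep (polyN w (if l.length = 2 then f2 else if l.length = 3 then f3 else f4)) (comp (vecE w l)) 1 1 := by
  have hm : l ∈ vecsN 2 ++ vecsN 3 ++ vecsN 4 := by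
    have := mem_vecsN l hl4
    simp only [List.mem_append]
    obtain h | h | h : l.length = 2 ∨ l.length = 3 ∨ l.length = 4 := by omega
    all_goals rw [h] at this
    · exact Or.inl (Or.inl this)
    · exact Or.inl (Or.inr this)
    · exact Or.inr this
  obtain ⟨D, hD, hDk⟩ := List.any_eq_true.1 (small_table l hm h0 h1)
  simp only [Bool.and_eq_true, beq_iff_eq] at hDk
  have r := (rep_of_chk hw D (List.all_eq_true.1 data_ok D hD)).2
  rw [cpoly_vecE, hDk.2] at r
  have e : (if l.length = 2 then f2 else if l.length = 3 then f3 else f4).dropLast ++ [1] =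
      (if l.length = 2 then f2 else if l.length = 3 then f3 else f4) := by
    split_ifs
    exacts [f_snoc.1, f_snoc.2.1, f_snoc.2.2]
  rw [e] at r
  obtain ⟨rfl, -⟩ := hDk
  exact r

/-- An admissible polynomial of every size at least two for the free block. -/
theorem exists_free_poly (hw : IsOmega w) (m : ℕ) (hm : 2 ≤ m) :
    ∃ p : F[X], p.Monic ∧ p.natDegree = m ∧ p.coeff 0 = 1 ∧ ∃ N, p ∣ (polyN w f2 * polyN w g3) ^ N := by
  induction m using Nat.strong_induction_on with
  | _ m ih =>
    have base : ∀ f : List ℕ, f.getLast? = some 1 → f.getD 0 0 = 1 → 2 ≤ f.length →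
        (polyN w f).Monic ∧ (polyN w f).natDegree = f.length - 1 ∧ (polyN w f).coeff 0 = 1 := by
      intro f hlast h0 hlen
      obtain ⟨l, rfl⟩ : ∃ l, f = l ++ [1] := ⟨f.dropLast, by
        obtain ⟨l, rfl⟩ := List.getLast?_eq_some_iff.1 hlast
        simp⟩
      have hd : (polyN w (l ++ [1])).natDegree = l.length := by
        refine le_antisymm ((natDegree_polyL_le _).trans (by simp)) (le_natDegree_of_ne_zero ?_)
        rw [polyN, coeff_polyL]
        simp [el]
      refine ⟨?_, by simp [hd], ?_⟩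
      · rw [Monic, leadingCoeff, hd, polyN, coeff_polyL]
        simp [el]
      · rw [polyN, coeff_polyL]
        rcases l with _ | ⟨a, l⟩
        · simp at hlen
        · simp at h0
          simp [h0, el]
    obtain ⟨a1, a2, a3⟩ := base f2 (by decide) (by decide) (by decide)
    obtain ⟨b1, b2, b3⟩ := base g3 (by decide) (by decide) (by decide)
    obtain rfl | rfl | h4 : m = 2 ∨ m = 3 ∨ 4 ≤ m := by omega
    · exact ⟨_, a1, by rw [a2]; decide, a3, 1, by rw [pow_one]; exact dvd_mul_right _ _⟩
    · exact ⟨_, b1, by rw [b2]; decide, b3, 1, by rw [pow_one]; exact dvd_mul_left _ _⟩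
    · obtain ⟨p, c1, c2, c3, N, c4⟩ := ih (m - 2) (by omega) (by omega)
      refine ⟨polyN w f2 * p, a1.mul c1, ?_, by rw [mul_coeff_zero, a3, c3, one_mul], 1 + N, ?_⟩
      · rw [a1.natDegree_mul c1, a2, c2, show f2.length - 1 = 2 from rfl]
        omega
      · rw [pow_add, pow_one]
        exact mul_dvd_mul (dvd_mul_right _ _) c4

/-- A cyclic matrix is similar to a companion matrix. -/
theorem exists_comp_of_cyclic {k : ℕ} (hk : 0 < k) (A : Matrix (Fin k) (Fin k) F)
    (hA : CfsgLib.PSLCover.HasCyclic A) :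
    ∃ (g : Fin k → F) (e : (Fin k → F) ≃ₗ[F] (Fin k → F)), e.conj (comp g) = Matrix.toLin' A := by
  obtain ⟨v, hv⟩ := hA
  set T := Matrix.toLin' A with hT
  let g : Fin k → F := fun i => T.charpoly.coeff i
  have hdeg : T.charpoly.natDegree = k := by rw [LinearMap.charpoly_natDegree, finrank_fin_fun]
  have hg : cpoly g = T.charpoly := by
    rw [cpoly]
    conv_rhs => rw [T.charpoly_monic.as_sum, hdeg, ← Fin.sum_univ_eq_sum_range
      (fun i => C (T.charpoly.coeff i) * X ^ i) k]
  have hint := linearCombination_comp T v g (by rw [hg, T.aeval_self_charpoly]; rfl)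
  set L := Fintype.linearCombination F (fun i : Fin k => (T ^ (i : ℕ)) v) with hL
  have hpow : ∀ i : ℕ, (T ^ i) v ∈ LinearMap.range L := by
    intro i
    induction i with
    | zero => exact ⟨Pi.single ⟨0, hk⟩ 1, by simp [hL, Fintype.linearCombination_apply_single]⟩
    | succ i ih =>
      obtain ⟨x, hx⟩ := ih
      refine ⟨comp g x, ?_⟩
      rw [← LinearMap.comp_apply, ← hint, LinearMap.comp_apply, hx, pow_succ', Module.End.mul_apply]
  have hsur : Function.Surjective L := by
    rw [← LinearMap.range_eq_top, eq_top_iff, ← hv, Submodule.span_le]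
    rintro _ ⟨i, rfl⟩
    show (A ^ i).mulVec v ∈ LinearMap.range L
    rw [show (A ^ i).mulVec v = (T ^ i) v from (CfsgLib.PSLCover.toLin'_pow_apply A i v).symm]
    exact hpow i
  let E := LinearEquiv.ofBijective L ⟨(LinearMap.injective_iff_surjective).2 hsur, hsur⟩
  refine ⟨g, E, LinearMap.ext fun x => ?_⟩
  rw [LinearEquiv.conj_apply_apply]
  show L (comp g (E.symm x)) = T x
  rw [← LinearMap.comp_apply, ← hint, LinearMap.comp_apply]
  exact congrArg T (E.apply_symm_apply x)

theorem rep_one {n : ℕ} (c : Fin n → F) (hdet : LinearMap.det (comp c) = 1) :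
    Rep (cpoly c) (1 : Module.End F (Fin n → F)) 1 1 := by
  obtain ⟨u, hu⟩ : IsUnit (comp c) :=
    LinearMap.isUnit_iff_isUnit_det _ |>.2 (by rw [hdet]; exact isUnit_one)
  refine ⟨1, u, ?_, by simp, by rw [hu, hdet], by rw [hu]; exact aeval_comp_cpoly _⟩
  rw [one_mul, inv_one, mul_one, mul_inv_cancel]
  rfl

theorem trace_comp_two (g : Fin 2 → F) : LinearMap.trace F (Fin 2 → F) (comp g) = -g 1 := by
  rw [← toLin'_compM, Matrix.trace_toLin'_eq, Matrix.trace, Fin.sum_univ_two]
  simp [compM]

end CfsgLib.OreSU.Two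

namespace CfsgLib.OreSU

open Two Polynomial Module CfsgLib.OreOrth

variable {F : Type*} [Field F] [Fintype F] {σ : F →+* F}

/-- The blocks over the field with four elements. -/
theorem good_two (hσ : IsConj 2 σ) {k : ℕ} (A : Matrix (Fin k) (Fin k) F) (hd : A.det = 1)
    (h : (k = 2 ∧ (A = 1 ∨ CfsgLib.PSLCover.HasCyclic A ∧ A.trace ≠ 0)) ∨
      (3 ≤ k ∧ CfsgLib.PSLCover.HasCyclic A)) : Good 2 σ 1 True A := by
  have h4 : Fintype.card F = 4 := by
    rw [← Nat.card_eq_fintype_card, hσ.card]
    norm_num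
  obtain ⟨w, hw⟩ := exists_omega h4
  set B := polyN w allF with hB
  obtain ⟨la, lb, lc, ld, lall, lfg, -, -⟩ := factors_lt
  -- admissibility of every power of the product
  have hco : IsCoprime B (B.map σ).reverse := by
    obtain ⟨k', hk'⟩ := bez_all
    have hrev : (B.map σ).reverse = polyN w (allF.map conjN).reverse := by
      obtain ⟨l, hl⟩ : ∃ l, allF.map conjN = l ++ [1] := ⟨(allF.map conjN).dropLast, by decide +kernel⟩
      have hm : B.map σ = polyN w (allF.map conjN) := by
        rw [hB, polyN, polyL_map, List.map_map, polyN, List.map_map]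
        refine congrArg polyL (List.map_congr_left fun x hx => ?_)
        exact el_conj hw hσ (lall x hx)
      rw [hm, hl, polyN, polyN, List.map_append, List.map_cons, List.map_nil, show el w 1 = (1 : F) from rfl,
        reverse_polyL _ _ one_ne_zero, List.map_reverse, List.map_append, List.map_cons, List.map_nil,
        show el w 1 = (1 : F) from rfl]
    rw [hrev, hB]
    refine isCoprime_of_bez hw _ _ _ _ k' lall bez_lt.2 ?_ ?_ hk' <;> decide +kernel
  have hroot : ∀ η : F, η * σ η = 1 → B.eval η ≠ 0 := by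
    intro η hη he
    obtain ⟨a, ha, rfl⟩ := el_cases hw h4 η
    have := (eval_polyN hw ha allF lall).1
    rw [← hB, he] at this
    have hne : ∀ a : ℕ, a < 4 → a ≠ 0 → evalN a allF = 1 ∨ evalN a allF = 2 ∨ evalN a allF = 3 := by
      decide +kernel
    rcases Nat.eq_zero_or_pos a with rfl | hp
    · simp [el] at hη
    have hr := hw.root
    rcases hne a ha (by omega) with e | e | e <;> rw [e] at this <;> simp [el] at this
    · subst this
      simp at hr
    · exact one_ne_zero (show (1 : F) = 0 by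
        have hw2 : w = -1 := by linear_combination -this
        rw [hw2] at hr
        linear_combination hr)
  have finish : ∀ {P : F[X]} {db dh : F}, db = 1 → dh = 1 → (∃ N, P ∣ B ^ N) →
      Rep P (Matrix.toLin' A) db dh → Good 2 σ 1 True A := by
    rintro P db dh rfl rfl ⟨N, hN⟩ hR
    refine good_of_rep (hR.of_dvd hN) ?_ ?_ (one_pow _) fun _ => one_pow _
    · rw [Polynomial.map_pow, reverse_pow_eq]
      exact hco.pow
    · intro η hη
      rw [eval_pow]
      exact pow_ne_zero _ (hroot η hη)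
  have hsplit := allF_split (w := w) hw
  rw [← hB] at hsplit
  have d2 : polyN w f2 ∣ B := ⟨polyN w f3 * (polyN w g3 * polyN w f4), by rw [hsplit]; ring⟩
  by_cases hA1 : k = 2 ∧ A = 1
  · obtain ⟨rfl, rfl⟩ := hA1
    have hdet : LinearMap.det (comp (vecE w f2.dropLast)) = 1 := by
      rw [det_comp _ (by decide)]
      simp [vecE, f2, el]
    have r := rep_one _ hdet
    have e1 : Matrix.toLin' (1 : Matrix (Fin 2) (Fin 2) F) = (1 : Module.End F (Fin 2 → F)) := Matrix.toLin'_one
    rw [cpoly_vecE, f_snoc.1] at r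
    refine finish (P := polyN w f2) rfl rfl ⟨1, by rw [pow_one]; exact d2⟩ ?_
    rw [e1]
    exact r
  have hk : 2 ≤ k := by rcases h with ⟨h, _⟩ | ⟨h, _⟩ <;> omega
  have hcyc : CfsgLib.PSLCover.HasCyclic A := by
    rcases h with ⟨h1, h2 | h2⟩ | h2
    · exact absurd ⟨h1, h2⟩ hA1
    · exact h2.1
    · exact h2.2
  obtain ⟨g, e, he⟩ := exists_comp_of_cyclic (by omega) A hcyc
  obtain ⟨l, hl, hl4, hlg⟩ := exists_codes hw h4 g
  subst hl
  obtain rfl : g = vecE w l := funext fun i => by rw [hlg i]; rfl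
  have hg0 : l.getD 0 0 = 1 := by
    have hdet : LinearMap.det (comp (vecE w l)) = 1 := by
      rw [← LinearMap.det_conj (comp (vecE w l)) e,
        show e.toLinearMap ∘ₗ comp (vecE w l) ∘ₗ e.symm.toLinearMap = e.conj (comp (vecE w l)) from rfl, he,
        LinearMap.det_toLin', hd]
    rw [det_comp _ (by omega : 0 < l.length), show (-1 : F) = 1 from neg_eq hw 1, one_pow, one_mul] at hdet
    rw [List.getD_eq_getElem _ _ (by omega)]
    exact el_eq_one hw (hl4 _ (List.getElem_mem _)) hdet
  have conv : ∀ {P : F[X]}, Rep P (comp (vecE w l)) 1 1 → Rep P (Matrix.toLin' A) 1 1 := fun r => he ▸ r.map e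
  rcases le_or_gt l.length 4 with hle | hgt
  · have r := rep_small hw l hl4 ⟨hk, hle⟩ hg0 (fun hl2 h10 => by
      rcases h with ⟨_, h' | ⟨_, htr⟩⟩ | ⟨h', _⟩
      · exact hA1 ⟨hl2, h'⟩
      · apply htr
        rw [← Matrix.trace_toLin'_eq, ← he]
        rw [LinearMap.trace_conj', ← toLin'_compM, Matrix.trace_toLin'_eq, Matrix.trace]
        refine Finset.sum_eq_zero fun i _ => ?_
        have hi : (i : ℕ) = 0 ∨ (i : ℕ) = 1 := by omega
        rcases hi with hi | hi
        · simp [compM, hi, hl2]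
        · rw [List.getD_eq_getElem _ _ (by omega)] at h10
          simp [compM, hi, hl2, vecE, h10, el]
      · omega)
    refine finish rfl rfl ⟨1, ?_⟩ (conv r)
    rw [pow_one, hsplit]
    split_ifs
    · exact dvd_mul_of_dvd_left (dvd_mul_right _ _) _
    · exact dvd_mul_of_dvd_left (dvd_mul_left _ _) _
    · exact dvd_mul_of_dvd_right (dvd_mul_left _ _) _
  · obtain ⟨m, hm⟩ : ∃ m, l.length = 3 + m := ⟨l.length - 3, by omega⟩
    obtain ⟨p, p1, p2, p3, N, p4⟩ := exists_free_poly hw m (by omega)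
    let c : Fin m → F := fun i => p.coeff i
    have hc : cpoly c = p := by
      rw [cpoly]
      conv_rhs => rw [p1.as_sum, p2, ← Fin.sum_univ_eq_sum_range (fun i => C (p.coeff i) * X ^ i) m]
    have hone : (-1 : F) = 1 := neg_eq hw 1
    have hc0 : c ⟨0, by omega⟩ = 1 := p3
    obtain ⟨r, hr0, hr⟩ := exists_comp_rep (by omega) c (by rw [hc0]; exact one_ne_zero)
    rw [hone, one_pow] at hr0
    rw [det_comp _ (by omega), hone, one_pow, one_mul, hc0, hc] at hr
    have hu := hasUDL_comp (d := 3) (m := m) (by omega) (by omega) (fun i => vecE w l (Fin.cast hm.symm i))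
      (by
        show el w (l[0]'(by omega)) ≠ 0
        rw [← List.getD_eq_getElem _ 0, hg0]
        simp [el]) r (by rw [hr0]; exact one_ne_zero)
    set l3 := l.take 3 with hl3
    have hl3len : l3.length = 3 := by simp [hl3]; omega
    have hcorner : (fun i : Fin 3 => (fun i => vecE w l (Fin.cast hm.symm i)) (Fin.castAdd m i) / r ⟨0, by omega⟩) =
        fun i => vecE w l3 (Fin.cast hl3len.symm i) := by
      funext i
      rw [hr0, div_one]
      simp [vecE, hl3]
    rw [hcorner] at hu
    have hcorn : Rep (polyN w f3) (comp fun i => vecE w l3 (Fin.cast hl3len.symm i)) 1 1 := by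
      have r3 := rep_small hw l3 (fun a ha => hl4 a (List.mem_of_mem_take ha)) (by omega)
        (by rw [hl3]; simp [List.getD_eq_getElem?_getD] at hg0 ⊢; exact hg0) (by omega)
      simp only [hl3len, show (3 : ℕ) ≠ 2 by omega, if_false, if_true] at r3
      have : ∀ {a b : ℕ} (h : a = b) (v : Fin b → F), Rep (polyN w f3) (comp v) 1 1 →
          Rep (polyN w f3) (comp fun i => v (Fin.cast h i)) 1 1 := by
        intro a b h v hv
        subst h
        exact hv
      exact this _ _ r3
    have hcop : IsCoprime ((polyN w f2 * polyN w g3) ^ N) (polyN w f3) := by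
      obtain ⟨k', hk'⟩ := bez_corner
      rw [← polyN_mul hw _ _ la lc]
      exact (isCoprime_of_bez hw f3 (mulL4 f2 g3) _ _ k' lb lfg (by decide +kernel) (by decide +kernel) hk').symm.pow_left
    have R := Rep.of_hasUDL hu hcop (hr.of_dvd p4) hcorn
    rw [one_mul] at R
    have R' : Rep ((polyN w f2 * polyN w g3) ^ N * polyN w f3) (comp (vecE w l)) 1 1 := by
      have : ∀ {a b : ℕ} (h : a = b) (v : Fin b → F) {P : F[X]}, Rep P (comp fun i => v (Fin.cast h i)) 1 1 →
          Rep P (comp v) 1 1 := by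
        intro a b h v P hv
        subst h
        exact hv
      exact this _ _ R
    refine finish rfl rfl ⟨N + 1, ?_⟩ (conv R')
    rw [pow_succ]
    refine mul_dvd_mul (pow_dvd_pow_of_dvd ?_ N) ?_
    · exact ⟨polyN w f3 * polyN w f4, by rw [hsplit]; ring⟩
    · exact ⟨polyN w f2 * (polyN w g3 * polyN w f4), by rw [hsplit]; ring⟩

end CfsgLib.OreSU
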