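import Cfsg.Agent.Lib.OreSU.Defs

/-!
The witness for a middle block which is scalar except for one entry.
-/

set_option autoImplicit false
set_option linter.unusedSectionVars false

namespace CfsgLib.OreSU

open Matrix

variable {F : Type*} [Field F] {σ : F →+* F}

/-- A weighted permutation matrix. -/
def wperm {ι : Type*} [Fintype ι] [DecidableEq ι] (β : ι → F) (s : Equiv.Perm ι) : Matrix ι ι F :=
  diagonal β * (1 : Matrix ι ι F).submatrix s id

section Wperm

variable {ι : Type*} [Fintype ι] [DecidableEq ι]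

theorem wperm_apply (β : ι → F) (s : Equiv.Perm ι) (i j : ι) :
    wperm β s i j = if s i = j then β i else 0 := by
  rw [wperm, Matrix.diagonal_mul, Matrix.submatrix_apply, id, Matrix.one_apply, mul_ite, mul_one, mul_zero]

theorem det_wperm (β : ι → F) (s : Equiv.Perm ι) :
    (wperm β s).det = (∏ i, β i) * ((Equiv.Perm.sign s : ℤ) : F) := by
  rw [wperm, det_mul, det_diagonal, Matrix.det_permute, det_one, mul_one]

theorem wperm_mul_diagonal {β η ν : ι → F} {s : Equiv.Perm ι} (h : ∀ i, η (s i) = ν i * η i) :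
    wperm β s * diagonal η = diagonal (ν * η) * wperm β s := by
  ext i j
  rw [Matrix.mul_diagonal, Matrix.diagonal_mul, wperm_apply, Pi.mul_apply]
  split_ifs with hij
  · subst hij; rw [h]; ring
  · ring

/-- The Gram matrix transported by a weighted permutation. -/
theorem adj_wperm_mul {β : ι → F} {s : Equiv.Perm ι} {J : Matrix ι ι F}
    (h : ∀ p r, σ (β p) * J p r * β r = J (s p) (s r)) :
    adj σ (wperm β s) * J * wperm β s = J := by
  ext p r
  rw [Matrix.mul_apply]
  obtain ⟨p, rfl⟩ := s.surjective p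
  obtain ⟨r, rfl⟩ := s.surjective r
  rw [Finset.sum_eq_single r, Matrix.mul_apply, Finset.sum_eq_single p]
  · rw [adj_apply, wperm_apply, if_pos rfl, wperm_apply, if_pos rfl, h]
  · intro b _ hb
    rw [adj_apply, wperm_apply, if_neg (fun e => hb (s.injective e)), map_zero, zero_mul]
  · simp
  · intro b _ hb
    rw [wperm_apply, if_neg (fun e => hb (s.injective e)), mul_zero]
  · simp

end Wperm

variable [Fintype F] {q : ℕ}

theorem norm_one_pow {x : F} (hx : x * σ x = 1) (j : ℕ) : x ^ j * σ (x ^ j) = 1 := by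
  rw [map_pow, ← mul_pow, hx, one_pow]

theorem sign_norm_one {ι : Type*} [Fintype ι] [DecidableEq ι] (s : Equiv.Perm ι) :
    ((Equiv.Perm.sign s : ℤ) : F) * σ ((Equiv.Perm.sign s : ℤ) : F) = 1 := by
  rw [map_intCast, ← Int.cast_mul, ← Units.val_mul, Int.units_mul_self, Units.val_one, Int.cast_one]

theorem prod_geom (c lam : F) (n : ℕ) :
    ∏ i : Fin n, c * lam ^ (i : ℕ) = c ^ n * lam ^ n.choose 2 := by
  rw [Finset.prod_mul_distrib, Finset.prod_const, Finset.card_univ, Fintype.card_fin, Finset.prod_pow_eq_pow_sum,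
    Fin.sum_univ_eq_sum_range (fun i => i), Finset.sum_range_id, Nat.choose_two_right]

theorem exists_mid (hσ : IsConj q σ) {m : ℕ} (lam μ c : F) (hl : lam * σ lam = 1) (hc : c * σ c = 1)
    (i₀ : Fin m) (hprod : μ * lam ^ (m - 1) = 1) :
    Mid σ (Function.update (fun _ => lam) i₀ μ) (c ^ m * lam ^ (m.choose 2)) := by
  obtain ⟨n, rfl⟩ : ∃ n, m = n + 1 := ⟨m - 1, by have := i₀.2; omega⟩
  let π : Fin (n + 1) ≃ Fin (n + 1) := Equiv.subRight (i₀ + 1)
  let η : Fin (n + 1) → F := fun i => c * lam ^ (π i : ℕ)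
  refine ⟨η, fun i => ?_, ?_, fun z hz _ => ?_⟩
  · simp only [η, map_mul]
    rw [mul_mul_mul_comm, hc, norm_one_pow hl, one_mul]
  · rw [← prod_geom c lam (n + 1)]
    exact Equiv.prod_comp π (fun i => c * lam ^ (i : ℕ))
  let s : Equiv.Perm (Fin (n + 1)) := Equiv.addRight (1 : Fin (n + 1))
  let β : Fin (n + 1) → F := Function.update (fun _ => 1) i₀ (z * ((Equiv.Perm.sign s : ℤ) : F))
  have hb : adj σ (wperm β s) * 1 * wperm β s = 1 := by
    refine adj_wperm_mul fun p r => ?_
    by_cases hpr : p = r
    · subst hpr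
      rw [Matrix.one_apply_eq, Matrix.one_apply_eq, mul_one, mul_comm]
      by_cases hp : p = i₀
      · subst hp
        simp only [β, Function.update_self, map_mul]
        rw [mul_mul_mul_comm, hz, sign_norm_one, one_mul]
      · simp only [β, Function.update_of_ne hp, map_one, mul_one]
    · rw [Matrix.one_apply_ne hpr, Matrix.one_apply_ne (s.injective.ne hpr), mul_zero, zero_mul]
  have hdet : (wperm β s).det = z := by
    rw [det_wperm, Finset.prod_update_of_mem (Finset.mem_univ i₀), Finset.prod_const_one, mul_one, mul_assoc,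
      ← Int.cast_mul, ← Units.val_mul, Int.units_mul_self, Units.val_one, Int.cast_one, mul_one]
  have hz0 : z ≠ 0 := left_ne_zero_of_mul_eq_one hz
  refine ⟨GeneralLinearGroup.mkOfDetNeZero (wperm β s) (by rw [hdet]; exact hz0), hb, hdet, ?_⟩
  show wperm β s * diagonal η = diagonal _ * wperm β s
  refine wperm_mul_diagonal fun i => ?_
  have hπ : π (s i) = π i + 1 := by
    simp only [π, s, Equiv.subRight_apply, Equiv.coe_addRight]
    exact add_sub_right_comm i 1 (i₀ + 1)
  simp only [η, hπ]
  by_cases hi : i = i₀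
  · subst hi
    have h1 : π i = Fin.last n := by
      apply eq_of_sub_eq_zero
      simp only [π, Equiv.subRight_apply]
      rw [show i - (i + 1) - Fin.last n = -(Fin.last n + 1) by abel, Fin.last_add_one, neg_zero]
    rw [h1, Fin.last_add_one, Function.update_self, Fin.val_zero, pow_zero, mul_one, Fin.val_last, mul_left_comm,
      show μ * lam ^ n = 1 by simpa using hprod, mul_one]
  · have h1 : π i ≠ Fin.last n := fun e => hi <| by
      have e2 : i - i₀ = Fin.last n + 1 := by
        rw [← e]; simp only [π, Equiv.subRight_apply]; abel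
      rwa [Fin.last_add_one, sub_eq_zero] at e2
    rw [Function.update_of_ne hi, Fin.val_add_one_of_lt (Fin.lt_last_iff_ne_last.2 h1), pow_succ]
    ring

end CfsgLib.OreSU
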