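/-
One unipotent move: a new first block and a diagonal middle factor.
-/
import Mathlib
import Cfsg.Agent.Lib.OreSU.Blk
import Cfsg.Agent.Lib.OreSU.Gauss

set_option autoImplicit false
set_option linter.unusedSectionVars false

namespace CfsgLib.OreSU

open Matrix

variable {F : Type*} [Field F]

/-- An isometry which is scalar off one row is diagonal. -/
theorem diagonal_of_row {m : ℕ} {σ : F →+* F} (M : Matrix (Fin m) (Fin m) F) (i₀ : Fin m) {lam : F}
    (hl : lam * σ lam = 1) (hrow : ∀ r, r ≠ i₀ → ∀ c, M r c = if r = c then lam else 0)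
    (hM : adj σ M * M = 1) : M = diagonal (Function.update (fun _ => lam) i₀ (M i₀ i₀)) := by
  have hM' : M * adj σ M = 1 := mul_eq_one_comm.1 hM
  have hσl : σ lam ≠ 0 := fun h => by rw [h, mul_zero] at hl; exact zero_ne_one hl
  have hz : ∀ r, r ≠ i₀ → M i₀ r = 0 := by
    intro r hr
    have h := congrFun (congrFun hM' i₀) r
    rw [Matrix.mul_apply, Finset.sum_eq_single r, Matrix.one_apply_ne (Ne.symm hr), adj_apply,
      hrow r hr r, if_pos rfl] at h
    · exact (mul_eq_zero.1 h).resolve_right hσl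
    · intro c _ hc
      rw [adj_apply, hrow r hr c, if_neg (Ne.symm hc), map_zero, mul_zero]
    · simp
  ext r c
  rcases eq_or_ne r i₀ with rfl | hr
  · rcases eq_or_ne c r with rfl | hc
    · simp
    · rw [hz c hc, diagonal_apply_ne _ (Ne.symm hc)]
  · rw [hrow r hr c]
    rcases eq_or_ne r c with rfl | hc
    · simp [hr]
    · rw [if_neg hc, diagonal_apply_ne _ hc]

/-- What is known about the middle diagonal. -/
def MidShape {m : ℕ} (lam : F) (ν : Fin m → F) : Prop :=
  m = 0 ∨ ∃ (i₀ : Fin m) (μ : F), ν = Function.update (fun _ => lam) i₀ μ ∧ μ * lam ^ (m - 1) = 1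

theorem IsComm.of_conj {G : Type*} [Group G] {N : Subgroup G} {g u : G} (hu : u ∈ N)
    (h : IsComm N (u⁻¹ * g * u)) : IsComm N g := by
  obtain ⟨a, ha, b, hb, e⟩ := h
  refine ⟨u * a * u⁻¹, N.mul_mem (N.mul_mem hu ha) (N.inv_mem hu),
    u * b * u⁻¹, N.mul_mem (N.mul_mem hu hb) (N.inv_mem hu), ?_⟩
  calc g = u * (u⁻¹ * g * u) * u⁻¹ := by group
    _ = _ := by rw [e]; group

variable [Fintype F] {q : ℕ} {σ : F →+* F}

/-- The move. -/
theorem exists_move (hσ : IsConj q σ) {k m : ℕ} [NeZero k] {h : GL (Idx k m) F}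
    (hh : h ∈ sisom σ (hyp k m)) {lam : F} (hl : lam * σ lam = 1)
    (hvw : (h : Matrix (Idx k m) (Idx k m) F).submatrix vI wI = 0)
    (hvv : (h : Matrix (Idx k m) (Idx k m) F).submatrix vI vI = lam • 1)
    (P : Matrix (Fin k) (Fin k) F) (s : F) (hs : m = 0 → s = 0)
    (hP : P + adj σ P = Matrix.single 0 0 (-(s * σ s)))
    (hd : ((h : Matrix (Idx k m) (Idx k m) F).submatrix wI wI +
      adj σ P * (h : Matrix (Idx k m) (Idx k m) F).submatrix fI wI).det ≠ 0) :
    ∃ (h' : GL (Idx k m) F) (ν : Fin m → F), h' ∈ sisom σ (hyp k m) ∧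
      (IsComm (sisom σ (hyp k m)) h' → IsComm (sisom σ (hyp k m)) h) ∧
      (h' : Matrix (Idx k m) (Idx k m) F).submatrix wI wI =
        (h : Matrix (Idx k m) (Idx k m) F).submatrix wI wI +
          adj σ P * (h : Matrix (Idx k m) (Idx k m) F).submatrix fI wI ∧
      middle (h' : Matrix (Idx k m) (Idx k m) F) = diagonal ν ∧
      (((h : Matrix (Idx k m) (Idx k m) F).submatrix wI wI +
        adj σ P * (h : Matrix (Idx k m) (Idx k m) F).submatrix fI wI).det = 1 → MidShape lam ν) ∧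
      (m = 0 → σ ((h : Matrix (Idx k m) (Idx k m) F).submatrix wI wI +
        adj σ P * (h : Matrix (Idx k m) (Idx k m) F).submatrix fI wI).det =
          ((h : Matrix (Idx k m) (Idx k m) F).submatrix wI wI +
            adj σ P * (h : Matrix (Idx k m) (Idx k m) F).submatrix fI wI).det) := by
  classical
  obtain ⟨Φ, hΦ, hΦrow⟩ : ∃ Φ : Matrix (Fin m) (Fin k) F,
      adj σ Φ * Φ = Matrix.single 0 0 (s * σ s) ∧
      (m = 0 ∨ ∃ i₀ : Fin m, ∀ r, r ≠ i₀ → ∀ c, Φ r c = 0) := by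
    rcases Nat.eq_zero_or_pos m with rfl | hm
    · refine ⟨0, ?_, Or.inl rfl⟩
      rw [Matrix.mul_zero, hs rfl, zero_mul]
      simp
    · refine ⟨Matrix.single ⟨0, hm⟩ 0 s, ?_, Or.inr ⟨⟨0, hm⟩, fun r hr c => ?_⟩⟩
      · have e : adj σ (Matrix.single (⟨0, hm⟩ : Fin m) (0 : Fin k) s) =
            Matrix.single (0 : Fin k) (⟨0, hm⟩ : Fin m) (σ s) := by
          ext a b
          simp only [adj_apply, Matrix.single_apply, and_comm (a := (⟨0, hm⟩ : Fin m) = b)]
          split <;> simp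
        rw [e, Matrix.single_mul_single_same, mul_comm]
      · simp [Ne.symm hr]
  have hrel : P + adj σ P + adj σ Φ * Φ = 0 := by
    rw [hP, hΦ, ← Matrix.single_add, neg_add_cancel, Matrix.single_zero]
  set U : Matrix (Idx k m) (Idx k m) F := blk 1 (-adj σ Φ) P 0 1 Φ 0 0 1 with hU
  set U' : Matrix (Idx k m) (Idx k m) F := blk 1 (adj σ Φ) (adj σ P) 0 1 (-Φ) 0 0 1 with hU'
  have hUU : U' * U = 1 := by
    rw [hU, hU', blk_mul, ← blk_one]
    congr 1 <;> simp
    rw [← hrel]; abel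
  let u : GL (Idx k m) F := ⟨U, U', mul_eq_one_comm.1 hUU, hUU⟩
  have hu : u ∈ sisom σ (hyp k m) := by
    refine mem_sisom.2 ⟨?_, det_blk_unit _ _ _⟩
    show adj σ U * hyp k m * U = hyp k m
    rw [hU, adj_blk, hyp_eq, blk_mul, blk_mul]
    congr 1 <;> simp [adj_adj σ hσ.invol, adj_neg, adj_one, adj_zero]
    rw [← hrel]; abel
  obtain ⟨H, hH⟩ : ∃ H : Matrix (Idx k m) (Idx k m) F, (h : Matrix (Idx k m) (Idx k m) F) = H :=
    ⟨_, rfl⟩
  have hh' : u⁻¹ * h * u ∈ sisom σ (hyp k m) :=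
    (sisom σ (hyp k m)).mul_mem ((sisom σ (hyp k m)).mul_mem ((sisom σ (hyp k m)).inv_mem hu) hh) hu
  rw [hH] at hvw hvv hd
  rw [hH]
  set W := H.submatrix wI wI with hWdef
  set B := H.submatrix fI wI with hBdef
  set A := W + adj σ P * B with hA
  set h' : GL (Idx k m) F := u⁻¹ * h * u with hh'def
  have hval : (h' : Matrix (Idx k m) (Idx k m) F) = U' * H * U := by
    rw [hh'def, Units.val_mul, Units.val_mul, hH]; rfl
  have hHe : H = blk W (H.submatrix wI vI) (H.submatrix wI fI) 0 (lam • 1) (H.submatrix vI fI)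
      B (H.submatrix fI vI) (H.submatrix fI fI) := by
    conv_lhs => rw [← blk_eta H]
    rw [hvw, hvv]
  obtain ⟨h11, h21, h22⟩ : (h' : Matrix (Idx k m) (Idx k m) F).submatrix wI wI = A ∧
      (h' : Matrix (Idx k m) (Idx k m) F).submatrix vI wI = -Φ * B ∧
      ∃ Q : Matrix (Fin k) (Fin m) F,
        (h' : Matrix (Idx k m) (Idx k m) F).submatrix vI vI = lam • 1 + Φ * Q := by
    rw [hval, hU', hU, hHe, blk_mul, blk_mul]
    refine ⟨by simp [hA], by simp, B * adj σ Φ - H.submatrix fI vI, ?_⟩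
    simp [Matrix.mul_sub, Matrix.mul_assoc]
    abel
  obtain ⟨Q, hQ⟩ := h22
  obtain ⟨hM, hMd⟩ := middle_of_mem hσ hh' (by rw [h11]; exact isUnit_iff_ne_zero.2 hd)
  rw [h11] at hMd
  set Z := (h' : Matrix (Idx k m) (Idx k m) F).submatrix wI vI with hZ
  have hmid : middle (h' : Matrix (Idx k m) (Idx k m) F) = lam • 1 + Φ * (Q + B * (A⁻¹ * Z)) := by
    rw [middle, hQ, h11, h21, ← hZ]
    simp [Matrix.mul_add, Matrix.mul_assoc]
    abel
  rcases hΦrow with rfl | ⟨i₀, hi₀⟩
  · exact ⟨h', fun i => i.elim0, hh', fun c => IsComm.of_conj hu c, h11,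
      Subsingleton.elim _ _, fun _ => Or.inl rfl,
      fun _ => by rw [det_isEmpty, one_mul] at hMd; exact hMd.symm⟩
  · have hrow : ∀ r, r ≠ i₀ → ∀ c,
        middle (h' : Matrix (Idx k m) (Idx k m) F) r c = if r = c then lam else 0 := by
      intro r hr c
      rw [hmid, Matrix.add_apply, Matrix.mul_apply, Finset.sum_eq_zero fun l _ => by
        rw [hi₀ r hr l, zero_mul], add_zero, Matrix.smul_apply, Matrix.one_apply]
      split <;> simp
    have hdiag := diagonal_of_row _ i₀ hl hrow hM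
    refine ⟨h', _, hh', fun c => IsComm.of_conj hu c, h11, hdiag, fun hA1 => Or.inr ⟨i₀, _, rfl, ?_⟩,
      fun h0 => absurd i₀.2 (by omega)⟩
    rw [hA, hA1, map_one, mul_one] at hMd
    rw [hdiag, det_diagonal, Finset.prod_update_of_mem (Finset.mem_univ i₀), Finset.prod_const,
      Finset.card_sdiff] at hMd
    simpa using hMd

end CfsgLib.OreSU
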