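import Cfsg.Agent.Lib.OreSU.Gauss
import Cfsg.Agent.Lib.OreOrth.Abstract

/-!
Commutators in the special unitary group: lower triangular times Levi times upper triangular for the
parabolic subgroup stabilising the totally isotropic space `W`.
-/

set_option autoImplicit false
set_option linter.unusedSectionVars false
set_option linter.style.haveILetI false

namespace CfsgLib.OreSU

open Matrix

variable {F : Type*} [Field F] {q : ℕ} {σ : F →+* F} {k m : ℕ}

namespace Parabolic

local notation "MM" => Matrix (Idx k m) (Idx k m) F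
local notation "GG" => GL (Idx k m) F

variable [Finite F]

/-- `X ↦ H X H*` has no fixed point, so neither has `P ↦ H* P H`. -/
theorem eq_zero_of_dual [Fintype F] {H : Matrix (Fin k) (Fin k) F} (hH : FreeW σ H)
    {P : Matrix (Fin k) (Fin k) F} (hP : adj σ H * P * H = P) : P = 0 := by
  classical
  let T : Matrix (Fin k) (Fin k) F → Matrix (Fin k) (Fin k) F := fun X => H * X * adj σ H - X
  have hinj : Function.Injective T := fun X Y h => by
    refine sub_eq_zero.1 (hH (X - Y) ?_)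
    have : H * X * adj σ H - X = H * Y * adj σ H - Y := h
    rw [Matrix.mul_sub, Matrix.sub_mul]
    exact sub_eq_sub_iff_sub_eq_sub.1 this
  have hsurj := Finite.injective_iff_surjective.1 hinj
  have htr : ∀ Y, (P * Y).trace = 0 := fun Y => by
    obtain ⟨X, rfl⟩ := hsurj Y
    show (P * (H * X * adj σ H - X)).trace = 0
    rw [Matrix.mul_sub, Matrix.trace_sub, ← mul_assoc, Matrix.trace_mul_comm, ← mul_assoc, ← mul_assoc, hP,
      sub_self]
  ext i j
  have h := htr (Matrix.single j i 1)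
  simpa [Matrix.trace, Matrix.mul_apply, Matrix.single_apply, Finset.sum_ite_eq, ite_and] using h

/-- An element avoiding norm one eigenvalues has no left eigenvectors for them either. -/
theorem left_avoids {H : Matrix (Fin k) (Fin k) F} (hH : Avoids σ H) {η : F} (hη : η * σ η = 1)
    {v : Fin k → F} (hv : v ᵥ* H = η • v) : v = 0 := by
  classical
  by_contra h0
  have hd : (H - η • (1 : Matrix (Fin k) (Fin k) F)).det = 0 :=
    Matrix.exists_vecMul_eq_zero_iff.1 ⟨v, h0, by rw [vecMul_sub, vecMul_smul, vecMul_one, hv, sub_self]⟩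
  obtain ⟨w, hw0, hw⟩ := Matrix.exists_mulVec_eq_zero_iff.2 hd
  rw [sub_mulVec, smul_mulVec, one_mulVec, sub_eq_zero] at hw
  exact hw0 (hH η hη w hw)

theorem free_upper {H : GL (Fin k) F} (hF : FreeW σ (H : Matrix (Fin k) (Fin k) F))
    (hA : Avoids σ (H : Matrix (Fin k) (Fin k) F)) {d : GL (Fin m) F} {η : Fin m → F}
    (hd : (d : Matrix (Fin m) (Fin m) F) = diagonal η) (hη : ∀ i, η i * σ (η i) = 1)
    {u : GG} (hu : u ∈ upperRad σ) (hfix : levi σ (H, d) * u * (levi σ (H, d))⁻¹ = u) : u = 1 := by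
  obtain ⟨hus, a1, a2, a3, a4, a5, a6⟩ := hu
  have he : leviMat σ (H, d) * (u : MM) = (u : MM) * leviMat σ (H, d) :=
    congrArg Units.val (mul_inv_eq_iff_eq_mul.1 hfix)
  have hwv := congrArg (fun Z : MM => Z.submatrix wI vI) he
  have hwf := congrArg (fun Z : MM => Z.submatrix wI fI) he
  simp [blk_mul_sub, leviMat, a1, a2, a3, a4, a5, a6] at hwv hwf
  have hB : (u : MM).submatrix wI vI = 0 := by
    ext r i
    have h := hA (η i) (hη i) (fun j => (u : MM).submatrix wI vI j i) (funext fun j => by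
      have := congrFun (congrFun hwv j) i
      rw [hd, Matrix.mul_diagonal, Matrix.mul_apply] at this
      rw [Pi.smul_apply, smul_eq_mul, mul_comm, ← this]
      rfl)
    exact congrFun h r
  have hC : (u : MM).submatrix wI fI = 0 := hF _ (by
    rw [hwf, mul_assoc, ← adj_mul, ← Matrix.coe_units_inv, Units.mul_inv, adj_one, mul_one])
  have hiso := (mem_sisom.1 hus).1
  have hvf := congrArg (fun Z : MM => Z.submatrix vI fI) hiso
  obtain ⟨-, -, -, -, -, j6, -, -, -⟩ := hyp_blocks (F := F) (k := k) (m := m)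
  simp [herm_sub, j6, a1, a2, a3, a4, a5, a6, hB, adj_zero, adj_one] at hvf
  refine Units.ext ?_
  obtain ⟨d1, d2, d3, d4, d5, d6, d7, d8, d9⟩ := one_blocks (F := F) (k := k) (m := m)
  rw [Units.val_one]
  apply ext_sub <;> simp only [a1, a2, a3, a4, a5, a6, hB, hC, hvf, d1, d2, d3, d4, d5, d6, d7, d8, d9]

theorem free_lower [Fintype F] {H : GL (Fin k) F}
    (hF : FreeW σ (H : Matrix (Fin k) (Fin k) F))
    (hA : Avoids σ (H : Matrix (Fin k) (Fin k) F)) {d : GL (Fin m) F} {η : Fin m → F}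
    (hd : (d : Matrix (Fin m) (Fin m) F) = diagonal η) (hη : ∀ i, η i * σ (η i) = 1)
    {u : GG} (hu : u ∈ lowerRad σ) (hfix : levi σ (H, d) * u * (levi σ (H, d))⁻¹ = u) : u = 1 := by
  obtain ⟨hus, a1, a2, a3, a4, a5, a6⟩ := hu
  have he : leviMat σ (H, d) * (u : MM) = (u : MM) * leviMat σ (H, d) :=
    congrArg Units.val (mul_inv_eq_iff_eq_mul.1 hfix)
  have hvw := congrArg (fun Z : MM => Z.submatrix vI wI) he
  have hfw := congrArg (fun Z : MM => Z.submatrix fI wI) he
  simp [blk_mul_sub, leviMat, a1, a2, a3, a4, a5, a6] at hvw hfw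
  have hD : (u : MM).submatrix vI wI = 0 := by
    ext i r
    have h := left_avoids hA (hη i) (v := fun j => (u : MM).submatrix vI wI i j) (funext fun j => by
      have := congrFun (congrFun hvw i) j
      rw [hd, Matrix.diagonal_mul, Matrix.mul_apply] at this
      rw [Pi.smul_apply, smul_eq_mul, this]
      rfl)
    exact congrFun h r
  have hG : (u : MM).submatrix fI wI = 0 := eq_zero_of_dual hF (by
    rw [mul_assoc, ← hfw, ← mul_assoc, ← adj_mul, ← Matrix.coe_units_inv, Units.inv_mul, adj_one, one_mul])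
  have hiso := (mem_sisom.1 hus).1
  have hfv := congrArg (fun Z : MM => Z.submatrix wI vI) hiso
  obtain ⟨-, j2, -, -, -, -, -, -, -⟩ := hyp_blocks (F := F) (k := k) (m := m)
  simp [herm_sub, j2, a1, a2, a3, a4, a5, a6, hD, hG, adj_zero, adj_one] at hfv
  refine Units.ext ?_
  obtain ⟨d1, d2, d3, d4, d5, d6, d7, d8, d9⟩ := one_blocks (F := F) (k := k) (m := m)
  rw [Units.val_one]
  apply ext_sub <;> simp only [a1, a2, a3, a4, a5, a6, hD, hG, hfv, d1, d2, d3, d4, d5, d6, d7, d8, d9]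

end Parabolic

open Parabolic in
/-- An isometry of determinant one whose first block is good and whose middle factor is diagonal with a
witness is a commutator. -/
theorem isComm_of_blocks (hσ : IsConj q σ) {g : GL (Idx k m) F}
    (hg : g ∈ sisom σ (hyp k m)) {A : Matrix (Fin k) (Fin k) F} {ν : Fin m → F} {ε : F}
    (hA : (g : Matrix (Idx k m) (Idx k m) F).submatrix wI wI = A)
    (hν : middle (g : Matrix (Idx k m) (Idx k m) F) = diagonal ν)
    (hgood : Good q σ ε (m = 0) A) (hmid : Mid σ ν ε) :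
    IsComm (sisom σ (hyp k m)) g := by
  classical
  haveI := hσ.finite
  have hq0 : q ≠ 0 := fun h => by
    have := hσ.apply 0
    rw [map_zero, h, pow_zero] at this
    exact zero_ne_one this
  haveI := Fintype.ofFinite F
  have hinv : ∀ x, σ (σ x) = x := hσ.invol
  obtain ⟨b, H, rfl, hF, hAv, hdH, hdb⟩ := hgood
  obtain ⟨η, hη, hprod, hwit⟩ := hmid
  have hη0 : ∀ i, η i ≠ 0 := fun i h => by simpa [h] using hη i
  have hσq : ∀ d : F, σ d = d * d ^ (q - 1) := fun d => by
    rw [hσ.apply, ← pow_succ', Nat.sub_add_cancel (Nat.one_le_iff_ne_zero.2 hq0)]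
  have hdet0 : ∀ c : GL (Fin k) F, (c : Matrix (Fin k) (Fin k) F).det ≠ 0 := fun c =>
    (Matrix.GeneralLinearGroup.det c).ne_zero
  obtain ⟨z, hz⟩ : ∃ z, z = (b : Matrix (Fin k) (Fin k) F).det ^ (q - 1) := ⟨_, rfl⟩
  have hz1 : z * σ z = 1 := by
    have hd := hdet0 b
    have h1 := hσq (b : Matrix (Fin k) (Fin k) F).det
    have h2 : σ z = (σ (b : Matrix (Fin k) (Fin k) F).det)⁻¹ * (b : Matrix (Fin k) (Fin k) F).det := by
      have h3 := congrArg σ h1
      rw [hinv, map_mul, ← hz] at h3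
      rw [eq_inv_mul_iff_mul_eq₀ ((map_ne_zero σ).2 hd), ← h3]
    rw [h2, h1, ← hz]
    have hz0 : z ≠ 0 := hz ▸ pow_ne_zero _ hd
    field_simp
  obtain ⟨b', hb', hb'det, hb'eq⟩ : ∃ b' ∈ isom σ (1 : Matrix (Fin m) (Fin m) F),
      (b' : Matrix (Fin m) (Fin m) F).det = z ∧
      (b' : Matrix (Fin m) (Fin m) F) * diagonal η = diagonal (ν * η) * b' := by
    rcases Nat.eq_zero_or_pos m with h0 | h0
    · subst h0
      refine ⟨1, one_mem _, ?_, Subsingleton.elim _ _⟩
      rw [Units.val_one, det_one, hz, hdb rfl]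
    · exact hwit z hz1 h0
  let dη : GL (Fin m) F := Matrix.GeneralLinearGroup.mkOfDetNeZero (diagonal η)
    (by rw [det_diagonal]; exact Finset.prod_ne_zero_iff.2 fun i _ => hη0 i)
  have hdη : dη ∈ isom σ (1 : Matrix (Fin m) (Fin m) F) := by
    show adj σ (diagonal η) * 1 * diagonal η = 1
    rw [mul_one, adj, Matrix.diagonal_map (map_zero σ), Matrix.diagonal_transpose, diagonal_mul_diagonal,
      ← diagonal_one]
    congr 1
    funext i
    rw [mul_comm]
    exact hη i
  have hB : levi σ (b, b') ∈ sisom σ (hyp k m) := by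
    refine mem_sisom.2 ⟨levi_mem_isom hinv hb', ?_⟩
    rw [det_levi, hb'det, hz, hσq]
    have hd := hdet0 b
    have hd2 := pow_ne_zero (q - 1) hd
    field_simp
  have hH : levi σ (H, dη) ∈ sisom σ (hyp k m) := by
    refine mem_sisom.2 ⟨levi_mem_isom hinv hdη, ?_⟩
    rw [det_levi, show (dη : Matrix (Fin m) (Fin m) F).det = ε by
      rw [← hprod, ← det_diagonal]; rfl, hσq, hdH]
    have hd := hdet0 H
    have he : ε ≠ 0 := hdH ▸ pow_ne_zero _ hd
    field_simp
  obtain ⟨N, hN⟩ : ∃ N : GL (Fin m) F, N = b' * dη * b'⁻¹ * dη⁻¹ := ⟨_, rfl⟩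
  have hNν : (N : Matrix (Fin m) (Fin m) F) = diagonal ν := by
    have h1 : (N : Matrix (Fin m) (Fin m) F) * (dη : Matrix (Fin m) (Fin m) F) * (b' : Matrix (Fin m) (Fin m) F)
        = diagonal ν * (dη : Matrix (Fin m) (Fin m) F) * (b' : Matrix (Fin m) (Fin m) F) := by
      rw [← Units.val_mul, ← Units.val_mul, hN, show b' * dη * b'⁻¹ * dη⁻¹ * dη * b' = b' * dη by group,
        Units.val_mul]
      show (b' : Matrix (Fin m) (Fin m) F) * diagonal η = diagonal ν * diagonal η * _
      rw [hb'eq, diagonal_mul_diagonal]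
      rfl
    exact dη.isUnit.mul_right_cancel (b'.isUnit.mul_right_cancel h1)
  have hcomm : levi σ (b, b') * levi σ (H, dη) * (levi σ (b, b'))⁻¹ * (levi σ (H, dη))⁻¹ =
      levi σ (b * H * b⁻¹ * H⁻¹, N) := by
    rw [← map_inv, ← map_inv, ← map_mul, ← map_mul, ← map_mul, hN]
    rfl
  obtain ⟨l, hl, u, hu, hldu⟩ := exists_ldu hinv hg (b * H * b⁻¹ * H⁻¹) hA N (hν.trans hNν.symm) (by
    rw [← hcomm]; exact mul_mem (mul_mem (mul_mem hB hH) (inv_mem hB)) (inv_mem hH))
  rw [hldu, ← hcomm]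
  have key := CfsgLib.OreOrth.isCommIn_gauss (G := GL (Idx k m) F) (sisom σ (hyp k m)) (U := upperRad σ) (L := lowerRad σ) (M := leviSub σ)
    (fun _ h => h.1) (fun _ h => h.1)
    (fun _ h _ h' => conj_mem_upperRad h h') (fun _ h _ h' => conj_mem_lowerRad h h')
    (b := levi σ (b, b')) (h := levi σ (H, dη))
  have m1 : levi σ (b, b') ∈ leviSub σ := ⟨levi_mem_isom hinv hb', isDiag_levi _⟩
  have m2 : levi σ (H, dη) ∈ leviSub σ := ⟨levi_mem_isom hinv hdη, isDiag_levi _⟩
  have f1 : ∀ x ∈ upperRad σ, levi σ (H, dη) * x * (levi σ (H, dη))⁻¹ = x → x = 1 :=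
    fun _ h h' => free_upper hF hAv (d := dη) rfl hη h h'
  have f2 : ∀ x ∈ lowerRad σ, levi σ (H, dη) * x * (levi σ (H, dη))⁻¹ = x → x = 1 :=
    fun _ h h' => free_lower hF hAv (d := dη) rfl hη h h'
  exact key m1 m2 hB hH f1 f2 hl hu

end CfsgLib.OreSU
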