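import Cfsg.Agent.Lib.OreSU.Middle
import Cfsg.Agent.Lib.Amalgams.UnitaryThree

/-!
Scalar matrices in the special unitary group are commutators.
-/

set_option autoImplicit false
set_option linter.unusedSectionVars false

namespace CfsgLib.OreSU

open Matrix

variable {F : Type*} [Field F] [Fintype F] {q : ℕ} {σ : F →+* F}

theorem exists_orderOf_eq (hσ : IsConj q σ) {d : ℕ} (hd : d ∣ q ^ 2 - 1) :
    ∃ u : Fˣ, orderOf u = d := by
  classical
  obtain ⟨g, hg⟩ := IsCyclic.exists_ofOrder_eq_natCard (α := Fˣ)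
  have hc : Nat.card Fˣ = q ^ 2 - 1 := by rw [Nat.card_units, hσ.card]
  have h0 : q ^ 2 - 1 ≠ 0 := by
    have := hσ.two_le
    have : 4 ≤ q ^ 2 := by nlinarith
    omega
  refine ⟨g ^ ((q ^ 2 - 1) / d), ?_⟩
  rw [orderOf_pow, hg, hc, Nat.gcd_eq_right (Nat.div_dvd_of_dvd hd), Nat.div_div_self hd h0]

theorem eq_neg_one_of_half {u : Fˣ} {d : ℕ} (hd : 0 < d) (hu : orderOf u = 2 * d) : (u : F) ^ d = -1 := by
  have h1 : (u : F) ^ d ≠ 1 := fun e =>
    pow_ne_one_of_lt_orderOf (by omega) (by omega) (Units.ext (by simpa using e) : u ^ d = 1)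
  have h2 : ((u : F) ^ d - 1) * ((u : F) ^ d + 1) = 0 := by
    have := congrArg (fun x : Fˣ => (x : F)) (pow_orderOf_eq_one u)
    rw [hu] at this
    simp only [Units.val_pow_eq_pow_val, Units.val_one, pow_mul'] at this
    linear_combination this
  exact eq_neg_of_add_eq_zero_left ((mul_eq_zero.1 h2).resolve_left (sub_ne_zero.2 h1))

theorem isComm_of_matrices {n : ℕ} (hσ : IsConj q σ) (g : Cfsg.SU n F q) (lam : F)
    (hg : ((g : Matrix.SpecialLinearGroup (Fin n) F) : Matrix (Fin n) (Fin n) F) = lam • 1)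
    (X Y : Matrix (Fin n) (Fin n) F) (hX : adj σ X * X = 1) (hY : adj σ Y * Y = 1) (hX1 : X.det = 1)
    (hY1 : Y.det = 1) (h : X * Y = lam • (Y * X)) :
    ∃ a b : Cfsg.SU n F q, g = a * b * a⁻¹ * b⁻¹ := by
  have mem : ∀ (Z : Matrix (Fin n) (Fin n) F) (hZ1 : Z.det = 1), adj σ Z * Z = 1 →
      (⟨Z, hZ1⟩ : Matrix.SpecialLinearGroup (Fin n) F) ∈ Cfsg.SU n F q := by
    intro Z hZ1 hZ
    refine (CfsgLib.Amalgams.mem_SU_iff hσ.apply).2 ?_
    show Zᵀ * Z.map σ = 1
    have e := congrArg (fun M : Matrix (Fin n) (Fin n) F => M.map σ) hZ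
    simp only [Matrix.map_mul, adj, Matrix.transpose_map] at e
    rw [show (Z.map σ).map σ = Z by ext i j; simp [hσ.invol]] at e
    simpa using e
  refine ⟨⟨_, mem X hX1 hX⟩, ⟨_, mem Y hY1 hY⟩, ?_⟩
  rw [eq_mul_inv_iff_mul_eq, eq_mul_inv_iff_mul_eq]
  refine Subtype.ext (Subtype.ext ?_)
  show ((g : Matrix.SpecialLinearGroup (Fin n) F) : Matrix (Fin n) (Fin n) F) * Y * X = X * Y
  rw [hg]
  rw [Matrix.smul_mul, Matrix.one_mul, Matrix.smul_mul, h]

/-- The Gram matrix pairing position `p` with position `p + l`. -/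
def pairing (l : ℕ) : Matrix (Fin (l + l)) (Fin (l + l)) F :=
  reindex finSumFinEquiv finSumFinEquiv (fromBlocks 0 1 1 0)

theorem pairing_apply (l : ℕ) (p r : Fin (l + l)) :
    pairing (F := F) l p r = if (p : ℕ) + l = r ∨ (r : ℕ) + l = p then 1 else 0 := by
  obtain ⟨x, rfl⟩ := finSumFinEquiv.surjective p
  obtain ⟨y, rfl⟩ := finSumFinEquiv.surjective r
  simp only [pairing, reindex_apply, submatrix_apply, Equiv.symm_apply_apply]
  rcases x with i | i <;> rcases y with j | j <;>
    simp [Matrix.one_apply, Fin.ext_iff, finSumFinEquiv_apply_left, finSumFinEquiv_apply_right] <;>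
    (try split_ifs) <;> first | rfl | omega | simp_all

theorem exists_norm_neg_one (hσ : IsConj q σ) : ∃ a : F, a * σ a = -1 := by
  rcases Nat.even_or_odd q with ⟨k, hk⟩ | ⟨k, hk⟩
  · refine ⟨1, ?_⟩
    have h2 : (2 : F) = 0 := by
      have h := FiniteField.cast_card_eq_zero (K := F)
      rw [← Nat.card_eq_fintype_card, hσ.card, hk] at h
      push_cast at h
      have h' : ((k : F) + k) = 0 := eq_zero_of_pow_eq_zero h
      obtain ⟨p, n, hp, -, hpn⟩ : ∃ p n : ℕ, p.Prime ∧ 0 < n ∧ Fintype.card F = p ^ n := by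
        obtain ⟨p, hchar⟩ := CharP.exists F
        haveI := hchar
        obtain ⟨n, hp, hn⟩ := FiniteField.card F p
        exact ⟨p, n, hp, n.pos, hn⟩
      have h2p : p = 2 := by
        have : 2 ∣ p ^ n := by
          rw [← hpn, ← Nat.card_eq_fintype_card, hσ.card, hk, sq]
          exact Dvd.dvd.mul_right ⟨k, by omega⟩ _
        exact ((Nat.prime_dvd_prime_iff_eq Nat.prime_two hp).1 (Nat.prime_two.dvd_of_dvd_pow this)).symm
      have := FiniteField.cast_card_eq_zero (K := F)
      rw [hpn, h2p] at this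
      push_cast at this
      exact eq_zero_of_pow_eq_zero this
    rw [map_one]
    linear_combination h2
  · have hd : 2 * (q + 1) ∣ q ^ 2 - 1 := by
      refine ⟨k, ?_⟩
      rw [hk]
      have : (2 * k + 1) ^ 2 = 2 * (2 * k + 1 + 1) * k + 1 := by ring
      omega
    obtain ⟨u, hu⟩ := exists_orderOf_eq hσ hd
    exact ⟨u, by rw [hσ.apply, ← pow_succ', eq_neg_one_of_half (by omega) hu]⟩

/-- A basis change carrying the standard form to the pairing. -/
theorem exists_pairing_frame (hσ : IsConj q σ) (h2 : (2 : F) ≠ 0) (l : ℕ) :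
    ∃ T : GL (Fin (l + l)) F, adj σ (T : Matrix (Fin (l + l)) (Fin (l + l)) F) * (T : Matrix (Fin (l + l)) (Fin (l + l)) F) = pairing l := by
  obtain ⟨a, ha⟩ := exists_norm_neg_one hσ
  have hs2 : σ (2 : F) = 2 := map_ofNat σ 2
  let M : Matrix (Fin l ⊕ Fin l) (Fin l ⊕ Fin l) F :=
    fromBlocks 1 ((2 : F)⁻¹ • 1) (a • 1) ((-a / 2) • 1)
  have hM : adj σ M * M = fromBlocks 0 1 1 0 := by
    have hadj : adj σ M = fromBlocks 1 (σ a • 1) ((2 : F)⁻¹ • 1) ((-σ a / 2) • 1) := by
      ext x y
      rcases x with i | i <;> rcases y with j | j <;>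
        simp [M, Matrix.one_apply, apply_ite σ, eq_comm, map_div₀, hs2]
    rw [hadj]
    simp only [M, fromBlocks_multiply]
    ext x y
    rcases x with i | i <;> rcases y with j | j <;>
      simp [Matrix.one_apply] <;> split_ifs <;> field_simp <;>
      first | ring1 | linear_combination ha | linear_combination -ha
  have hdet : M.det ≠ 0 := by
    intro e
    have h := congrArg Matrix.det hM
    rw [det_mul, det_adj, e, map_zero, zero_mul] at h
    have hu : (fromBlocks (0 : Matrix (Fin l) (Fin l) F) (1 : Matrix (Fin l) (Fin l) F) (1 : Matrix (Fin l) (Fin l) F) (0 : Matrix (Fin l) (Fin l) F)) * fromBlocks (0 : Matrix (Fin l) (Fin l) F) (1 : Matrix (Fin l) (Fin l) F) (1 : Matrix (Fin l) (Fin l) F) (0 : Matrix (Fin l) (Fin l) F) = 1 := by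
      rw [fromBlocks_multiply, ← fromBlocks_one]; simp
    have := congrArg Matrix.det hu
    rw [det_mul, ← h, zero_mul, det_one] at this
    exact zero_ne_one this
  refine ⟨GeneralLinearGroup.mkOfDetNeZero (reindex finSumFinEquiv finSumFinEquiv M)
    (by rw [det_reindex_self]; exact hdet), ?_⟩
  show adj σ (reindex finSumFinEquiv finSumFinEquiv M) * reindex finSumFinEquiv finSumFinEquiv M = _
  rw [show adj σ (reindex finSumFinEquiv finSumFinEquiv M) = reindex finSumFinEquiv finSumFinEquiv (adj σ M) from rfl,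
    pairing, reindex_apply, reindex_apply, reindex_apply, submatrix_mul_equiv, hM]

/-- The case in which the norm-one twist is unavailable. -/
theorem isComm_of_scalar_even {l : ℕ} (hl0 : 0 < l) (hσ : IsConj q σ) (g : Cfsg.SU (l + l) F q) (lam : F)
    (hg : ((g : Matrix.SpecialLinearGroup (Fin (l + l)) F) : Matrix (Fin (l + l)) (Fin (l + l)) F) = lam • 1)
    (h2 : (2 : F) ≠ 0) (hl : lam * σ lam = 1) (hlam : lam ^ l = -1) (c z : F) (hc : c * σ c = -1)
    (hcn : c ^ (l + l) = -1) (hz : z = -σ z) (hz0 : z ≠ 0) :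
    ∃ a b : Cfsg.SU (l + l) F q, g = a * b * a⁻¹ * b⁻¹ := by
  obtain ⟨T, hT⟩ := exists_pairing_frame hσ h2 l
  obtain ⟨n, hn⟩ : ∃ n, l + l = n + 1 := ⟨l + l - 1, by omega⟩
  let s : Equiv.Perm (Fin (l + l)) := finRotate (l + l)
  have hs : ∀ p : Fin (l + l), ((s p : Fin (l + l)) : ℕ) = if (p : ℕ) + 1 = l + l then 0 else (p : ℕ) + 1 := by
    intro p
    haveI : NeZero (l + l) := ⟨by omega⟩
    show ((finRotate (l + l) p : Fin (l + l)) : ℕ) = _
    rw [finRotate_apply, Fin.val_add, Fin.val_one', Nat.add_mod_mod]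
    have := p.2
    split_ifs with h
    · rw [h, Nat.mod_self]
    · exact Nat.mod_eq_of_lt (by omega)
  let β : Fin (l + l) → F := fun p => if (p : ℕ) = 0 then z else if (p : ℕ) = l then (σ z)⁻¹ else 1
  let η : Fin (l + l) → F := fun p => c * lam ^ (p : ℕ)
  have hsz0 : σ z ≠ 0 := (map_ne_zero σ).2 hz0
  have hlam2 : lam ^ (l + l) = 1 := by rw [pow_add, hlam]; ring
  have hX : adj σ (wperm β s) * pairing l * wperm β s = pairing l := by
    refine adj_wperm_mul fun p r => ?_
    have := p.2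
    have := r.2
    have hiff : (((s p : Fin (l + l)) : ℕ) + l = s r ∨ ((s r : Fin (l + l)) : ℕ) + l = s p) ↔
        ((p : ℕ) + l = r ∨ (r : ℕ) + l = p) := by
      rw [hs, hs]; split_ifs <;> omega
    rw [pairing_apply, pairing_apply]
    by_cases hpr : (p : ℕ) + l = r ∨ (r : ℕ) + l = p
    · rw [if_pos hpr, if_pos (hiff.2 hpr), mul_one]
      simp only [β]
      split_ifs with h1 h2' h3 h4 h5 h6 h7 h8 <;> first
        | omega
        | simp [hz0, hsz0, hσ.invol]
        | field_simp
    · rw [if_neg hpr, if_neg (mt hiff.1 hpr), mul_zero, zero_mul]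
  have hY : adj σ (diagonal η) * pairing l * diagonal η = pairing l := by
    ext p r
    rw [Matrix.mul_diagonal, show adj σ (diagonal η) = diagonal (fun i => σ (η i)) by
      ext i j; by_cases h : i = j
      · subst h; simp
      · simp [h, Ne.symm h], Matrix.diagonal_mul, pairing_apply]
    split_ifs with hpr
    · have e : ∀ i : ℕ, σ (c * lam ^ i) * (c * lam ^ (i + l)) = 1 := fun i => by
        rw [map_mul, pow_add, hlam]
        linear_combination (-(σ (lam ^ i) * lam ^ i)) * hc + norm_one_pow hl i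
      have e' : ∀ i : ℕ, σ (c * lam ^ (i + l)) * (c * lam ^ i) = 1 := fun i => by
        have := congrArg σ (e i)
        rw [map_one, map_mul, hσ.invol] at this
        rw [← this]; ring
      rcases hpr with h | h
      · simp only [η, mul_one]; rw [← h]; exact e p
      · simp only [η, mul_one]; rw [← h]; exact e' r
    · ring
  have hYd : (diagonal η).det = 1 := by
    rw [det_diagonal, prod_geom c lam (l + l), hcn]
    have : (l + l).choose 2 = l * (l + l - 1) := by
      rw [Nat.choose_two_right, show (l + l) * (l + l - 1) = 2 * (l * (l + l - 1)) by ring]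
      omega
    rw [this, pow_mul, hlam, (show Odd (l + l - 1) from ⟨l - 1, by omega⟩).neg_one_pow]
    ring
  have hXd : (wperm β s).det = 1 := by
    rw [det_wperm]
    have e1 : ((Equiv.Perm.sign s : ℤ) : F) = -1 := by
      have : Equiv.Perm.sign s = (-1) ^ n := by
        show Equiv.Perm.sign (finRotate (l + l)) = _
        rw [hn, sign_finRotate]
        simp
      rw [this, (show Odd n from ⟨l - 1, by omega⟩).neg_one_pow]
      simp
    have e2 : ∏ i, β i = z * (σ z)⁻¹ := by
      have hne : (⟨0, by omega⟩ : Fin (l + l)) ≠ ⟨l, by omega⟩ := by simp [Fin.ext_iff]; omega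
      rw [← Finset.prod_subset (Finset.subset_univ {(⟨0, by omega⟩ : Fin (l + l)), ⟨l, by omega⟩})]
      · rw [Finset.prod_pair hne]
        simp [β, hl0.ne']
      · intro x _ hx
        simp [Fin.ext_iff] at hx
        simp [β, hx.1, hx.2]
    rw [e1, e2]
    field_simp
    linear_combination -hz
  have hXY : wperm β s * diagonal η = lam • (diagonal η * wperm β s) := by
    rw [wperm_mul_diagonal (ν := fun _ => lam) fun i => ?_]
    · rw [← Matrix.smul_mul]
      congr 1
      ext i j
      by_cases h : i = j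
      · subst h; simp
      · simp [h]
    · simp only [η]
      rw [hs]
      split_ifs with h
      · have : lam * lam ^ (i : ℕ) = 1 := by rw [← pow_succ', h, hlam2]
        rw [pow_zero, mul_one, mul_left_comm, this, mul_one]
      · rw [pow_succ]; ring
  have hTT : ((T⁻¹ : GL (Fin (l + l)) F) : Matrix (Fin (l + l)) (Fin (l + l)) F) * T = 1 := Units.inv_mul _
  have hTT' : (T : Matrix (Fin (l + l)) (Fin (l + l)) F) *
      ((T⁻¹ : GL (Fin (l + l)) F) : Matrix (Fin (l + l)) (Fin (l + l)) F) = 1 := Units.mul_inv _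
  generalize ((T⁻¹ : GL (Fin (l + l)) F) : Matrix (Fin (l + l)) (Fin (l + l)) F) = S at hTT hTT'
  generalize (T : Matrix (Fin (l + l)) (Fin (l + l)) F) = U at hT hTT hTT'
  have conv : ∀ Z : Matrix (Fin (l + l)) (Fin (l + l)) F, adj σ Z * pairing l * Z = pairing l → Z.det = 1 →
      adj σ (U * Z * S) * (U * Z * S) = 1 ∧ (U * Z * S).det = 1 := by
    intro Z hZ hZ1
    constructor
    · calc adj σ (U * Z * S) * (U * Z * S)
          = adj σ S * (adj σ Z * (adj σ U * U) * Z) * S := by simp only [adj_mul, mul_assoc]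
        _ = adj σ S * (adj σ U * U) * S := by rw [hT, hZ]
        _ = adj σ (U * S) * (U * S) := by simp only [adj_mul, mul_assoc]
        _ = 1 := by rw [hTT', adj_one, one_mul]
    · rw [det_mul, det_mul, hZ1, mul_one, ← det_mul, hTT', det_one]
  obtain ⟨a1, a2⟩ := conv _ hX hXd
  obtain ⟨b1, b2⟩ := conv _ hY hYd
  refine isComm_of_matrices hσ g lam hg _ _ a1 b1 a2 b2 ?_
  calc U * wperm β s * S * (U * diagonal η * S) = U * (wperm β s * (S * U) * diagonal η) * S := by
        simp only [mul_assoc]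
    _ = lam • (U * diagonal η * S * (U * wperm β s * S)) := by
        rw [hTT, mul_one, hXY, Matrix.mul_smul, Matrix.smul_mul]
        congr 1
        calc U * (diagonal η * wperm β s) * S = U * (diagonal η * (S * U) * wperm β s) * S := by
              rw [hTT, mul_one]
          _ = U * diagonal η * S * (U * wperm β s * S) := by simp only [mul_assoc]

theorem isComm_of_scalar {n : ℕ} (hn : 3 ≤ n) (hσ : IsConj q σ) (g : Cfsg.SU n F q) (lam : F)
    (hg : ((g : Matrix.SpecialLinearGroup (Fin n) F) : Matrix (Fin n) (Fin n) F) = lam • 1) :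
    ∃ a b : Cfsg.SU n F q, g = a * b * a⁻¹ * b⁻¹ := by
  classical
  have hlamn : lam ^ n = 1 := by
    have := (g : Matrix.SpecialLinearGroup (Fin n) F).det_coe
    rwa [hg, det_smul, det_one, mul_one, Fintype.card_fin] at this
  have hl : lam * σ lam = 1 := by
    have h := (CfsgLib.Amalgams.mem_SU_iff hσ.apply).1 g.2
    have h' := congrFun (congrFun h ⟨0, by omega⟩) ⟨0, by omega⟩
    rw [hg] at h'
    simpa [Matrix.mul_apply, Matrix.one_apply, apply_ite σ, mul_comm] using h'
  have easy : ∀ c : F, c * σ c = 1 → c ^ n * lam ^ n.choose 2 = 1 →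
      ∃ a b : Cfsg.SU n F q, g = a * b * a⁻¹ * b⁻¹ := by
    intro c hc hcn
    have hupd : Function.update (fun _ : Fin n => lam) ⟨0, by omega⟩ lam = fun _ => lam :=
      Function.update_eq_self _ _
    have hp : lam * lam ^ (n - 1) = 1 := by rw [← pow_succ', Nat.sub_add_cancel (by omega), hlamn]
    obtain ⟨η, hη, hprod, H⟩ := exists_mid hσ lam lam c hl hc (⟨0, by omega⟩ : Fin n) hp
    rw [hupd] at H
    obtain ⟨b, hb, hbd, hbη⟩ := H 1 (by simp) (by omega)
    refine isComm_of_matrices hσ g lam hg (b : Matrix (Fin n) (Fin n) F) (diagonal η) ?_ ?_ hbd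
      (by rw [det_diagonal, hprod, hcn]) ?_
    · have := hb
      change adj σ (b : Matrix (Fin n) (Fin n) F) * 1 * b = 1 at this
      rwa [mul_one] at this
    · ext i j
      rw [Matrix.mul_diagonal, adj_apply]
      by_cases h : i = j
      · subst h; simpa [mul_comm] using hη i
      · simp [h, Ne.symm h]
    · rw [hbη, ← Matrix.smul_mul]
      congr 1
      ext i j
      by_cases h : i = j
      · subst h; simp
      · simp [h]
  rcases Nat.even_or_odd n with ⟨l, rfl⟩ | ⟨k, hk⟩
  swap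
  · refine easy 1 (by simp) ?_
    rw [one_pow, one_mul]
    have : n.choose 2 = n * k := by
      rw [Nat.choose_two_right, hk, show 2 * k + 1 - 1 = 2 * k by omega,
        show (2 * k + 1) * (2 * k) = 2 * ((2 * k + 1) * k) by ring]
      omega
    rw [this, pow_mul, hlamn, one_pow]
  have hl0 : 0 < l := by omega
  have hch : lam ^ (l + l).choose 2 = lam ^ l := by
    have : (l + l).choose 2 = l + (l + l) * (l - 1) := by
      obtain ⟨j, rfl⟩ : ∃ j, l = j + 1 := ⟨l - 1, by omega⟩
      rw [Nat.choose_two_right, show j + 1 + (j + 1) - 1 = 2 * j + 1 by omega, show j + 1 - 1 = j by omega,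
        show (j + 1 + (j + 1)) * (2 * j + 1) = 2 * (j + 1 + (j + 1 + (j + 1)) * j) by ring]
      omega
    rw [this, pow_add, pow_mul, hlamn, one_pow, mul_one]
  by_cases h1 : lam ^ l = 1
  · exact easy 1 (by simp) (by rw [one_pow, one_mul, hch, h1])
  have hlam : lam ^ l = -1 := by
    have : (lam ^ l - 1) * (lam ^ l + 1) = 0 := by rw [pow_add] at hlamn; linear_combination hlamn
    exact eq_neg_of_add_eq_zero_left ((mul_eq_zero.1 this).resolve_left (sub_ne_zero.2 h1))
  have h2 : (2 : F) ≠ 0 := fun e => h1 (by rw [hlam]; linear_combination -e)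
  obtain ⟨k, hqk⟩ : Odd q := by
    rcases Nat.even_or_odd q with ⟨k, hk⟩ | ho
    · exfalso
      have h := FiniteField.cast_card_eq_zero (K := F)
      rw [← Nat.card_eq_fintype_card, hσ.card, hk, ← two_mul] at h
      push_cast at h
      have hk0 : (k : F) = 0 := (mul_eq_zero.1 (eq_zero_of_pow_eq_zero h)).resolve_left h2
      obtain ⟨p, hchar⟩ := CharP.exists F
      haveI := hchar
      obtain ⟨j, hp, hj⟩ := FiniteField.card F p
      have h2d : 2 ∣ p ^ (j : ℕ) := by
        rw [← hj, ← Nat.card_eq_fintype_card, hσ.card, hk, sq]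
        exact Dvd.dvd.mul_right ⟨k, by omega⟩ _
      have := (Nat.prime_dvd_prime_iff_eq Nat.prime_two hp).1 (Nat.prime_two.dvd_of_dvd_pow h2d)
      subst this
      exact h2 (by exact_mod_cast CharP.cast_eq_zero F 2)
    · exact ho
  obtain ⟨v, a, ha, hva⟩ := Nat.exists_eq_two_pow_mul_odd (show l + l ≠ 0 by omega)
  obtain ⟨w, b, hb, hwb⟩ := Nat.exists_eq_two_pow_mul_odd (show q + 1 ≠ 0 by omega)
  have hvw : v ≤ w := by
    by_contra hlt
    obtain ⟨u, rfl⟩ : ∃ u, v = u + 1 := ⟨v - 1, by omega⟩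
    have hg1 : lam ^ Nat.gcd (l + l) (q + 1) = 1 :=
      pow_gcd_eq_one.2 ⟨hlamn, by rw [pow_succ', ← hσ.apply, hl]⟩
    have hd : Nat.gcd (l + l) (q + 1) ∣ l := by
      have hla : l = 2 ^ u * a := by rw [pow_succ] at hva; linarith
      have hg2 : Nat.gcd (l + l) (q + 1) ∣ 2 ^ w * a := by
        have hbc : Nat.Coprime b (2 ^ (u + 1)) := Nat.Coprime.pow_right _ (Nat.coprime_two_right.2 hb)
        have h3 : Nat.gcd (l + l) (q + 1) ∣ 2 ^ w * Nat.gcd b (2 ^ (u + 1) * a) := by
          rw [← Nat.gcd_mul_left]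
          exact Nat.dvd_gcd (hwb ▸ Nat.gcd_dvd_right _ _)
            (dvd_mul_of_dvd_right (hva ▸ Nat.gcd_dvd_left _ _) _)
        exact h3.trans (mul_dvd_mul_left _ (by
          rw [Nat.Coprime.gcd_mul_left_cancel_right _ hbc.symm]
          exact Nat.gcd_dvd_right _ _))
      exact hg2.trans (hla ▸ mul_dvd_mul_right (pow_dvd_pow 2 (by omega)) a)
    obtain ⟨j, hj⟩ := hd
    exact h1 (by rw [hj, pow_mul, hg1, one_pow])
  have hdvd : 2 ^ (v + 1) ∣ q ^ 2 - 1 := by
    have : q ^ 2 - 1 = (q + 1) * (2 * k) := by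
      rw [hqk]
      have : (2 * k + 1) ^ 2 = (2 * k + 1 + 1) * (2 * k) + 1 := by ring
      omega
    rw [this, pow_succ]
    exact mul_dvd_mul ((pow_dvd_pow 2 hvw).trans ⟨b, hwb⟩) ⟨k, rfl⟩
  obtain ⟨c, hc⟩ := exists_orderOf_eq hσ hdvd
  rw [pow_succ'] at hc
  have hcv : (c : F) ^ (2 ^ v) = -1 := eq_neg_one_of_half (by positivity) hc
  have hcn : (c : F) ^ (l + l) = -1 := by rw [hva, pow_mul, hcv, ha.neg_one_pow]
  rcases hvw.lt_or_eq with hlt | heq
  · refine easy c ?_ (by rw [hch, hcn, hlam]; ring)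
    rw [hσ.apply, ← pow_succ', hwb]
    obtain ⟨j, hj⟩ : 2 * 2 ^ v ∣ 2 ^ w := by rw [← pow_succ']; exact pow_dvd_pow 2 hlt
    rw [hj, ← hc, mul_assoc, pow_mul]
    have := congrArg (fun x : Fˣ => (x : F)) (pow_orderOf_eq_one c)
    simp only [Units.val_pow_eq_pow_val, Units.val_one] at this
    rw [this, one_pow]
  · have hcq : (c : F) * σ c = -1 := by
      rw [hσ.apply, ← pow_succ', hwb, ← heq, pow_mul, hcv, hb.neg_one_pow]
    have hd2 : 2 * (q - 1) ∣ q ^ 2 - 1 := by
      refine ⟨k + 1, ?_⟩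
      rw [hqk, show 2 * k + 1 - 1 = 2 * k by omega]
      have : (2 * k + 1) ^ 2 = 2 * (2 * k) * (k + 1) + 1 := by ring
      omega
    obtain ⟨z, hz⟩ := exists_orderOf_eq hσ hd2
    have hq1 : 0 < q - 1 := by have := hσ.two_le; omega
    refine isComm_of_scalar_even hl0 hσ g lam hg h2 hl hlam c z hcq hcn ?_ z.ne_zero
    rw [hσ.apply, show q = q - 1 + 1 by omega, pow_succ, eq_neg_one_of_half hq1 hz]
    ring

end CfsgLib.OreSU
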