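/-
The norm and trace of the field with `q ^ 2` elements over its fixed field.
-/
import Mathlib
import Cfsg.Agent.Lib.OreSU.Defs

set_option autoImplicit false
set_option linter.unusedSectionVars false

namespace CfsgLib.OreSU

variable {F : Type*} [Field F] [Fintype F] {q : ℕ} {σ : F →+* F}

theorem IsConj.card_fintype (hσ : IsConj q σ) : Fintype.card F = q ^ 2 := by
  rw [← Nat.card_eq_fintype_card, hσ.card]

/-- The conjugation of the field with `q ^ 2` elements. -/
theorem exists_isConj {F : Type*} [Field F] [Fintype F] {q : ℕ} (hF : Fintype.card F = q ^ 2) :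
    ∃ σ : F →+* F, IsConj q σ := by
  obtain ⟨N, hp, hN⟩ := FiniteField.card F (ringChar F)
  have hq : q ∣ ringChar F ^ (N : ℕ) := ⟨q, by rw [← hN, hF, sq]⟩
  obtain ⟨j, -, hj⟩ := (Nat.dvd_prime_pow hp).1 hq
  have : Fact (ringChar F).Prime := ⟨hp⟩
  have : ExpChar F (ringChar F) := ExpChar.prime hp
  exact ⟨iterateFrobenius F (ringChar F) j, by rw [Nat.card_eq_fintype_card, hF],
    fun x => by rw [iterateFrobenius_def, hj]⟩

/-- A generator of the multiplicative group, as a field element. -/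
theorem exists_gen (hσ : IsConj q σ) : ∃ g : Fˣ, (∀ x : Fˣ, ∃ j : ℕ, x = g ^ j) ∧
    orderOf g = q ^ 2 - 1 := by
  classical
  obtain ⟨g, hg⟩ := IsCyclic.exists_monoid_generator (α := Fˣ)
  refine ⟨g, fun x => ?_, ?_⟩
  · obtain ⟨j, hj⟩ := Submonoid.mem_powers_iff _ _ |>.1 (hg x)
    exact ⟨j, hj.symm⟩
  · rw [orderOf_eq_card_of_forall_mem_zpowers, Nat.card_units, hσ.card]
    intro x
    obtain ⟨j, hj⟩ := Submonoid.mem_powers_iff _ _ |>.1 (hg x)
    exact ⟨j, by simpa using hj⟩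

/-- The norm is onto the fixed field. -/
theorem exists_norm (hσ : IsConj q σ) {x : F} (hx : σ x = x) : ∃ s : F, s * σ s = x := by
  rcases eq_or_ne x 0 with rfl | hx0
  · exact ⟨0, by simp⟩
  obtain ⟨g, hgen, hord⟩ := exists_gen hσ
  obtain ⟨j, hj⟩ := hgen (Units.mk0 x hx0)
  have hq := hσ.two_le
  have hjx : x = ((g : F)) ^ j := by
    have := congrArg Units.val hj
    simpa using this
  have h1 : g ^ (j * (q - 1)) = 1 := by
    apply Units.ext
    have h2 : x ^ (q - 1) * x = 1 * x := by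
      rw [← pow_succ, Nat.sub_add_cancel (by omega), ← hσ.apply, hx, one_mul]
    have h3 := mul_right_cancel₀ hx0 h2
    simpa [pow_mul, ← hjx] using h3
  have h4 := orderOf_dvd_of_pow_eq_one h1
  rw [hord, show q ^ 2 - 1 = (q + 1) * (q - 1) by
    obtain ⟨r, rfl⟩ := Nat.exists_eq_add_of_le hq
    simp [sq]; ring_nf; omega] at h4
  obtain ⟨i, hi⟩ := Nat.dvd_of_mul_dvd_mul_right (by omega) h4
  refine ⟨(g : F) ^ i, ?_⟩
  rw [hσ.apply, ← pow_mul, ← pow_add, hjx, hi]
  ring_nf

/-- There is a non-zero element of trace zero. -/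
theorem exists_skew (hσ : IsConj q σ) : ∃ x : F, x ≠ 0 ∧ σ x = -x := by
  obtain ⟨g, -, hord⟩ := exists_gen hσ
  have hq := hσ.two_le
  refine ⟨(g : F) - σ (g : F), fun h => ?_, by rw [map_sub, hσ.invol, neg_sub]⟩
  rw [sub_eq_zero, hσ.apply] at h
  have h1 : g ^ (q - 1) * g = 1 * g := by
    rw [← pow_succ, Nat.sub_add_cancel (by omega), one_mul]
    exact Units.ext (by rw [Units.val_pow_eq_pow_val]; exact h.symm)
  have h2 := Nat.le_of_dvd (by omega) (orderOf_dvd_of_pow_eq_one (mul_right_cancel h1))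
  rw [hord] at h2
  nlinarith [Nat.mul_le_mul hq hq, Nat.sub_add_cancel (show 1 ≤ q ^ 2 by nlinarith),
    Nat.sub_add_cancel (show 1 ≤ q by omega)]

/-- A power `c ^ (q - 1)` has norm one. -/
theorem pow_pred_norm (hσ : IsConj q σ) {c : F} (hc : c ≠ 0) :
    c ^ (q - 1) * σ (c ^ (q - 1)) = 1 := by
  have hq := hσ.two_le
  rw [hσ.apply, ← pow_mul, ← pow_add]
  have e : q - 1 + (q - 1) * q = Fintype.card F - 1 := by
    rw [hσ.card_fintype]
    obtain ⟨r, rfl⟩ := Nat.exists_eq_add_of_le hq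
    simp [sq]; ring_nf; omega
  rw [e, FiniteField.pow_card_sub_one_eq_one c hc]

theorem conj_eq_pow_pred (hσ : IsConj q σ) (c : F) : σ c = c ^ (q - 1) * c := by
  rw [hσ.apply, ← pow_succ, Nat.sub_add_cancel (by have := hσ.two_le; omega)]

theorem pow_pred_eq_one_of_fixed (hσ : IsConj q σ) {c : F} (hc : c ≠ 0) (h : σ c = c) :
    c ^ (q - 1) = 1 :=
  mul_right_cancel₀ hc (by rw [← conj_eq_pow_pred hσ, h, one_mul])

end CfsgLib.OreSU
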