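/-
Tridiagonal skew matrices with prescribed determinant.
-/
import Mathlib
import Cfsg.Agent.Lib.OreSU.Norms
import Cfsg.Agent.Lib.PSLCover.Bidiag

set_option autoImplicit false
set_option linter.unusedSectionVars false

namespace CfsgLib.OreSU

open Matrix Finset

variable {F : Type*} [Field F]

/-- Diagonal `d`, `1` above it and `-1` below it. -/
def trid {n : ℕ} (d : Fin n → F) : Matrix (Fin n) (Fin n) F := fun i j =>
  if i = j then d i else if (i : ℕ) + 1 = j then 1 else if (j : ℕ) + 1 = i then -1 else 0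

theorem trid_succ {n : ℕ} (d : Fin (n + 1) → F) :
    (trid d).submatrix Fin.succ Fin.succ = trid (d ∘ Fin.succ) := by
  ext i j
  simp [trid, Fin.succ_inj]

theorem det_trid_succ_succ {n : ℕ} (d : Fin (n + 2) → F) :
    (trid d).det = d 0 * (trid (d ∘ Fin.succ)).det + (trid (d ∘ Fin.succ ∘ Fin.succ)).det := by
  have hM : ((trid d).submatrix Fin.succ (Fin.succAbove 1)).det =
      -(trid (d ∘ Fin.succ ∘ Fin.succ)).det := by
    rw [det_succ_column_zero, Fin.sum_univ_succ, sum_eq_zero]
    · rw [add_zero, Fin.val_zero, pow_zero, one_mul]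
      have e0 : (trid d).submatrix Fin.succ (Fin.succAbove 1) (0 : Fin (n + 1)) 0 = -1 := by
        simp [trid, Fin.succAbove, Fin.ext_iff]
      have e1 : ((trid d).submatrix Fin.succ (Fin.succAbove 1)).submatrix (Fin.succAbove 0) Fin.succ =
          trid (d ∘ Fin.succ ∘ Fin.succ) := by
        ext i j
        simp [trid, Fin.succAbove, Fin.ext_iff, Fin.lt_def]
      rw [e0, e1, neg_one_mul]
    · intro i _
      have e : (trid d).submatrix Fin.succ (Fin.succAbove 1) i.succ (0 : Fin (n + 1)) = 0 := by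
        simp [trid, Fin.succAbove, Fin.ext_iff]
      rw [e]; simp
  rw [det_succ_row_zero, Fin.sum_univ_succ, Fin.sum_univ_succ, sum_eq_zero]
  · rw [Fin.val_zero, pow_zero, one_mul, Fin.succAbove_zero, trid_succ, Fin.succ_zero_eq_one, hM,
      Fin.val_one, pow_one, add_zero]
    have e0 : trid d 0 0 = d 0 := by simp [trid]
    have e1 : trid d 0 1 = 1 := by simp [trid, Fin.ext_iff]
    rw [e0, e1]
    ring
  · intro i _
    have e : trid d 0 i.succ.succ = 0 := by simp [trid, Fin.ext_iff]
    rw [e]; simp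

theorem det_trid_one (d : Fin 1 → F) : (trid d).det = d 0 := by
  rw [det_fin_one]; simp [trid]

variable [Fintype F] {q : ℕ} {σ : F →+* F}

/-- A skew diagonal for which the two largest leading minors do not vanish. -/
theorem exists_skew_diag (hσ : IsConj q σ) : ∀ n : ℕ, ∃ d : Fin (n + 1) → F,
    (∀ i, σ (d i) = -d i) ∧ (trid d).det ≠ 0 ∧ (trid (d ∘ Fin.succ)).det ≠ 0
  | 0 => by
    obtain ⟨x, hx, hxσ⟩ := exists_skew hσ
    exact ⟨fun _ => x, fun _ => hxσ, by rw [det_trid_one]; exact hx, by simp⟩
  | n + 1 => by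
    obtain ⟨d, hd, h1, h2⟩ := exists_skew_diag hσ n
    refine ⟨Fin.cons 0 d, fun i => ?_, ?_, ?_⟩
    · induction i using Fin.cases with
      | zero => simp
      | succ i => simpa using hd i
    · rw [det_trid_succ_succ]
      simpa [Function.comp_def] using h2
    · simpa [Function.comp_def] using h1

/-- Every value is the determinant of a tridiagonal matrix that is skew away from the first entry. -/
theorem exists_trid_det (hσ : IsConj q σ) {n : ℕ} (t : F) : ∃ d : Fin (n + 1) → F,
    (∀ i, i ≠ 0 → σ (d i) = -d i) ∧ (trid d).det = t := by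
  cases n with
  | zero => exact ⟨fun _ => t, fun i hi => absurd (Fin.ext (by omega)) hi, det_trid_one _⟩
  | succ n =>
    obtain ⟨d, hd, h1, -⟩ := exists_skew_diag hσ n
    refine ⟨Fin.cons ((t - (trid (d ∘ Fin.succ)).det) / (trid d).det) d, fun i hi => ?_, ?_⟩
    · induction i using Fin.cases with
      | zero => exact absurd rfl hi
      | succ i => simpa using hd i
    · rw [det_trid_succ_succ]
      have e : (Fin.cons ((t - (trid (d ∘ Fin.succ)).det) / (trid d).det) d : Fin (n + 2) → F) ∘ Fin.succ = d :=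
        funext fun i => by simp
      rw [← Function.comp_assoc, e]
      simp only [Fin.cons_zero]
      rw [div_mul_cancel₀ _ h1, sub_add_cancel]

/-- The product `adj P * R` of a tridiagonal `P` and an upper triangular `R` is cyclic. -/
theorem hasCyclic_adj_mul {n : ℕ} (σ : F →+* F) (P R : Matrix (Fin (n + 1)) (Fin (n + 1)) F)
    (hP : ∀ i j : Fin (n + 1), (i : ℕ) + 1 < j ∨ (j : ℕ) + 1 < i → P i j = 0)
    (hP1 : ∀ j : Fin n, P j.castSucc j.succ ≠ 0) (hR : ∀ i j : Fin (n + 1), j < i → R i j = 0)
    (hR1 : ∀ i, R i i ≠ 0) : CfsgLib.PSLCover.HasCyclic (adj σ P * R) := by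
  refine CfsgLib.PSLCover.hasCyclic_of_hessenberg _ (fun i j hij => ?_) fun j => ?_
  · rw [Matrix.mul_apply]
    refine sum_eq_zero fun l _ => ?_
    by_cases hl : j < l
    · rw [hR l j hl, mul_zero]
    · have hl' : (l : ℕ) ≤ j := not_lt.1 hl
      rw [adj_apply, hP l i (Or.inl (by omega)), map_zero, zero_mul]
  · rw [Matrix.mul_apply, sum_eq_single j.castSucc]
    · rw [adj_apply]
      exact mul_ne_zero (by simpa using hP1 j) (hR1 _)
    · intro l _ hl
      by_cases h : j.castSucc < l
      · rw [hR l _ h, mul_zero]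
      · have h1 : (l : ℕ) < j := lt_of_le_of_ne (not_lt.1 h) (fun e => hl (Fin.ext e))
        rw [adj_apply, hP l j.succ (Or.inl (by simp only [Fin.val_succ]; omega)), map_zero, zero_mul]
    · simp

theorem trid_far {n : ℕ} (d : Fin n → F) (i j : Fin n) (h : (i : ℕ) + 1 < j ∨ (j : ℕ) + 1 < i) :
    trid d i j = 0 := by
  simp only [trid, Fin.ext_iff]
  rw [if_neg (by omega), if_neg (by omega), if_neg (by omega)]

theorem trid_upper {n : ℕ} (d : Fin (n + 1) → F) (j : Fin n) : trid d j.castSucc j.succ = 1 := by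
  simp [trid, Fin.ext_iff]

theorem adj_trid {n : ℕ} (σ : F →+* F) (d : Fin n → F) :
    trid d + adj σ (trid d) = diagonal fun i => d i + σ (d i) := by
  ext i j
  rcases eq_or_ne i j with rfl | h
  · simp [trid]
  · have h' : (i : ℕ) ≠ j := fun e => h (Fin.ext e)
    simp only [Matrix.add_apply, adj_apply, Matrix.diagonal_apply_ne _ h, trid, Fin.ext_iff]
    rw [if_neg h', if_neg (Ne.symm h')]
    split_ifs <;> first | omega | simp

end CfsgLib.OreSU
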