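/-
The corner of size two for the fields with four and nine elements.
-/
import Mathlib
import Cfsg.Agent.Lib.OreSU.Trid

set_option autoImplicit false
set_option linter.unusedSectionVars false

namespace CfsgLib.OreSU

open Matrix

variable {F : Type*} [Field F]

/-- A skew-hermitian perturbation of size two with off-diagonal entry `b`. -/
def pairMat (c b x : F) (σ : F →+* F) : Matrix (Fin 2) (Fin 2) F := !![c, b; -σ b, x]

theorem hasCyclic_diag_two (M : Matrix (Fin 2) (Fin 2) F) (h01 : M 0 1 = 0) (h10 : M 1 0 = 0)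
    (h : M 0 0 ≠ M 1 1) : CfsgLib.PSLCover.HasCyclic M := by
  refine ⟨![1, 1], top_le_iff.1 fun w _ => ?_⟩
  have hw : w = (w 0 - (w 0 - w 1) / (M 0 0 - M 1 1) * M 0 0) • ((M ^ 0) *ᵥ ![1, 1]) +
      ((w 0 - w 1) / (M 0 0 - M 1 1)) • ((M ^ 1) *ᵥ ![1, 1]) := by
    have hd : M 0 0 - M 1 1 ≠ 0 := sub_ne_zero.2 h
    funext i
    fin_cases i <;>
      simp [Matrix.mulVec, dotProduct, Fin.sum_univ_two, h01, h10] <;> field_simp <;> ring
  rw [hw]
  exact add_mem (Submodule.smul_mem _ _ (Submodule.subset_span ⟨0, rfl⟩))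
    (Submodule.smul_mem _ _ (Submodule.subset_span ⟨1, rfl⟩))

variable [Fintype F] {q : ℕ} {σ : F →+* F}

theorem exists_norm_one_ne_one (hσ : IsConj q σ) : ∃ η : F, η * σ η = 1 ∧ η ≠ 1 := by
  obtain ⟨g, -, hord⟩ := exists_gen hσ
  have hq := hσ.two_le
  refine ⟨(g : F) ^ (q - 1), pow_pred_norm hσ g.ne_zero, fun h => ?_⟩
  have h1 : g ^ (q - 1) = 1 := Units.ext (by rw [Units.val_pow_eq_pow_val]; exact h)
  have h2 := Nat.le_of_dvd (by omega) (orderOf_dvd_of_pow_eq_one h1)
  rw [hord] at h2
  nlinarith [Nat.mul_le_mul hq hq, Nat.sub_add_cancel (show 1 ≤ q ^ 2 by nlinarith),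
    Nat.sub_add_cancel (show 1 ≤ q by omega)]

open Classical in
theorem exists_two {q : ℕ} {σ : F →+* F} (hσ : IsConj q σ) (τ : F)
    (hτ : q = 2 ∧ τ = 0 ∨ q = 3 ∧ τ = 2) (R : Matrix (Fin 2) (Fin 2) F) (hR : R 1 0 = 0)
    (h0 : R 0 0 ≠ 0) (h1 : R 1 1 ≠ 0) :
    ∃ (P : Matrix (Fin 2) (Fin 2) F) (s : F), P + adj σ P = Matrix.single 0 0 (-(s * σ s)) ∧
      (σ R.det = R.det → s = 0) ∧ (adj σ P * R).det = 1 ∧
      CfsgLib.PSLCover.HasCyclic (adj σ P * R) ∧ (adj σ P * R).trace ≠ τ := by
  obtain ⟨x, hx, hxσ⟩ := exists_skew hσ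
  have hR2 : R.det ≠ 0 := by
    rw [det_fin_two, hR, mul_zero, sub_zero]; exact mul_ne_zero h0 h1
  have hi : ∀ y : F, σ (σ y) = y := hσ.invol
  set t : F := (σ R.det)⁻¹ with ht
  have hσt : σ t = R.det⁻¹ := by rw [ht, map_inv₀, hi]
  -- the diagonal entry for a given off-diagonal entry
  set cc : F → F := fun b => (t - b * σ b) / x with hcc
  have hccσ : ∀ b, σ (cc b) = (b * σ b - σ t) / x := by
    intro b
    simp only [hcc, map_div₀, map_sub, map_mul, hi, hxσ]
    field_simp
    ring
  -- the trace for a given off-diagonal entry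
  set tr : F → F := fun b => σ (cc b) * R 0 0 + σ b * R 0 1 - x * R 1 1 with htr
  suffices hkey : ∃ b, (b ≠ 0 ∨ R 0 1 = 0 ∧ q = 2) ∧ tr b ≠ τ by
    obtain ⟨b, hb, htb⟩ := hkey
    have hs : σ (-(cc b + σ (cc b))) = -(cc b + σ (cc b)) := by
      rw [map_neg, map_add, hi, add_comm]
    obtain ⟨s, hs'⟩ := exists_norm hσ hs
    have htrace : (adj σ (pairMat (cc b) b x σ) * R).trace = tr b := by
      simp [pairMat, trace_fin_two, Matrix.mul_apply, Fin.sum_univ_two, htr, hR, hi, hxσ]
      ring
    have hdet : (adj σ (pairMat (cc b) b x σ) * R).det = 1 := by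
      have e : (pairMat (cc b) b x σ).det = t := by
        simp [pairMat, det_fin_two, hcc]
        field_simp
        ring
      rw [det_mul, det_adj, e, hσt, inv_mul_cancel₀ hR2]
    refine ⟨pairMat (cc b) b x σ, if σ R.det = R.det then 0 else s, ?_, fun h => if_pos h, hdet, ?_,
      by rw [htrace]; exact htb⟩
    · have e : -((if σ R.det = R.det then 0 else s) * σ (if σ R.det = R.det then 0 else s)) =
          cc b + σ (cc b) := by
        split_ifs with h
        · rw [map_zero, mul_zero, neg_zero, hccσ, hcc, hσt, ht, h]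
          field_simp
          ring
        · rw [hs', neg_neg]
      rw [e]
      ext i j
      fin_cases i <;> fin_cases j <;> simp [pairMat, hi, hxσ]
    · by_cases hb0 : b = 0
      · obtain ⟨hu, hq2⟩ := hb.resolve_left (fun h => h hb0)
        refine hasCyclic_diag_two _ ?_ ?_ fun e => htb ?_
        · simp [pairMat, Matrix.mul_apply, Fin.sum_univ_two, hb0, hu]
        · simp [pairMat, Matrix.mul_apply, Fin.sum_univ_two, hb0, hR]
        · have h2 : (2 : F) = 0 := by
            have h4 := FiniteField.cast_card_eq_zero F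
            rw [hσ.card_fintype, hq2] at h4
            push_cast at h4
            exact mul_self_eq_zero.1 (by linear_combination h4)
          have hτ0 : τ = 0 := by
            rcases hτ with ⟨-, h⟩ | ⟨h, -⟩
            · exact h
            · omega
          rw [← htrace, trace_fin_two, ← e, hτ0, ← two_mul, h2, zero_mul]
      · refine hasCyclic_adj_mul σ _ R (fun i j hij => by omega) (fun j => ?_) (fun i j hij => ?_)
          fun i => ?_
        · fin_cases j; simpa [pairMat] using hb0
        · fin_cases i <;> fin_cases j <;> simp_all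
        · fin_cases i <;> assumption
  by_cases hu : R 0 1 = 0
  · -- two norms
    have hdiff : ∀ b b' : F, b * σ b ≠ b' * σ b' → tr b ≠ tr b' := by
      intro b b' hne e
      simp only [htr, hccσ, hu, mul_zero, add_zero] at e
      refine hne ?_
      field_simp at e
      refine mul_left_cancel₀ h0 ?_
      linear_combination e
    rcases hτ with ⟨hq, -⟩ | ⟨hq, -⟩
    · rcases ne_or_eq (tr 1) τ with h | h
      · exact ⟨1, Or.inl one_ne_zero, h⟩
      · exact ⟨0, Or.inr ⟨hu, hq⟩, fun h' => hdiff 0 1 (by simp) (h'.trans h.symm)⟩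
    · obtain ⟨b, hb⟩ := exists_norm hσ (show σ (-1 : F) = -1 by simp)
      have h2 : (-1 : F) ≠ 1 := by
        intro e
        have h4 := FiniteField.cast_card_eq_zero F
        rw [hσ.card_fintype, hq] at h4
        push_cast at h4
        have h2 : (2 : F) = 0 := by linear_combination -e
        exact one_ne_zero (show (1 : F) = 0 by linear_combination h4 - 4 * h2)
      rcases ne_or_eq (tr 1) τ with h | h
      · exact ⟨1, Or.inl one_ne_zero, h⟩
      · refine ⟨b, Or.inl fun h0 => ?_, fun h' => hdiff b 1 ?_ (h'.trans h.symm)⟩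
        · rw [h0, zero_mul] at hb; simp at hb
        · rw [hb, map_one, mul_one]; exact h2
  · obtain ⟨η, hη, hη1⟩ := exists_norm_one_ne_one hσ
    rcases ne_or_eq (tr 1) τ with h | h
    · exact ⟨1, Or.inl one_ne_zero, h⟩
    · refine ⟨η, Or.inl fun h0 => by simp [h0] at hη, fun h' => hη1 ?_⟩
      have e := h'.trans h.symm
      simp only [htr, hccσ, hη, map_one, mul_one, sub_left_inj, add_right_inj] at e
      have e2 : σ η = 1 := mul_right_cancel₀ hu e
      rw [← hi η, e2, map_one]

end CfsgLib.OreSU
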