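/-
Ore's conjecture for the special unitary groups: assembly.
-/
import Mathlib
import Cfsg.Agent.Lib.OreSU.Move
import Cfsg.Agent.Lib.OreSU.Trid
import Cfsg.Agent.Lib.OreSU.TwoByTwo
import Cfsg.Agent.Lib.OreSU.Append
import Cfsg.Agent.Lib.OreSU.Parabolic
import Cfsg.Agent.Lib.OreSU.Middle
import Cfsg.Agent.Lib.OreSU.Scalar
import Cfsg.Agent.Lib.OreSU.NormalForm
import Cfsg.Agent.Lib.OreSU.GoodLarge
import Cfsg.Agent.Lib.OreSU.GoodTwo
import Cfsg.Agent.Lib.OreSU.GoodThree

set_option autoImplicit false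
set_option linter.unusedSectionVars false
set_option linter.unnecessarySeqFocus false

namespace CfsgLib.OreSU

open Matrix CfsgLib.PSLCover

variable {F : Type*} [Field F] [Fintype F] {q : ℕ} {σ : F →+* F}

theorem norm_pow {c : F} (hc : c * σ c = 1) (j : ℕ) : c ^ j * σ (c ^ j) = 1 := by
  rw [map_pow, ← mul_pow, hc, one_pow]

theorem norm_mul {c d : F} (hc : c * σ c = 1) (hd : d * σ d = 1) : (c * d) * σ (c * d) = 1 := by
  rw [map_mul, mul_mul_mul_comm, hc, hd, one_mul]

theorem norm_middle {lam c : F} (hl : lam * σ lam = 1) (hc : c * σ c = 1) (m : ℕ) :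
    (c ^ m * lam ^ m.choose 2) * σ (c ^ m * lam ^ m.choose 2) = 1 :=
  norm_mul (norm_pow hc _) (norm_pow hl _)

/-- The end: an admissible first block and a middle of the known shape. -/
theorem isComm_of_good (hσ : IsConj q σ) {k m : ℕ} {g : GL (Idx k m) F} (hg : g ∈ sisom σ (hyp k m))
    {A : Matrix (Fin k) (Fin k) F} (hA : (g : Matrix (Idx k m) (Idx k m) F).submatrix wI wI = A)
    {ν : Fin m → F} (hν : middle (g : Matrix (Idx k m) (Idx k m) F) = diagonal ν) {lam c : F}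
    (hl : lam * σ lam = 1) (hc : c * σ c = 1) (hshape : MidShape lam ν)
    (hgood : Good q σ (c ^ m * lam ^ m.choose 2) (m = 0) A) : IsComm (sisom σ (hyp k m)) g := by
  refine isComm_of_blocks hσ hg hA hν hgood ?_
  rcases hshape with rfl | ⟨i₀, μ, rfl, hμ⟩
  · exact ⟨fun i => i.elim0, fun i => i.elim0, by simp, fun _ _ h => absurd h (lt_irrefl 0)⟩
  · exact exists_mid hσ lam μ c hl hc i₀ hμ

/-- A two by two matrix with a non-zero off-diagonal entry is cyclic. -/
theorem hasCyclic_two (A : Matrix (Fin 2) (Fin 2) F) (h : A 0 1 ≠ 0 ∨ A 1 0 ≠ 0) : HasCyclic A := by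
  rcases h with h | h
  · refine ⟨Pi.single 1 1, eq_top_iff.2 fun v _ => ?_⟩
    have e : v = (v 1 - v 0 * A 1 1 / A 0 1) • ((A ^ 0) *ᵥ Pi.single (1 : Fin 2) (1 : F)) +
        (v 0 / A 0 1) • ((A ^ 1) *ᵥ Pi.single (1 : Fin 2) (1 : F)) := by
      funext i; fin_cases i <;> simp <;> field_simp <;> ring
    rw [e]
    exact add_mem (Submodule.smul_mem _ _ (Submodule.subset_span ⟨0, rfl⟩))
      (Submodule.smul_mem _ _ (Submodule.subset_span ⟨1, rfl⟩))
  · refine ⟨Pi.single 0 1, eq_top_iff.2 fun v _ => ?_⟩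
    have e : v = (v 0 - v 1 * A 0 0 / A 1 0) • ((A ^ 0) *ᵥ Pi.single (0 : Fin 2) (1 : F)) +
        (v 1 / A 1 0) • ((A ^ 1) *ᵥ Pi.single (0 : Fin 2) (1 : F)) := by
      funext i; fin_cases i <;> simp <;> field_simp <;> ring
    rw [e]
    exact add_mem (Submodule.smul_mem _ _ (Submodule.subset_span ⟨0, rfl⟩))
      (Submodule.smul_mem _ _ (Submodule.subset_span ⟨1, rfl⟩))

theorem three_eq_zero (hσ : IsConj 3 σ) : (3 : F) = 0 := by
  have h : ((3 ^ 2 : ℕ) : F) = 0 := by rw [← hσ.card_fintype, FiniteField.cast_card_eq_zero]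
  exact (pow_eq_zero_iff two_ne_zero).1 (by exact_mod_cast h)

theorem two_eq_zero (hσ : IsConj 2 σ) : (2 : F) = 0 := by
  have h : ((2 ^ 2 : ℕ) : F) = 0 := by rw [← hσ.card_fintype, FiniteField.cast_card_eq_zero]
  exact (pow_eq_zero_iff two_ne_zero).1 (by exact_mod_cast h)

/-- Good first blocks of size two over the two smallest fields. -/
theorem good_small_two (hσ : IsConj q σ) (hq : q = 2 ∨ q = 3) {A : Matrix (Fin 2) (Fin 2) F}
    (hd : A.det = 1) {τ : F} (hτ : q = 2 ∧ τ = 0 ∨ q = 3 ∧ τ = 2)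
    (hA : A = 1 ∨ HasCyclic A ∧ A.trace ≠ τ) {ε : F} (hε : ε * σ ε = 1) (hε2 : q = 2 → ε = 1)
    (fix : Prop) (hfix : fix → ε = 1) : Good q σ ε fix A := by
  rcases hτ with ⟨rfl, rfl⟩ | ⟨rfl, rfl⟩
  · rw [hε2 rfl]
    obtain ⟨b, H, h1, h2, h3, h4, h5⟩ := good_two hσ A hd (Or.inl ⟨rfl, hA⟩)
    exact ⟨b, H, h1, h2, h3, h4, fun _ => h5 trivial⟩
  · refine good_three hσ A hd hε fix hfix (Or.inr (Or.inl ⟨rfl, ?_⟩))
    exact hA.imp id fun h => ⟨h.1, Or.inr h.2⟩

/-- The factor `c` for which the middle determinant is admissible. -/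
theorem exists_c (hσ : IsConj q σ) {lam : F} (hl : lam * σ lam = 1) (m : ℕ) :
    ∃ c : F, c * σ c = 1 ∧ (q = 2 → c ^ m * lam ^ m.choose 2 = 1) ∧
      (m = 0 → c ^ m * lam ^ m.choose 2 = 1) := by
  refine ⟨lam ^ (m - 1), norm_pow hl _, fun hq => ?_, fun hm => by subst hm; simp⟩
  subst hq
  have h3 : lam ^ 3 = 1 := by
    rw [hσ.apply] at hl
    rw [← hl]; ring
  have e : (m - 1) * m + m.choose 2 = 3 * m.choose 2 := by
    have h := Nat.choose_two_right m
    obtain ⟨r, hr⟩ : 2 ∣ (m - 1) * m := by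
      rcases m with - | m
      · simp
      · simpa using (Nat.even_mul_succ_self m).two_dvd
    rw [mul_comm, hr] at h
    omega
  rw [← pow_mul, ← pow_add, e, pow_mul, h3, one_pow]

/-- A first block of size one: enlarge it. -/
theorem isComm_append (hσ : IsConj q σ) (hq : q = 2 ∨ q = 3) {m : ℕ} {h : GL (Idx 1 (m + 2)) F}
    (hh : h ∈ sisom σ (hyp 1 (m + 2))) {lam : F} (hl : lam * σ lam = 1)
    (hN : NormalForm (h : Matrix (Idx 1 (m + 2)) (Idx 1 (m + 2)) F) lam) :
    IsComm (sisom σ (hyp 1 (m + 2))) h := by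
  obtain ⟨g, r, a, hr, hg, hgw, hgf, hgv, hgvv, hback⟩ := exists_append hσ hh hN
  refine hback ?_
  have hlam : lam ≠ 0 := left_ne_zero_of_mul_eq_one hl
  obtain ⟨τ, hτ⟩ : ∃ τ : F, q = 2 ∧ τ = 0 ∨ q = 3 ∧ τ = 2 := by
    rcases hq with rfl | rfl
    exacts [⟨0, Or.inl ⟨rfl, rfl⟩⟩, ⟨2, Or.inr ⟨rfl, rfl⟩⟩]
  -- the free entry
  obtain ⟨y, hy1, hy2⟩ : ∃ y : F, (a = 0 ∧ lam = 1 ∧ y = 0 ∨ (a ≠ 0 ∨ y ≠ 0)) ∧
      ((a = 0 ∧ lam = 1 ∧ y = 0) ∨ lam⁻¹ + lam + y * a ≠ τ) := by
    by_cases ha : a = 0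
    · by_cases hl1 : lam = 1
      · exact ⟨0, Or.inl ⟨ha, hl1, rfl⟩, Or.inl ⟨ha, hl1, rfl⟩⟩
      · refine ⟨1, Or.inr (Or.inr one_ne_zero), Or.inr ?_⟩
        rw [ha, mul_zero, add_zero]
        intro e
        have e' : lam ^ 2 + 1 = τ * lam := by
          rw [← e, add_mul, inv_mul_cancel₀ hlam]; ring
        rcases hτ with ⟨rfl, rfl⟩ | ⟨rfl, rfl⟩
        · apply hl1
          have h2 := two_eq_zero hσ
          have : (lam - 1) ^ 2 = 0 := by linear_combination e' - lam * h2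
          exact sub_eq_zero.1 (pow_eq_zero_iff (two_ne_zero) |>.1 this)
        · apply hl1
          have : (lam - 1) ^ 2 = 0 := by linear_combination e'
          exact sub_eq_zero.1 (pow_eq_zero_iff (two_ne_zero) |>.1 this)
    · refine ⟨(τ + 1 - lam⁻¹ - lam) / a, Or.inr (Or.inl ha), Or.inr ?_⟩
      rw [div_mul_cancel₀ _ ha, show lam⁻¹ + lam + (τ + 1 - lam⁻¹ - lam) = τ + 1 by ring]
      simp
  obtain ⟨x, hx0, hxσ⟩ := exists_skew hσ
  have hσinj : ∀ z : F, σ z = 0 → z = 0 := fun z hz => (map_eq_zero σ).1 hz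
  have hBval : ∀ p y : F, (g : Matrix (Idx 2 m) (Idx 2 m) F).submatrix wI wI +
      adj σ !![p, σ y; -y, 0] * (g : Matrix (Idx 2 m) (Idx 2 m) F).submatrix fI wI =
        !![σ p * r, σ p * a; y * r, lam + y * a] := by
    intro p y
    rw [hgw, hgf]
    ext i j
    fin_cases i <;> fin_cases j <;> simp [Matrix.mul_apply, Fin.sum_univ_two, hσ.invol]
  have hdet : ∀ p y : F, (!![σ p * r, σ p * a; y * r, lam + y * a] : Matrix (Fin 2) (Fin 2) F).det =
      σ p * r * lam := by
    intro p y; rw [det_fin_two]; simp; ring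
  set p := σ ((r * lam)⁻¹) with hpdef
  -- `p` has trace zero when there is no middle part
  have hskew : m = 0 → σ p = -p := by
    intro hm
    obtain ⟨-, -, -, -, -, -, -, hfix⟩ := exists_move hσ hg hl hgv hgvv !![x, σ (0:F); -(0:F), 0] 0 (fun _ => rfl)
      (by ext i j; fin_cases i <;> fin_cases j <;> simp [hxσ])
      (by rw [hBval, hdet]
          exact mul_ne_zero (mul_ne_zero (fun e => hx0 (hσinj _ e)) hr) hlam)
    have h1 := hfix hm
    rw [hBval, hdet, map_mul, map_mul, hσ.invol, hxσ] at h1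
    have h2 : σ (r * lam) = -(r * lam) := by
      apply mul_left_cancel₀ hx0
      rw [map_mul]
      linear_combination h1
    rw [hpdef, hσ.invol, map_inv₀, h2, inv_neg, neg_neg]
  obtain ⟨s, hs0, hs⟩ : ∃ s : F, (m = 0 → s = 0) ∧ p + σ p = -(s * σ s) := by
    by_cases hm : m = 0
    · exact ⟨0, fun _ => rfl, by rw [hskew hm]; simp⟩
    · obtain ⟨s, hs⟩ := exists_norm hσ (x := -(p + σ p)) (by rw [map_neg, map_add, hσ.invol, add_comm])
      exact ⟨s, fun h => absurd h hm, by rw [hs, neg_neg]⟩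
  have hp1 : σ p * r * lam = 1 := by
    rw [hpdef, hσ.invol, mul_assoc, inv_mul_cancel₀ (mul_ne_zero hr hlam)]
  obtain ⟨g', ν, hg', hb, hgA, hν, hshape, -⟩ := exists_move hσ hg hl hgv hgvv !![p, σ y; -y, 0] s hs0
    (by ext i j; fin_cases i <;> fin_cases j <;> simp [hσ.invol, hs])
    (by rw [hBval, hdet, hp1]; exact one_ne_zero)
  refine hb ?_
  rw [hBval] at hgA hshape
  have hd1 : (!![σ p * r, σ p * a; y * r, lam + y * a] : Matrix (Fin 2) (Fin 2) F).det = 1 := by
    rw [hdet, hp1]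
  obtain ⟨c, hc, hc2, hc0⟩ := exists_c hσ hl m
  refine isComm_of_good hσ hg' hgA hν hl hc (hshape hd1) (good_small_two hσ hq hd1 hτ ?_
    (norm_middle hl hc m) hc2 _ hc0)
  have hpr : σ p * r = lam⁻¹ := eq_inv_of_mul_eq_one_left hp1
  have hp0 : σ p ≠ 0 := left_ne_zero_of_mul (left_ne_zero_of_mul_eq_one hp1)
  by_cases hid : a = 0 ∧ lam = 1 ∧ y = 0
  · left
    obtain ⟨rfl, rfl, rfl⟩ := hid
    ext i j; fin_cases i <;> fin_cases j <;> simp [hpr]
  · right
    refine ⟨hasCyclic_two _ ?_, ?_⟩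
    · rcases hy1.resolve_left hid with h1 | h1
      · exact Or.inl (by simpa using mul_ne_zero hp0 h1)
      · exact Or.inr (by simpa using mul_ne_zero h1 hr)
    · have h1 := hy2.resolve_left hid
      rw [trace_fin_two]
      simp only [Matrix.of_apply, Matrix.cons_val_zero, Matrix.cons_val_one, hpr]
      rwa [← add_assoc]

/-- Normal forms are commutators. -/
theorem isComm_of_normalForm (hσ : IsConj q σ) {k m : ℕ} (hk : 1 ≤ k) (hn : 3 ≤ 2 * k + m)
    (hex : ¬ (2 * k + m = 3 ∧ q = 2)) {h : GL (Idx k m) F} (hh : h ∈ sisom σ (hyp k m))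
    {lam : F} (hl : lam * σ lam = 1) (hN : NormalForm (h : Matrix (Idx k m) (Idx k m) F) lam) :
    IsComm (sisom σ (hyp k m)) h := by
  have hq := hσ.two_le
  obtain ⟨j, rfl⟩ : ∃ j, k = j + 1 := ⟨k - 1, by omega⟩
  obtain ⟨R, hR⟩ : ∃ R, (h : Matrix (Idx (j + 1) m) (Idx (j + 1) m) F).submatrix fI wI = R := ⟨_, rfl⟩
  have hRu : ∀ a b : Fin (j + 1), b < a → R a b = 0 := fun a b hab => by
    rw [← hR]; exact hN.upper a b hab
  have hR1 : ∀ a, R a a ≠ 0 := fun a => by rw [← hR]; exact hN.diag a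
  have hRd : R.det ≠ 0 := by
    rw [det_of_isUpperTriangular (show R.IsUpperTriangular from fun a b hab => hRu a b hab)]
    exact Finset.prod_ne_zero_iff.2 fun a _ => hR1 a
  -- reduce to admissible `P`
  have step : ∀ (P : Matrix (Fin (j + 1)) (Fin (j + 1)) F) (s c : F), (m = 0 → s = 0) →
      P + adj σ P = Matrix.single 0 0 (-(s * σ s)) → (adj σ P * R).det = 1 → c * σ c = 1 →
      Good q σ (c ^ m * lam ^ m.choose 2) (m = 0) (adj σ P * R) →
      IsComm (sisom σ (hyp (j + 1) m)) h := by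
    intro P s c hs hP hd hc hgood
    obtain ⟨g', ν, hg', hb, hgA, hν, hshape, -⟩ := exists_move hσ hh hl hN.vw hN.vv P s hs hP
      (by rw [hN.ww, zero_add, hR, hd]; exact one_ne_zero)
    rw [hN.ww, zero_add, hR] at hgA hshape
    exact hb (isComm_of_good hσ hg' hgA hν hl hc (hshape hd) hgood)
  -- with trivial middle part the determinant of a skew move is fixed
  obtain ⟨d₀, hd₀, hd₀1, -⟩ := exists_skew_diag hσ j
  have hP₀ : trid d₀ + adj σ (trid d₀) = Matrix.single 0 0 (-((0 : F) * σ 0)) := by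
    rw [adj_trid]
    have : (fun i => d₀ i + σ (d₀ i)) = fun _ => (0 : F) := funext fun i => by simp [hd₀ i]
    rw [this]; simp
  have hA₀ : (adj σ (trid d₀) * R).det ≠ 0 := by
    rw [det_mul, det_adj]
    exact mul_ne_zero (fun e => hd₀1 ((map_eq_zero σ).1 e)) hRd
  have hfix₀ : m = 0 → σ (adj σ (trid d₀) * R).det = (adj σ (trid d₀) * R).det := by
    intro hm
    obtain ⟨-, -, -, -, -, -, -, hfix⟩ := exists_move hσ hh hl hN.vw hN.vv (trid d₀) 0 (fun _ => rfl)
      hP₀ (by rw [hN.ww, zero_add, hR]; exact hA₀)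
    have := hfix hm
    rwa [hN.ww, zero_add, hR] at this
  obtain ⟨c, hc, hc2, hc0⟩ := exists_c hσ hl m
  -- a cyclic first block of determinant one
  have main : ∃ (P : Matrix (Fin (j + 1)) (Fin (j + 1)) F) (s : F), (m = 0 → s = 0) ∧
      P + adj σ P = Matrix.single 0 0 (-(s * σ s)) ∧ (adj σ P * R).det = 1 ∧
      HasCyclic (adj σ P * R) := by
    by_cases hm : m = 0
    · obtain ⟨s, hs⟩ := exists_norm hσ (x := ((adj σ (trid d₀) * R).det)⁻¹)
        (by rw [map_inv₀, hfix₀ hm])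
      set D : Matrix (Fin (j + 1)) (Fin (j + 1)) F := diagonal (Function.update 1 0 s) with hD
      have hs0 : s ≠ 0 := fun e => by
        rw [e, zero_mul] at hs
        exact inv_ne_zero hA₀ hs.symm
      have hDne : ∀ i, Function.update (1 : Fin (j + 1) → F) 0 s i ≠ 0 := fun i => by
        rcases eq_or_ne i 0 with rfl | hi <;> simp [*]
      have hDadj : adj σ D = diagonal fun i => σ (Function.update (1 : Fin (j + 1) → F) 0 s i) := by
        ext a b
        rcases eq_or_ne a b with rfl | hab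
        · simp [hD]
        · simp [hD, hab, Ne.symm hab]
      refine ⟨D * trid d₀ * adj σ D, 0, fun _ => rfl, ?_, ?_, ?_⟩
      · have e : D * trid d₀ * adj σ D + adj σ (D * trid d₀ * adj σ D) =
            D * (trid d₀ + adj σ (trid d₀)) * adj σ D := by
          rw [adj_mul, adj_mul, adj_adj σ hσ.invol]
          noncomm_ring
        rw [e, hP₀]
        simp
      · have hdD : D.det = s := by
          rw [hD, det_diagonal, Finset.prod_update_of_mem (Finset.mem_univ _)]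
          simp
        rw [det_mul, det_adj, det_mul, det_mul, det_adj, hdD]
        rw [det_mul, det_adj] at hs
        have h1 : s * σ s * (σ (trid d₀).det * R.det) = 1 := by
          rw [hs, inv_mul_cancel₀]
          simpa [det_adj] using hA₀
        rw [map_mul, map_mul, hσ.invol]
        linear_combination h1
      · refine hasCyclic_adj_mul σ _ R (fun a b hab => ?_) (fun b => ?_) hRu hR1
        · rw [hDadj, hD, mul_diagonal, diagonal_mul, trid_far d₀ a b hab, mul_zero, zero_mul]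
        · rw [hDadj, hD, mul_diagonal, diagonal_mul, trid_upper, mul_one]
          exact mul_ne_zero (hDne _) (fun e => hDne b.succ ((map_eq_zero σ).1 e))
    · obtain ⟨d, hd, hdet⟩ := exists_trid_det hσ (n := j) (σ (R.det)⁻¹)
      obtain ⟨s, hs⟩ := exists_norm hσ (x := -(d 0 + σ (d 0)))
        (by rw [map_neg, map_add, hσ.invol, add_comm])
      refine ⟨trid d, s, fun h => absurd h hm, ?_, ?_, ?_⟩
      · rw [adj_trid, hs, neg_neg]
        ext a b
        rcases eq_or_ne a b with rfl | hab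
        · rcases eq_or_ne a 0 with rfl | ha
          · simp
          · simp [hd a ha, Ne.symm ha]
        · rw [diagonal_apply_ne _ hab, Matrix.single_apply, if_neg]
          rintro ⟨rfl, rfl⟩; exact hab rfl
      · rw [det_mul, det_adj, hdet, hσ.invol, inv_mul_cancel₀ hRd]
      · exact hasCyclic_adj_mul σ _ R (fun a b hab => trid_far d a b hab)
          (fun b => by rw [trid_upper]; exact one_ne_zero) hRu hR1
  obtain ⟨P, s, hs, hP, hd, hcyc⟩ := main
  by_cases hq4 : 4 ≤ q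
  · exact step P s c hs hP hd hc (good_large hσ hq4 (by omega) _ hcyc hd (norm_middle hl hc m) _
      fun h0 => ⟨by omega, hc0 h0⟩)
  have hq23 : q = 2 ∨ q = 3 := by omega
  rcases (show j = 0 ∨ j = 1 ∨ 2 ≤ j by omega) with rfl | rfl | hj
  · -- size one
    rcases (show m = 1 ∨ ∃ m', m = m' + 2 from (eq_or_ne m 1).imp id fun h => ⟨m - 2, by omega⟩) with
      rfl | ⟨m', rfl⟩
    · obtain rfl : q = 3 := hq23.resolve_left fun h => hex ⟨rfl, h⟩
      obtain ⟨x, hx0, hxσ⟩ := exists_skew hσ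
      have hx2 : x ^ 2 = -1 := by
        apply mul_right_cancel₀ hx0
        rw [← pow_succ, ← hσ.apply, hxσ, neg_one_mul]
      have hxn : x * σ x = 1 := by rw [hxσ]; linear_combination -hx2
      refine step P s x hs hP hd hxn (good_three hσ _ hd (norm_middle hl hxn 1) _
        (fun h => absurd h one_ne_zero) (Or.inl ⟨rfl, ?_⟩))
      simpa using hx2
    · exact isComm_append hσ hq23 hh hl hN
  · -- size two
    obtain ⟨τ, hτ⟩ : ∃ τ : F, q = 2 ∧ τ = 0 ∨ q = 3 ∧ τ = 2 := by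
      rcases hq23 with h | h
      exacts [⟨0, Or.inl ⟨h, rfl⟩⟩, ⟨2, Or.inr ⟨h, rfl⟩⟩]
    obtain ⟨P', s', hP', hs', hd', hcyc', htr⟩ :=
      exists_two hσ τ hτ R (hRu 1 0 (by decide)) (hR1 0) (hR1 1)
    have hfix : m = 0 → σ R.det = R.det := by
      intro hm
      obtain ⟨x, hx0, hxσ⟩ := exists_skew hσ
      have hd1 : (adj σ (trid ![0, x]) * R).det = R.det := by
        rw [det_mul, det_adj, det_trid_succ_succ]
        simp
      obtain ⟨-, -, -, -, -, -, -, hfix⟩ := exists_move hσ hh hl hN.vw hN.vv (trid ![0, x]) 0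
        (fun _ => rfl)
        (by rw [adj_trid]; ext a b; fin_cases a <;> fin_cases b <;> simp [hxσ])
        (by rw [hN.ww, zero_add, hR, hd1]; exact hRd)
      have := hfix hm
      rwa [hN.ww, zero_add, hR, hd1] at this
    exact step P' s' c (fun h => hs' (hfix h)) hP' hd' hc (good_small_two hσ hq23 hd' hτ
      (Or.inr ⟨hcyc', htr⟩) (norm_middle hl hc m) hc2 _ hc0)
  · -- larger sizes
    refine step P s c hs hP hd hc ?_
    rcases hq23 with rfl | rfl
    · rw [hc2 rfl]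
      obtain ⟨b, H, h1, h2, h3, h4, h5⟩ := good_two hσ _ hd (Or.inr ⟨by omega, hcyc⟩)
      exact ⟨b, H, h1, h2, h3, h4, fun _ => h5 trivial⟩
    · exact good_three hσ _ hd (norm_middle hl hc m) _ hc0 (Or.inr (Or.inr ⟨by omega, hcyc⟩))

end CfsgLib.OreSU
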