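import Cfsg.Agent.Lib.OreSU.Defs
import Cfsg.Agent.Lib.PSLCover.CoreBlock
import Cfsg.Agent.Lib.PSLCover.Helpers
import Cfsg.Agent.Lib.PSLCover.SplitTools

/-!
Cyclic blocks of determinant one are admissible commutators with a split second entry.
-/

set_option autoImplicit false
set_option linter.unusedSectionVars false

namespace CfsgLib.OreSU

open Matrix Polynomial

variable {F : Type*} [Field F] [Fintype F] {q : ℕ} {σ : F →+* F} {k : ℕ}

theorem freeW_of_triangular (H : Matrix (Fin k) (Fin k) F) (hT : ∀ i j, j < i → H i j = 0)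
    (hp : ∀ i j, H i i * σ (H j j) ≠ 1) : FreeW σ H := by
  intro X hX
  have key : ∀ d : ℕ, ∀ i j : Fin k, (k - i.val) + (k - j.val) = d → X i j = 0 := by
    intro d
    induction d using Nat.strong_induction_on with
    | _ d ih =>
      intro i j hd
      have h := congrFun (congrFun hX i) j
      simp only [Matrix.mul_apply, adj_apply, Finset.sum_mul] at h
      have hz : ∀ l a, (l ≠ j ∨ a ≠ i) → H i a * X a l * σ (H j l) = 0 := by
        intro l a hne
        rcases lt_or_ge a i with e | e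
        · rw [hT i a e, zero_mul, zero_mul]
        rcases lt_or_ge l j with e' | e'
        · rw [hT j l e', map_zero, mul_zero]
        have h1 := Fin.le_def.1 e
        have h2 := Fin.le_def.1 e'
        have h3 : i.val + j.val < a.val + l.val := by
          rcases hne with e'' | e''
          · have : l.val ≠ j.val := fun c => e'' (Fin.ext c)
            omega
          · have : a.val ≠ i.val := fun c => e'' (Fin.ext c)
            omega
        rw [ih ((k - a.val) + (k - l.val)) (by omega) a l rfl, mul_zero, zero_mul]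
      rw [Finset.sum_eq_single j (fun l _ hl => Finset.sum_eq_zero fun a _ => hz l a (Or.inl hl))
        (by simp), Finset.sum_eq_single i (fun a _ ha => hz j a (Or.inr ha)) (by simp)] at h
      have : (H i i * σ (H j j) - 1) * X i j = 0 := by linear_combination h
      exact (mul_eq_zero.1 this).resolve_left (sub_ne_zero.2 (hp i j))
  ext i j
  exact key _ i j rfl

theorem avoids_of_triangular (H : Matrix (Fin k) (Fin k) F) (hT : ∀ i j, j < i → H i j = 0)
    (hp : ∀ i, H i i * σ (H i i) ≠ 1) : Avoids σ H := by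
  intro η hη v hv
  have key : ∀ d : ℕ, ∀ i : Fin k, k - i.val = d → v i = 0 := by
    intro d
    induction d using Nat.strong_induction_on with
    | _ d ih =>
      intro i hd
      have h := congrFun hv i
      simp only [Matrix.mulVec, dotProduct, Pi.smul_apply, smul_eq_mul] at h
      rw [Finset.sum_eq_single i (fun a _ ha => ?_) (by simp)] at h
      · have : (H i i - η) * v i = 0 := by linear_combination h
        exact (mul_eq_zero.1 this).resolve_left (sub_ne_zero.2 fun e => hp i (e ▸ hη))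
      · rcases lt_or_gt_of_ne ha with e | e
        · rw [hT i a e, zero_mul]
        · have := Fin.lt_def.1 e
          rw [ih (k - a.val) (by omega) a rfl, mul_zero]
  exact funext fun i => key _ i rfl

/-- A determinant can be moved into the subfield by a power prime to `q + 1`. -/
theorem exists_det_fix (hσ : IsConj q σ) {c : ℕ} (hc : c.Coprime (q + 1)) (d : Fˣ) :
    ∃ u : Fˣ, ((d : F) * (u : F) ^ c) ^ (q - 1) = 1 := by
  have hb := Int.gcd_eq_gcd_ab (c : ℤ) ((q + 1 : ℕ) : ℤ)
  rw [Int.gcd_natCast_natCast, hc.gcd_eq_one, Nat.cast_one] at hb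
  set a := Int.gcdA (c : ℤ) ((q + 1 : ℕ) : ℤ)
  set b := Int.gcdB (c : ℤ) ((q + 1 : ℕ) : ℤ)
  refine ⟨d ^ (-a), ?_⟩
  have h1 : d * (d ^ (-a)) ^ c = (d ^ b) ^ (q + 1) := by
    rw [← zpow_natCast (d ^ (-a)) c, ← zpow_natCast (d ^ b) (q + 1), ← _root_.zpow_mul, ← _root_.zpow_mul]
    conv_lhs => arg 1; rw [← zpow_one d]
    rw [← _root_.zpow_add]
    congr 1
    linear_combination hb
  rw [← Units.val_pow_eq_pow_val, ← Units.val_mul, h1, Units.val_pow_eq_pow_val, ← pow_mul,
    ← Nat.sq_sub_sq, one_pow, ← hσ.card, Nat.card_eq_fintype_card]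
  exact FiniteField.pow_card_sub_one_eq_one _ (d ^ b).ne_zero

/-- The engine: a cyclic block of determinant one with a split second entry. -/
theorem good_split (hσ : IsConj q σ) (hk : 1 ≤ k) (A : Matrix (Fin k) (Fin k) F)
    (hA : CfsgLib.PSLCover.HasCyclic A) (hd : A.det = 1) (γ : Fin k → F) (h0 : ∀ i, γ i ≠ 0)
    (hp : ∀ i j, γ i * σ (γ j) ≠ 1)
    (hseg : ∀ i j : Fin k, i < j → γ i = γ j → ∀ l : Fin k, l.val + 1 = j.val → γ l = γ j)
    (h2 : k = 2 → ∀ i j : Fin k, i ≠ j → γ i ≠ γ j) {ε : F} (hε : ε = (∏ i, γ i) ^ (q - 1))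
    (fix : Prop) (hfix : fix → ∃ i₀, Nat.Coprime (Nat.card {i // γ i = γ i₀}) (q + 1)) :
    Good q σ ε fix A := by
  classical
  rcases (show k = 1 ∨ 2 ≤ k by omega) with rfl | hk2
  · have hA1 : A = 1 := by
      ext i j
      have := hd
      rw [Matrix.det_fin_one] at this
      fin_cases i; fin_cases j
      simpa using this
    let H : GL (Fin 1) F := GeneralLinearGroup.mkOfDetNeZero (diagonal γ)
      (by rw [det_diagonal]; exact Finset.prod_ne_zero_iff.2 fun i _ => h0 i)
    refine ⟨1, H, ?_, ?_, ?_, ?_, fun _ => by simp⟩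
    · rw [hA1]; simp
    · exact freeW_of_triangular _ (fun i j hij => by have := Fin.lt_def.1 hij; omega)
        (fun i j => by simpa [H] using hp i j)
    · exact avoids_of_triangular _ (fun i j hij => by have := Fin.lt_def.1 hij; omega)
        (fun i => by simpa [H] using hp i i)
    · simp [H, hε]
  obtain ⟨m, rfl⟩ : ∃ m, k = m + 2 := ⟨k - 2, by omega⟩
  set g := A.charpoly with hg
  set f : F[X] := ∏ i, (X - C (γ i)) with hf
  have hgm : g.Monic := charpoly_monic _
  have hgd : g.natDegree = m + 2 := by simp [hg, charpoly_natDegree_eq_dim]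
  have hfm : f.Monic := monic_prod_of_monic _ _ fun i _ => monic_X_sub_C _
  have hfd : f.natDegree = m + 2 := by
    rw [hf, natDegree_prod _ _ fun i _ => X_sub_C_ne_zero _]
    simp only [natDegree_X_sub_C]
    simp
  have hc : f.coeff 0 = (∏ i, γ i) * g.coeff 0 := by
    have h1 := det_eq_sign_charpoly_coeff A
    rw [hd, Fintype.card_fin, ← hg] at h1
    have h2 : f.coeff 0 = (-1) ^ (m + 2) * ∏ i, γ i := by
      rw [coeff_zero_eq_eval_zero, hf, eval_prod]
      simp only [eval_sub, eval_X, eval_C, zero_sub]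
      rw [Finset.prod_neg, Finset.card_univ, Fintype.card_fin]
    have h3 : ((-1 : F) ^ (m + 2)) * (-1) ^ (m + 2) = 1 := by rw [← mul_pow]; simp
    rw [h2]
    linear_combination (∏ i, γ i) * ((-1 : F) ^ (m + 2) * h1) + (∏ i, γ i) * g.coeff 0 * h3
  have hq4 : 4 ≤ Fintype.card F := by
    rw [← Nat.card_eq_fintype_card, hσ.card]
    calc 4 = 2 ^ 2 := rfl
      _ ≤ q ^ 2 := Nat.pow_le_pow_left hσ.two_le 2
  obtain ⟨s, hs0, hsum⟩ := PSLCover.exists_super F hq4
    (γ (Fin.last _) * g.coeff (m + 1) - f.coeff (m + 1)) m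
  obtain ⟨x, hchar, hxl⟩ := PSLCover.exists_last_column f g hfm hfd hgm hgd γ h0 s hc
  set M := PSLCover.triBlock γ s x with hM
  have hdiag : ∀ i, M i i = γ i := fun i => PSLCover.triBlock_diag γ s x i
  have hup : ∀ i j, j < i → M i j = 0 := fun i j h => PSLCover.triBlock_below γ s x h
  have hlink : ∀ i j : Fin (m + 2), i < j → M i i = M j j →
      ∃ l : Fin (m + 2), l.val + 1 = j.val ∧ M l l = M j j ∧ M l j ≠ 0 := by
    intro i j hij he
    rw [hdiag, hdiag] at he
    have hij' := Fin.lt_def.1 hij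
    refine ⟨⟨j.val - 1, by omega⟩, show j.val - 1 + 1 = j.val by omega, ?_, ?_⟩
    · rw [hdiag, hdiag]
      exact hseg i j hij he _ (show j.val - 1 + 1 = j.val by omega)
    induction j using Fin.lastCases with
    | last =>
      rw [show (⟨(Fin.last (m + 1)).val - 1, by simp⟩ : Fin (m + 2)) = (Fin.last m).castSucc from
        Fin.ext (by simp), hM, PSLCover.triBlock_castSucc_last, hxl]
      rcases Nat.eq_zero_or_pos m with rfl | hm
      · exact absurd he (h2 rfl i _ hij.ne)
      · exact sub_ne_zero.2 (hsum hm).symm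
    | cast j =>
      simp only [Fin.val_castSucc] at hij'
      rw [hM, PSLCover.triBlock_castSucc, if_neg (fun e => by
        have := congrArg Fin.val e; simp at this; omega), dif_pos (by simp; omega)]
      exact hs0 _
  have hS : PSLCover.SplitCyc M γ := by
    have := PSLCover.splitCyc_of_upperTri M hup hlink
    rwa [show (fun i => M i i) = γ from funext hdiag] at this
  have hMdet : M.det = ∏ i, γ i := PSLCover.det_triBlock γ s x
  let H : GL (Fin (m + 2)) F := GeneralLinearGroup.mkOfDetNeZero M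
    (by rw [hMdet]; exact Finset.prod_ne_zero_iff.2 fun i _ => h0 i)
  have hH : (H : Matrix (Fin (m + 2)) (Fin (m + 2)) F) = M := rfl
  let Cm : GL (Fin (m + 2)) F := GeneralLinearGroup.mkOfDetNeZero (PSLCover.compMat (m := m) g)
    (by
      rw [Matrix.det_eq_sign_charpoly_coeff, PSLCover.charpoly_comp g hgm hgd, Fintype.card_fin]
      have h1 := det_eq_sign_charpoly_coeff A
      rw [hd, Fintype.card_fin, ← hg] at h1
      rw [← h1]
      exact one_ne_zero)
  obtain ⟨y, hy⟩ := PSLCover.exists_conj_of_hasCyclic _ _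
    (PSLCover.hasCyclic_triBlock_mul_comp g γ h0 s x) hS.1 (hchar.trans hS.2.symm)
  obtain ⟨P, hP⟩ := PSLCover.exists_conj_of_hasCyclic _ _ hA (PSLCover.hasCyclic_comp (m := m) g)
    (PSLCover.charpoly_comp g hgm hgd).symm
  obtain ⟨z, hz, hzd⟩ : ∃ z : GL (Fin (m + 2)) F, z * H = H * z ∧
      (fix → ((y * z : GL (Fin (m + 2)) F) : Matrix (Fin (m + 2)) (Fin (m + 2)) F).det ^ (q - 1) = 1) := by
    by_cases hf : fix
    · obtain ⟨i₀, hi₀⟩ := hfix hf
      obtain ⟨u, hu⟩ := exists_det_fix hσ hi₀ (GeneralLinearGroup.det y)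
      obtain ⟨z, hz, hzd⟩ := PSLCover.mem_detCent.1
        (PSLCover.pow_count_mem_detCent (X := H) (h := γ) (hH ▸ hS) (γ i₀) u)
      refine ⟨z, hz, fun _ => ?_⟩
      rw [Nat.card_eq_fintype_card, Fintype.card_subtype] at hu
      have e1 := congrArg Units.val hzd
      rw [Units.val_pow_eq_pow_val] at e1
      rw [Units.val_mul, det_mul]
      rw [← e1] at hu
      exact hu
    · exact ⟨1, by simp, fun h => absurd h hf⟩
  have hgood : Good q σ ε fix
      (((y * z) * H * (y * z)⁻¹ * H⁻¹ : GL (Fin (m + 2)) F) : Matrix (Fin (m + 2)) (Fin (m + 2)) F) :=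
    ⟨y * z, H, rfl, freeW_of_triangular _ hup (fun i j => by rw [hH, hdiag, hdiag]; exact hp i j),
      avoids_of_triangular _ hup (fun i => by rw [hH, hdiag]; exact hp i i),
      by rw [hH, hMdet, hε], hzd⟩
  have hyH : y * z * H * (y * z)⁻¹ = H * Cm := by
    have h1 : y * z * H * (y * z)⁻¹ = y * H * y⁻¹ := by
      calc y * z * H * (y * z)⁻¹ = y * (z * H) * z⁻¹ * y⁻¹ := by group
        _ = y * (H * z) * z⁻¹ * y⁻¹ := by rw [hz]
        _ = y * H * y⁻¹ := by group
    rw [h1]
    exact Units.ext hy.symm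
  have hA' : A = ((P * H⁻¹ : GL (Fin (m + 2)) F) : Matrix (Fin (m + 2)) (Fin (m + 2)) F) *
      (((y * z) * H * (y * z)⁻¹ * H⁻¹ : GL (Fin (m + 2)) F) : Matrix (Fin (m + 2)) (Fin (m + 2)) F) *
      (((P * H⁻¹)⁻¹ : GL (Fin (m + 2)) F) : Matrix (Fin (m + 2)) (Fin (m + 2)) F) := by
    rw [hyH, ← Units.val_mul, ← Units.val_mul]
    calc A = ((P * Cm * P⁻¹ : GL (Fin (m + 2)) F) : Matrix (Fin (m + 2)) (Fin (m + 2)) F) := hP
      _ = _ := congrArg Units.val (by group)
  rw [hA']
  exact hgood.conj _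

end CfsgLib.OreSU
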